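import Mathlib
import Cfsg.Agent.Lib.H08.CC1

/-! Groups whose two largest class sizes are coprime: the commutator endomorphism (helper8). -/

set_option autoImplicit false
set_option linter.style.haveILetI false
set_option linter.unusedSectionVars false
set_option linter.unusedVariables false

namespace Cfsg.Agent.H08.CC

variable {G : Type*} [Group G]

lemma card_inf_mul_relIndex' (H K : Subgroup G) :
    Nat.card (H ⊓ K : Subgroup G) * H.relIndex K = Nat.card K :=
  H18.card_inf_mul_relIndex H K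

/-- two disjoint subgroups of `H` -/
lemma card_mul_card_le_of_disjoint [Finite G] (A B H : Subgroup G) (hA : A ≤ H) (hB : B ≤ H)
    (hd : ∀ w, w ∈ A → w ∈ B → w = 1) : Nat.card A * Nat.card B ≤ Nat.card H := by
  rw [← Nat.card_prod]
  refine Nat.card_le_card_of_injective
    (fun p : A × B => (⟨(p.1 : G) * p.2, H.mul_mem (hA p.1.2) (hB p.2.2)⟩ : H)) ?_
  rintro ⟨a, b⟩ ⟨a', b'⟩ h
  have h1 : (a : G) * b = a' * b' := congrArg Subtype.val h
  have h2 : (a' : G)⁻¹ * a = b' * (b : G)⁻¹ := by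
    calc (a' : G)⁻¹ * a = (a' : G)⁻¹ * (a * b) * (b : G)⁻¹ := by group
      _ = (a' : G)⁻¹ * (a' * b') * (b : G)⁻¹ := by rw [h1]
      _ = _ := by group
  have h3 : (a' : G)⁻¹ * a = 1 := hd _ (A.mul_mem (A.inv_mem a'.2) a.2)
    (by rw [h2]; exact B.mul_mem b'.2 (B.inv_mem b.2))
  have h4 : (a : G) = a' := by
    calc (a : G) = a' * ((a' : G)⁻¹ * a) := by group
      _ = a' := by rw [h3, mul_one]
  have h5 : (b : G) = b' := by
    rw [h4] at h1
    exact mul_left_cancel h1
  exact Prod.ext (Subtype.ext h4) (Subtype.ext h5)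

/-- the orbit-stabilizer bound; the orbit of `v ≠ 1` under `L` lies in `V ∖ {1}` -/
lemma card_orbit_bound [Finite G] (L V : Subgroup G) (v : G) (hv : v ∈ V) (hv1 : v ≠ 1)
    (hst : ∀ l ∈ L, ∀ w ∈ V, l * w * l⁻¹ ∈ V) :
    Nat.card L + Nat.card (L ⊓ cz v : Subgroup G) ≤ Nat.card V * Nat.card (L ⊓ cz v : Subgroup G) := by
  classical
  -- the index of the stabilizer
  set H : Subgroup L := (cz v).subgroupOf L with hH
  have hcard : Nat.card H = Nat.card (L ⊓ cz v : Subgroup G) := by
    rw [inf_comm]; exact H18.card_subgroupOf _ _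
  have h1 : Nat.card H * H.index = Nat.card L := Subgroup.card_mul_index H
  have hV : H.index + 1 ≤ Nat.card V := by
    -- map from the quotient
    let f : L → V := fun l => ⟨l * v * (l : G)⁻¹, hst l l.2 v hv⟩
    have hf : ∀ a b : L, f a = f b ↔ (QuotientGroup.leftRel H).r a b := by
      intro a b
      rw [QuotientGroup.leftRel_apply, hH, Subgroup.mem_subgroupOf, mem_cz]
      constructor
      · intro h
        have h2 : (a : G) * v * (a : G)⁻¹ = b * v * (b : G)⁻¹ := congrArg Subtype.val h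
        have h3 : (a : G)⁻¹ * b * v = v * ((a : G)⁻¹ * b) := by
          calc (a : G)⁻¹ * b * v = (a : G)⁻¹ * (b * v * (b : G)⁻¹) * b := by group
            _ = (a : G)⁻¹ * (a * v * (a : G)⁻¹) * b := by rw [h2]
            _ = _ := by group
        simpa using h3
      · intro h
        have h3 : (a : G)⁻¹ * b * v = v * ((a : G)⁻¹ * b) := by simpa using h
        apply Subtype.ext
        show (a : G) * v * (a : G)⁻¹ = b * v * (b : G)⁻¹
        calc (a : G) * v * (a : G)⁻¹ = a * (v * ((a : G)⁻¹ * b)) * (b : G)⁻¹ := by group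
          _ = a * ((a : G)⁻¹ * b * v) * (b : G)⁻¹ := by rw [h3]
          _ = _ := by group
    let F : Option (L ⧸ H) → V := fun o => match o with
      | none => ⟨1, V.one_mem⟩
      | some q => Quotient.liftOn' q f (fun a b h => (hf a b).2 h)
    have hF : Function.Injective F := by
      intro o₁ o₂ h
      match o₁, o₂, h with
      | none, none, _ => rfl
      | none, some q, h =>
        exfalso
        induction q using Quotient.inductionOn' with
        | h a =>
          have h2 : (1 : G) = a * v * (a : G)⁻¹ := congrArg Subtype.val h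
          apply hv1
          have : v = (a : G)⁻¹ * (a * v * (a : G)⁻¹) * a := by group
          rw [this, ← h2]; group
      | some q, none, h =>
        exfalso
        induction q using Quotient.inductionOn' with
        | h a =>
          have h2 : a * v * (a : G)⁻¹ = (1 : G) := congrArg Subtype.val h
          apply hv1
          have : v = (a : G)⁻¹ * (a * v * (a : G)⁻¹) * a := by group
          rw [this, h2]; group
      | some q₁, some q₂, h =>
        induction q₁ using Quotient.inductionOn' with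
        | h a =>
          induction q₂ using Quotient.inductionOn' with
          | h b =>
            have h2 : f a = f b := h
            congr 1
            exact Quotient.sound' ((hf a b).1 h2)
    have h2 := Nat.card_le_card_of_injective F hF
    rw [Finite.card_option] at h2
    exact h2
  have hpos : 0 < Nat.card H := Nat.card_pos
  rw [← hcard, ← h1]
  calc Nat.card H * H.index + Nat.card H = (H.index + 1) * Nat.card H := by ring
    _ ≤ Nat.card V * Nat.card H := Nat.mul_le_mul_right _ hV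

section psi

variable (A : Subgroup G) [hA : A.Normal] (hAc : ∀ u ∈ A, ∀ v ∈ A, u * v = v * u)

/-- `w ↦ w⁻¹ (g w g⁻¹)` on a normal abelian subgroup -/
def psi (g : G) : A →* A where
  toFun w := ⟨(w : G)⁻¹ * (g * w * g⁻¹), A.mul_mem (A.inv_mem w.2) (hA.conj_mem _ w.2 g)⟩
  map_one' := by
    apply Subtype.ext
    simp
  map_mul' u v := by
    apply Subtype.ext
    show ((u * v : A) : G)⁻¹ * (g * (u * v : A) * g⁻¹) =
      ((u : G)⁻¹ * (g * u * g⁻¹)) * ((v : G)⁻¹ * (g * v * g⁻¹))
    have h1 : (v : G)⁻¹ * (g * u * g⁻¹) = (g * u * g⁻¹) * (v : G)⁻¹ :=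
      hAc _ (A.inv_mem v.2) _ (hA.conj_mem _ u.2 g)
    have h2 : (u : G) * v = v * u := hAc _ u.2 _ v.2
    calc ((u * v : A) : G)⁻¹ * (g * (u * v : A) * g⁻¹)
        = ((u : G) * v)⁻¹ * (g * ((u : G) * v) * g⁻¹) := rfl
      _ = ((v : G) * u)⁻¹ * (g * ((u : G) * v) * g⁻¹) := by rw [h2]
      _ = (u : G)⁻¹ * ((v : G)⁻¹ * (g * u * g⁻¹)) * (g * v * g⁻¹) := by group
      _ = (u : G)⁻¹ * ((g * u * g⁻¹) * (v : G)⁻¹) * (g * v * g⁻¹) := by rw [h1]
      _ = _ := by group

/-- the image of `psi` as a subgroup of `G` -/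
def vv (g : G) : Subgroup G := (psi A hAc g).range.map A.subtype

lemma mem_vv {g v : G} : v ∈ vv A hAc g ↔ ∃ w ∈ A, v = w⁻¹ * (g * w * g⁻¹) := by
  constructor
  · rintro ⟨_, ⟨w, rfl⟩, rfl⟩
    exact ⟨w, w.2, rfl⟩
  · rintro ⟨w, hw, rfl⟩
    exact ⟨_, ⟨⟨w, hw⟩, rfl⟩, rfl⟩

lemma vv_le (g : G) : vv A hAc g ≤ A := by
  intro v hv
  obtain ⟨w, hw, rfl⟩ := (mem_vv A hAc).1 hv
  exact A.mul_mem (A.inv_mem hw) (hA.conj_mem _ hw g)

lemma card_vv [Finite G] (g : G) :
    Nat.card (A ⊓ cz g : Subgroup G) * Nat.card (vv A hAc g) = Nat.card A := by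
  have h1 : Nat.card (vv A hAc g) = Nat.card (psi A hAc g).range :=
    Subgroup.card_map_of_injective A.subtype_injective
  have h2 : Nat.card (A ⊓ cz g : Subgroup G) = Nat.card (psi A hAc g).ker := by
    have h3 : (psi A hAc g).ker = (cz g).subgroupOf A := by
      ext w
      rw [MonoidHom.mem_ker, Subgroup.mem_subgroupOf, mem_cz]
      constructor
      · intro h
        have h4 : (w : G)⁻¹ * (g * w * g⁻¹) = 1 := congrArg Subtype.val h
        have h5 : g * w * g⁻¹ = w := by
          calc g * w * g⁻¹ = w * ((w : G)⁻¹ * (g * w * g⁻¹)) := by group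
            _ = w := by rw [h4, mul_one]
        calc (w : G) * g = (g * w * g⁻¹) * g := by rw [h5]
          _ = g * w := by group
      · intro h
        apply Subtype.ext
        show (w : G)⁻¹ * (g * w * g⁻¹) = 1
        rw [← h]; group
    rw [h3, inf_comm]
    exact (H18.card_subgroupOf _ _).symm
  rw [h1, h2, mul_comm]
  have h4 := Subgroup.card_mul_index (psi A hAc g).ker
  rw [Subgroup.index_ker] at h4
  rw [mul_comm]; exact h4

/-- the Fitting decomposition -/
lemma fitting [Finite G] (g : G) (hd : ∀ v ∈ vv A hAc g, v ∈ cz g → v = 1) :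
    ∀ a ∈ A, ∃ k ∈ A, k ∈ cz g ∧ ∃ v ∈ vv A hAc g, a = k * v := by
  have hinj : Function.Injective (fun p : (A ⊓ cz g : Subgroup G) × vv A hAc g =>
      (⟨(p.1 : G) * p.2, A.mul_mem p.1.2.1 (vv_le A hAc g p.2.2)⟩ : A)) := by
    rintro ⟨a, b⟩ ⟨a', b'⟩ h
    have h1 : (a : G) * b = a' * b' := congrArg Subtype.val h
    have h2 : (a' : G)⁻¹ * a = b' * (b : G)⁻¹ := by
      calc (a' : G)⁻¹ * a = (a' : G)⁻¹ * (a * b) * (b : G)⁻¹ := by group
        _ = (a' : G)⁻¹ * (a' * b') * (b : G)⁻¹ := by rw [h1]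
        _ = _ := by group
    have h3 : b' * (b : G)⁻¹ = 1 := by
      apply hd _ ((vv A hAc g).mul_mem b'.2 ((vv A hAc g).inv_mem b.2))
      rw [← h2]
      exact (cz g).mul_mem ((cz g).inv_mem a'.2.2) a.2.2
    have h4 : (b' : G) = b := by
      calc (b' : G) = b' * (b : G)⁻¹ * b := by group
        _ = b := by rw [h3, one_mul]
    have h5 : (a : G) = a' := by
      rw [h4] at h1
      exact mul_right_cancel h1
    exact Prod.ext (Subtype.ext h5) (Subtype.ext h4.symm)
  have hbij := Function.Injective.bijective_of_nat_card_le hinj (by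
    rw [Nat.card_prod, card_vv])
  intro a ha
  obtain ⟨⟨k, v⟩, hkv⟩ := hbij.2 ⟨a, ha⟩
  have h1 : (k : G) * v = a := congrArg Subtype.val hkv
  exact ⟨k, k.2.1, k.2.2, v, v.2, h1.symm⟩

/-- `C(g)` normalises the image -/
lemma vv_stable {g l : G} (hl : l ∈ cz g) : ∀ v ∈ vv A hAc g, l * v * l⁻¹ ∈ vv A hAc g := by
  intro v hv
  obtain ⟨w, hw, rfl⟩ := (mem_vv A hAc).1 hv
  refine (mem_vv A hAc).2 ⟨l * w * l⁻¹, hA.conj_mem _ hw l, ?_⟩
  have h1 : l * g = g * l := mem_cz.1 hl
  calc l * (w⁻¹ * (g * w * g⁻¹)) * l⁻¹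
      = l * w⁻¹ * l⁻¹ * ((l * g) * w * (l * g)⁻¹) := by group
    _ = l * w⁻¹ * l⁻¹ * ((g * l) * w * (g * l)⁻¹) := by rw [h1]
    _ = _ := by group

end psi

end Cfsg.Agent.H08.CC
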