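import Mathlib
import Cfsg.Agent.Lib.H08.CC2

/-! Groups whose two largest class sizes are coprime: the centralizer of `x` (helper8). -/

set_option autoImplicit false
set_option linter.style.haveILetI false
set_option linter.unusedSectionVars false
set_option linter.unusedVariables false

namespace Cfsg.Agent.H08.CC

variable {G : Type*} [Group G]

lemma card_map_mk_mul' (H N : Subgroup G) [N.Normal] :
    Nat.card (H.map (QuotientGroup.mk' N)) * Nat.card (H ⊓ N : Subgroup G) = Nat.card H := by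
  let f : H →* G ⧸ N := (QuotientGroup.mk' N).comp H.subtype
  have h1 : f.range = H.map (QuotientGroup.mk' N) := by
    rw [MonoidHom.range_comp, Subgroup.range_subtype]
  have h2 : f.ker = N.subgroupOf H := by
    ext x
    simp [f, MonoidHom.mem_ker, Subgroup.mem_subgroupOf, QuotientGroup.eq_one_iff]
  have h3 : Nat.card (N.subgroupOf H) = Nat.card (H ⊓ N : Subgroup G) := by
    have : (N.subgroupOf H).map H.subtype = H ⊓ N := by
      rw [Subgroup.subgroupOf_map_subtype, inf_comm]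
    rw [← this]
    exact (Subgroup.card_map_of_injective H.subtype_injective).symm
  rw [← h1, ← h3, ← h2]
  have h4 := Subgroup.card_mul_index f.ker
  rw [Subgroup.index_ker] at h4
  rw [mul_comm]; exact h4

lemma index_lt_of_card_lt [Finite G] {H K : Subgroup G} (h : Nat.card H < Nat.card K) :
    K.index < H.index := by
  by_contra hh
  push Not at hh
  have h1 := Subgroup.card_mul_index H
  have h2 := Subgroup.card_mul_index K
  have h3 : 0 < K.index := Nat.pos_of_ne_zero Subgroup.index_ne_zero_of_finite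
  have h4 : Nat.card H * H.index < Nat.card K * K.index := by
    calc Nat.card H * H.index ≤ Nat.card H * K.index := Nat.mul_le_mul_left _ hh
      _ < Nat.card K * K.index := Nat.mul_lt_mul_of_pos_right h h3
  omega

/-- centralizer of `S` -/
abbrev MM (S : Subgroup G) : Subgroup G := Subgroup.centralizer (S : Set G)

lemma mem_MM {S : Subgroup G} {u : G} : u ∈ MM S ↔ S ≤ cz u := by
  rw [Subgroup.mem_centralizer_iff]
  constructor
  · intro h w hw
    exact mem_cz.2 (h w hw)
  · intro h w hw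
    exact mem_cz.1 (h hw)

/-- the data of the main argument -/
structure Setup [Finite G] (m n : ℕ) (S : Subgroup G) (s : G) : Prop where
  hmn : n < m
  hn : 1 < n
  hcop : m.Coprime n
  top : ∀ z : G, (cz z).index ≤ m
  dich : ∀ z : G, (cz z).index = m ∨ (cz z).index ≤ n
  cS : ∀ u ∈ S, ∀ v ∈ S, u * v = v * u
  dS : Nat.card S ∣ m
  aS : ∀ w ∈ S, ∀ {y₁ y' : G}, (cz y₁).index = m → IsConj y₁ y' → IsConj y₁ (w * y')
  hs : s ∈ S
  is : (cz s).index = n
  gen : ∀ u : G, (∀ g : G, g * s * g⁻¹ ∈ cz u) → S ≤ cz u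
  ey : ∃ y : G, (cz y).index = m

variable [Finite G] {m n : ℕ} {S : Subgroup G} {s : G} [hS : S.Normal]

omit hS in
lemma Setup.ndvd (X : Setup m n S s) : ¬ n ∣ m := by
  intro h
  have h1 : n = 1 := Nat.Coprime.eq_one_of_dvd X.hcop.symm h
  have := X.hn
  omega

omit hS in
lemma Setup.mndvd (X : Setup m n S s) {k : ℕ} (hk : m ∣ k) (hk0 : k ≠ 0) : n < k := by
  have h1 := Nat.le_of_dvd (Nat.pos_of_ne_zero hk0) hk
  have := X.hmn
  omega

omit hS in
lemma Setup.mpos (X : Setup m n S s) : 1 < m := by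
  have := X.hmn; have := X.hn; omega

omit hS in
lemma Setup.prime_not_dvd (X : Setup m n S s) {r : ℕ} (hr : r.Prime) (hrn : r ∣ n) : ¬ r ∣ m := by
  intro h
  have h1 := Nat.dvd_gcd h hrn
  rw [X.hcop] at h1
  exact hr.one_lt.ne' (Nat.dvd_one.1 h1)

omit hS in
lemma Setup.exists_prime (X : Setup m n S s) : ∃ r : ℕ, r.Prime ∧ r ∣ n :=
  ⟨n.minFac, Nat.minFac_prime (by have := X.hn; omega), Nat.minFac_dvd n⟩

omit hS in
lemma Setup.pi_of_mem (X : Setup m n S s) {w : G} (hw : w ∈ S) : IsPi m w := by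
  refine ⟨1, ?_⟩
  rw [pow_one, ← orderOf_dvd_iff_pow_eq_one]
  exact (Subgroup.orderOf_dvd_natCard S hw).trans X.dS

omit hS in
lemma Setup.pow_m (X : Setup m n S s) {w : G} (hw : w ∈ S) : w ^ m = 1 := by
  rw [← orderOf_dvd_iff_pow_eq_one]
  exact (Subgroup.orderOf_dvd_natCard S hw).trans X.dS

omit hS in
lemma Setup.S_le_cz (X : Setup m n S s) {t : G} (ht : t ∈ S) : S ≤ cz t := by
  intro w hw
  exact mem_cz.2 (X.cS w hw t ht)

omit hS in
lemma Setup.S_le_M (X : Setup m n S s) : S ≤ MM S := by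
  intro t ht
  exact mem_MM.2 (X.S_le_cz ht)

omit hS in
lemma Setup.M_le_cz (X : Setup m n S s) {t : G} (ht : t ∈ S) : MM S ≤ cz t := by
  intro u hu
  exact mem_cz_comm.2 (mem_MM.1 hu ht)

omit hS in
lemma Setup.dich_of_gt (X : Setup m n S s) {z : G} (h : n < (cz z).index) : (cz z).index = m := by
  rcases X.dich z with h1 | h1
  · exact h1
  · omega

omit hS in
/-- the absorption lemma -/
lemma Setup.absorb (X : Setup m n S s) {g c : G} (hcomm : c ∈ cz g)
    (hc : (orderOf g).Coprime (orderOf c)) (hj : (cz g).index = m ∨ (cz g).index = n) :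
    cz g ≤ cz c := by
  have h0 : Commute g c := (mem_cz.1 hcomm).symm
  have h1 : cz (g * c) ≤ cz g ⊓ cz c := cz_mul_le h0 hc
  have h2 : (cz g).index ∣ (cz (g * c)).index := Subgroup.index_dvd_of_le (h1.trans inf_le_left)
  have h3 : (cz (g * c)).index ≤ (cz g).index := by
    rcases hj with hj | hj
    · rw [hj]; exact X.top _
    · rcases X.dich (g * c) with h4 | h4
      · exfalso
        rw [h4, hj] at h2
        exact X.ndvd h2
      · rwa [hj]
  exact (le_of_le_of_index_le (h1.trans inf_le_left) h3).trans (h1.trans inf_le_right)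

omit hS in
/-- P1 -/
lemma Setup.P1 (X : Setup m n S s) {a : G} (ha : a ∈ cz s) (hπ : IsPi' m a) : cz s ≤ cz a :=
  X.absorb ha (coprime_pi_pi' (X.pi_of_mem X.hs) hπ) (Or.inr X.is)

/-- the key fixed-point lemma (F) -/
theorem Setup.F (X : Setup m n S s) {u t : G} (hu : IsPi' m u) (huM : u ∉ MM S) (ht : t ∈ S)
    (htu : t ∈ cz u) : t = 1 := by
  classical
  by_contra ht1
  obtain ⟨g, hg⟩ : ∃ g : G, g * s * g⁻¹ ∉ cz u := by
    by_contra hh
    push Not at hh
    exact huM (mem_MM.2 (X.gen u hh))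
  obtain ⟨s', hs'⟩ : ∃ s' : G, s' = g * s * g⁻¹ := ⟨_, rfl⟩
  rw [← hs'] at hg
  have hs'S : s' ∈ S := by rw [hs']; exact hS.conj_mem _ X.hs g
  have his' : (cz s').index = n := by rw [hs', index_conj]; exact X.is
  have hd : ∀ v ∈ vv S X.cS u, v ∈ cz u → v = 1 := by
    intro v hv hvu
    obtain ⟨w, hw, hvw⟩ := (mem_vv S X.cS).1 hv
    have hvS : v ∈ S := vv_le S X.cS u hv
    have hcomm : Commute v u := mem_cz.1 hvu
    have h1 : u * w = w * v * u := by
      rw [hvw]; group
    have h2 : ∀ j : ℕ, u ^ j * w = w * v ^ j * u ^ j := by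
      intro j
      induction j with
      | zero => simp
      | succ j ih =>
        calc u ^ (j + 1) * w = u ^ j * (u * w) := by rw [pow_succ]; group
          _ = u ^ j * (w * v * u) := by rw [h1]
          _ = (u ^ j * w) * v * u := by group
          _ = (w * v ^ j * u ^ j) * v * u := by rw [ih]
          _ = w * v ^ j * (u ^ j * v) * u := by group
          _ = w * v ^ j * (v * u ^ j) * u := by
              rw [(hcomm.symm.pow_left j).eq]
          _ = w * v ^ (j + 1) * u ^ (j + 1) := by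
              rw [pow_succ v, pow_succ u]; group
    have h3 := h2 (orderOf u)
    rw [pow_orderOf_eq_one, one_mul, mul_one] at h3
    have h4 : v ^ orderOf u = 1 := by simpa using h3
    have h5 : orderOf v ∣ orderOf u := orderOf_dvd_of_pow_eq_one h4
    have h6 : orderOf v ∣ m := orderOf_dvd_of_pow_eq_one (X.pow_m hvS)
    have h7 : orderOf v ∣ 1 := by
      have h8 := Nat.dvd_gcd h5 h6
      rwa [hu] at h8
    exact orderOf_eq_one_iff.1 (Nat.dvd_one.1 h7)
  obtain ⟨s₁, hs₁S, hs₁u, s₂, hs₂, he⟩ := fitting S X.cS u hd s' hs'S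
  have hs₂S : s₂ ∈ S := vv_le S X.cS u hs₂
  have hs₂1 : s₂ ≠ 1 := by
    rintro rfl
    rw [mul_one] at he
    rw [he] at hg
    exact hg hs₁u
  obtain ⟨t₀, ht₀S, ht₀u, ht₀1, hcrit⟩ : ∃ t₀ : G, t₀ ∈ S ∧ t₀ ∈ cz u ∧ t₀ ≠ 1 ∧
      ∀ l, l ∈ cz t₀ → l ∈ cz s₂ → l ∈ cz s' := by
    by_cases h : s₁ = 1
    · refine ⟨t, ht, htu, ht1, fun l _ hl => ?_⟩
      rw [he, h, one_mul]; exact hl
    · refine ⟨s₁, hs₁S, hs₁u, h, fun l h1 h2 => ?_⟩
      rw [he]
      exact mem_cz.2 (Commute.mul_right (mem_cz.1 h1) (mem_cz.1 h2))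
  -- the subgroups
  obtain ⟨L, hL⟩ : ∃ L : Subgroup G, L = cz t₀ ⊓ cz u := ⟨_, rfl⟩
  have horb := card_orbit_bound L (vv S X.cS u) s₂ hs₂ hs₂1
    (fun l hl w hw => vv_stable S X.cS (by rw [hL] at hl; exact hl.2) w hw)
  have hmul : Nat.card (L ⊓ cz s₂ : Subgroup G) * Nat.card (vv S X.cS u) ≤ Nat.card (cz s') := by
    apply card_mul_card_le_of_disjoint
    · intro l hl
      rw [hL] at hl
      exact hcrit l hl.1.1 hl.2
    · intro v hv
      exact mem_cz.2 (X.cS v (vv_le S X.cS u hv) s' hs'S)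
    · intro w hw hw'
      rw [hL] at hw
      exact hd w hw' hw.1.2
  have hpos : 0 < Nat.card (L ⊓ cz s₂ : Subgroup G) := Nat.card_pos
  have hlt : Nat.card L < Nat.card (cz s') := by
    have h1 : Nat.card (vv S X.cS u) * Nat.card (L ⊓ cz s₂ : Subgroup G) ≤ Nat.card (cz s') := by
      rwa [mul_comm]
    omega
  have hco : (orderOf t₀).Coprime (orderOf u) := coprime_pi_pi' (X.pi_of_mem ht₀S) hu
  have hcomm : Commute t₀ u := mem_cz.1 ht₀u
  have hle : cz (t₀ * u) ≤ L := by rw [hL]; exact cz_mul_le hcomm hco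
  have hcard : Nat.card (cz (t₀ * u)) ≤ Nat.card L := Subgroup.card_le_of_le hle
  have hidx : n < (cz (t₀ * u)).index := by
    rw [← his']
    exact index_lt_of_card_lt (lt_of_le_of_lt hcard hlt)
  have him := X.dich_of_gt hidx
  have hconj : IsConj (t₀ * u) (t₀⁻¹ * (t₀ * u)) :=
    X.aS t₀⁻¹ (S.inv_mem ht₀S) him (IsConj.refl _)
  have h5 : t₀⁻¹ * (t₀ * u) = u := by group
  rw [h5] at hconj
  obtain ⟨c, hc⟩ := isConj_iff.1 hconj
  have h6 : orderOf u = orderOf (t₀ * u) := by
    have h61 := orderOf_injective (MulAut.conj c).toMonoidHom (MulAut.conj c).injective (t₀ * u)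
    have h62 : (MulAut.conj c).toMonoidHom (t₀ * u) = u := hc
    rw [h62] at h61
    exact h61
  rw [hcomm.orderOf_mul_eq_mul_orderOf_of_coprime hco] at h6
  have h7 : 0 < orderOf u := orderOf_pos u
  have h8 : orderOf t₀ = 1 := by
    have : orderOf t₀ * orderOf u = 1 * orderOf u := by rw [one_mul]; exact h6.symm
    exact Nat.eq_of_mul_eq_mul_right h7 this
  exact ht₀1 (orderOf_eq_one_iff.1 h8)

/-- producing `Π'`-elements outside `M` -/
lemma Setup.exists_pi'_of_dvd (X : Setup m n S s) (H : Subgroup G) {r : ℕ} (hr : r.Prime)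
    (hrm : ¬ r ∣ m) (hdvd : r ∣ Nat.card (H.map (QuotientGroup.mk' (MM S)))) :
    ∃ u ∈ H, u ∉ MM S ∧ IsPi' m u := by
  haveI : Fact r.Prime := ⟨hr⟩
  obtain ⟨x, hx⟩ := exists_prime_orderOf_dvd_card' r hdvd
  obtain ⟨_, c, hc, rfl⟩ := x
  have hx2 : orderOf (QuotientGroup.mk' (MM S) c) = r := by
    rw [← hx]; exact (Subgroup.orderOf_mk _ _).symm
  obtain ⟨a, b, ha, hb, hab, hπ, hπ'⟩ := exists_split m c
  have hcH : Subgroup.zpowers c ≤ H := by
    rw [Subgroup.zpowers_le]; exact hc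
  refine ⟨b, hcH hb, ?_, hπ'⟩
  intro hbM
  obtain ⟨k, hk⟩ := hπ
  have h1 : QuotientGroup.mk' (MM S) c = QuotientGroup.mk' (MM S) a := by
    rw [hab, map_mul]
    have : QuotientGroup.mk' (MM S) b = 1 := (QuotientGroup.eq_one_iff b).2 hbM
    rw [this, mul_one]
  have h2 : (QuotientGroup.mk' (MM S) a) ^ (m ^ k) = 1 := by
    rw [← map_pow, hk, map_one]
  rw [h1] at hx2
  have h3 : r ∣ m ^ k := by
    rw [← hx2]; exact orderOf_dvd_of_pow_eq_one h2
  exact hrm (hr.dvd_of_dvd_pow h3)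

/-- Step 7 -/
theorem Setup.pi_mem_M_of_mem_cz (X : Setup m n S s) {a : G} (ha : a ∈ cz s) (hπ : IsPi m a) :
    a ∈ MM S := by
  classical
  by_contra haM
  obtain ⟨w, hw, hwa⟩ : ∃ w ∈ S, w ∉ cz a := by
    by_contra hh
    push Not at hh
    exact haM (mem_MM.2 hh)
  obtain ⟨v, hv⟩ : ∃ v : G, v = w⁻¹ * (a * w * a⁻¹) := ⟨_, rfl⟩
  have hvV : v ∈ vv S X.cS a := (mem_vv S X.cS).2 ⟨w, hw, hv⟩
  have hvS : v ∈ S := vv_le S X.cS a hvV
  have hv1 : v ≠ 1 := by
    intro h
    apply hwa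
    rw [hv] at h
    have h2 : a * w * a⁻¹ = w := by
      calc a * w * a⁻¹ = w * (w⁻¹ * (a * w * a⁻¹)) := by group
        _ = w := by rw [h, mul_one]
    rw [mem_cz]
    calc w * a = (a * w * a⁻¹) * a := by rw [h2]
      _ = a * w := by group
  obtain ⟨K, hK⟩ : ∃ K : Subgroup G, K = cz a ⊓ cz v := ⟨_, rfl⟩
  have horb := card_orbit_bound (cz a) (vv S X.cS a) v hvV hv1
    (fun l hl w hw => vv_stable S X.cS hl w hw)
  rw [← hK] at horb
  -- comparing indices
  have hVM : Nat.card (vv S X.cS a) * Nat.card (MM S ⊓ cz a : Subgroup G) ≤ Nat.card (MM S) := by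
    have h1 := card_vv S X.cS a
    have h2 := card_inf_mul_relIndex' (cz a) S
    rw [inf_comm] at h2
    have h3 : Nat.card (vv S X.cS a) = (cz a).relIndex S := by
      have h4 : 0 < Nat.card (S ⊓ cz a : Subgroup G) := Nat.card_pos
      apply Nat.eq_of_mul_eq_mul_left h4
      rw [h1, h2]
    have h5 := card_inf_mul_relIndex' (cz a) (MM S)
    rw [inf_comm] at h5
    have h6 : (cz a).relIndex S ≤ (cz a).relIndex (MM S) :=
      Subgroup.relIndex_le_of_le_right X.S_le_M Subgroup.index_ne_zero_of_finite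
    rw [h3, ← h5, mul_comm]
    exact Nat.mul_le_mul_left _ h6
  have hKM : Nat.card (K ⊓ MM S : Subgroup G) ≤ Nat.card (MM S ⊓ cz a : Subgroup G) := by
    apply Subgroup.card_le_of_le
    intro w hw
    rw [hK] at hw
    exact ⟨hw.2, hw.1.1⟩
  have hMs : MM S ≤ cz s := X.M_le_cz X.hs
  have hR := Subgroup.relIndex_mul_index hMs
  have hMR := card_inf_mul_relIndex' (MM S) (cz s)
  rw [inf_of_le_left hMs] at hMR
  have hq := card_map_mk_mul' K (MM S)
  -- the image of K is coprime to n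
  have hco : (Nat.card (K.map (QuotientGroup.mk' (MM S)))).Coprime n := by
    apply Nat.coprime_of_dvd
    intro r hr h1 h2
    obtain ⟨u, huK, huM, hu⟩ := X.exists_pi'_of_dvd K hr (X.prime_not_dvd hr h2) h1
    rw [hK] at huK
    have := X.F hu huM hvS (mem_cz_comm.1 huK.2)
    exact hv1 this
  have hdvd : Nat.card (K.map (QuotientGroup.mk' (MM S))) ∣ (MM S).relIndex (cz s) := by
    have h1 : Nat.card (K.map (QuotientGroup.mk' (MM S))) ∣ Nat.card (G ⧸ MM S) :=
      Subgroup.card_subgroup_dvd_card _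
    have h2 : Nat.card (G ⧸ MM S) = (MM S).relIndex (cz s) * n := by
      rw [← X.is, hR]; rfl
    rw [h2] at h1
    exact hco.dvd_of_dvd_mul_right h1
  have hRpos : 0 < (MM S).relIndex (cz s) :=
    Nat.pos_of_ne_zero Subgroup.index_ne_zero_of_finite
  have hle := Nat.le_of_dvd hRpos hdvd
  have hKpos : 0 < Nat.card K := Nat.card_pos
  have hclt : Nat.card (cz a) < Nat.card (cz s) := by
    have h1 : Nat.card K ≤ (MM S).relIndex (cz s) * Nat.card (MM S ⊓ cz a : Subgroup G) := by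
      rw [← hq]
      exact Nat.mul_le_mul hle hKM
    have h2 : Nat.card (vv S X.cS a) * Nat.card K ≤
        (MM S).relIndex (cz s) * Nat.card (MM S) := by
      calc Nat.card (vv S X.cS a) * Nat.card K
          ≤ Nat.card (vv S X.cS a) * ((MM S).relIndex (cz s) * Nat.card (MM S ⊓ cz a : Subgroup G)) :=
            Nat.mul_le_mul_left _ h1
        _ = (MM S).relIndex (cz s) * (Nat.card (vv S X.cS a) * Nat.card (MM S ⊓ cz a : Subgroup G)) := by
            ring
        _ ≤ _ := Nat.mul_le_mul_left _ hVM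
    have h3 : (MM S).relIndex (cz s) * Nat.card (MM S) = Nat.card (cz s) := by
      rw [mul_comm]; exact hMR
    rw [← h3]
    omega
  have hia : (cz a).index = m := X.dich_of_gt (by
    rw [← X.is]
    exact index_lt_of_card_lt hclt)
  -- a Π'-element outside M in C(a)
  obtain ⟨r, hr, hrn⟩ := X.exists_prime
  have hrm := X.prime_not_dvd hr hrn
  have h1 : r ∣ Nat.card (G ⧸ MM S) := by
    have h2 : Nat.card (G ⧸ MM S) = (MM S).relIndex (cz s) * n := by
      rw [← X.is, hR]; rfl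
    rw [h2]
    exact Dvd.dvd.mul_left hrn _
  have h2 : Nat.card ((cz a).map (QuotientGroup.mk' (MM S))) *
      ((cz a).map (QuotientGroup.mk' (MM S))).index = Nat.card (G ⧸ MM S) :=
    Subgroup.card_mul_index _
  have h3 : ((cz a).map (QuotientGroup.mk' (MM S))).index ∣ m := by
    rw [← hia]
    exact Subgroup.index_map_dvd _ (QuotientGroup.mk'_surjective _)
  have h4 : r ∣ Nat.card ((cz a).map (QuotientGroup.mk' (MM S))) := by
    rw [← h2] at h1
    rcases (Nat.Prime.dvd_mul hr).1 h1 with h5 | h5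
    · exact h5
    · exact absurd (h5.trans h3) hrm
  obtain ⟨u, hu, huM, hu'⟩ := X.exists_pi'_of_dvd (cz a) hr hrm h4
  have h5 : cz a ≤ cz u := X.absorb hu (coprime_pi_pi' hπ hu') (Or.inl hia)
  have h6 : s ∈ cz u := h5 (mem_cz_comm.1 ha)
  have h7 := X.F hu' huM X.hs h6
  have h8 := X.is
  rw [h7] at h8
  have h9 : cz (1 : G) = ⊤ := by
    ext w
    simp [mem_cz]
  rw [h9, Subgroup.index_top] at h8
  have := X.hn
  omega

/-- `C(s) = M` -/
theorem Setup.cz_eq_M (X : Setup m n S s) : cz s = MM S := by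
  apply le_antisymm
  · intro a ha
    obtain ⟨a₁, a₂, h1, h2, rfl, hπ, hπ'⟩ := exists_split m a
    have hz : Subgroup.zpowers (a₁ * a₂) ≤ cz s := by
      rw [Subgroup.zpowers_le]; exact ha
    apply Subgroup.mul_mem
    · exact X.pi_mem_M_of_mem_cz (hz h1) hπ
    · apply mem_MM.2
      intro w hw
      exact X.P1 (hz h2) hπ' (X.S_le_cz X.hs hw)
  · exact X.M_le_cz X.hs

end Cfsg.Agent.H08.CC
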