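import Mathlib
import Cfsg.Agent.Lib.H08.CC3
import Cfsg.Agent.Lib.H19.Ito

/-! Groups whose two largest class sizes are coprime: `M` is abelian (helper8). -/

set_option autoImplicit false
set_option linter.style.haveILetI false
set_option linter.unusedSectionVars false
set_option linter.unusedVariables false

namespace Cfsg.Agent.H08.CC

variable {G : Type*} [Group G] [Finite G] {m n : ℕ} {S : Subgroup G} {s : G} [hS : S.Normal]

lemma Setup.index_M (X : Setup m n S s) : (MM S).index = n := by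
  rw [← X.cz_eq_M]; exact X.is

lemma cz_one : cz (1 : G) = ⊤ := by
  ext w
  simp [mem_cz]

omit hS in
lemma Setup.s_ne_one (X : Setup m n S s) : s ≠ 1 := by
  intro h
  have h8 := X.is
  rw [h, cz_one, Subgroup.index_top] at h8
  have := X.hn
  omega

lemma Setup.card_S_gt (X : Setup m n S s) : n < Nat.card S := by
  have h1 : insert (1 : G) (cls s) ⊆ (S : Set G) := by
    intro w hw
    rcases hw with rfl | hw
    · exact S.one_mem
    · obtain ⟨g, rfl⟩ := isConj_iff.1 hw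
      exact hS.conj_mem _ X.hs g
  have h2 : (1 : G) ∉ cls s := by
    intro h
    have h3 : IsConj s 1 := h
    exact X.s_ne_one (isConj_one_right.1 h3.symm)
  have h3 := Set.ncard_le_ncard h1 (Set.toFinite _)
  rw [Set.ncard_insert_of_notMem h2 (Set.toFinite _), ncard_cls, X.is, ← Nat.card_coe_set_eq] at h3
  exact h3

/-- Step 8a -/
lemma Setup.index_of_pi' (X : Setup m n S s) {u : G} (hu : IsPi' m u) (huM : u ∉ MM S) :
    (cz u).index = m := by
  apply X.dich_of_gt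
  have h1 : (cz u ⊓ S : Subgroup G) = ⊥ := by
    rw [eq_bot_iff]
    intro t ht
    exact (Subgroup.mem_bot).2 (X.F hu huM ht.2 ht.1)
  have h2 := card_inf_mul_relIndex' (cz u) S
  rw [h1, Subgroup.card_bot, one_mul] at h2
  have h3 : (cz u).relIndex S ∣ (cz u).index := relIndex_dvd_right _ _
  have h4 := Nat.le_of_dvd (Nat.pos_of_ne_zero Subgroup.index_ne_zero_of_finite) h3
  have h5 := X.card_S_gt
  omega

/-- Step 8b -/
lemma Setup.pi_mem_M (X : Setup m n S s) {a : G} (ha : IsPi m a) : a ∈ MM S := by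
  obtain ⟨k, hk⟩ := ha
  have h1 : (QuotientGroup.mk' (MM S) a) ^ (m ^ k) = 1 := by
    rw [← map_pow, hk, map_one]
  have h2 : (QuotientGroup.mk' (MM S) a) ^ n = 1 := by
    rw [← X.index_M]
    exact pow_card_eq_one'
  have h3 := orderOf_dvd_of_pow_eq_one h1
  have h4 := orderOf_dvd_of_pow_eq_one h2
  have h5 : (m ^ k).Coprime n := Nat.Coprime.pow_left k X.hcop
  have h6 := Nat.dvd_gcd h3 h4
  rw [h5] at h6
  have h7 : QuotientGroup.mk' (MM S) a = 1 := orderOf_eq_one_iff.1 (Nat.dvd_one.1 h6)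
  exact (QuotientGroup.eq_one_iff a).1 h7

/-- Step 8c -/
lemma Setup.structure_not_mem (X : Setup m n S s) {g : G} (hg : g ∉ MM S) :
    ∃ a u : G, a ∈ MM S ∧ g = a * u ∧ u ∉ MM S ∧ IsPi' m u ∧ (cz u).index = m ∧
      (cz g).index = m ∧ cz g = cz u := by
  obtain ⟨a, b, ha, hb, hab, hπ, hπ'⟩ := exists_split m g
  have haM := X.pi_mem_M hπ
  have hbM : b ∉ MM S := by
    intro h
    apply hg
    rw [hab]
    exact (MM S).mul_mem haM h
  have hib := X.index_of_pi' hπ' hbM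
  have hle : cz g ≤ cz b := cz_mono_of_mem_zpowers hb
  have hd : m ∣ (cz g).index := by
    rw [← hib]; exact Subgroup.index_dvd_of_le hle
  have hig : (cz g).index = m := X.dich_of_gt
    (X.mndvd hd Subgroup.index_ne_zero_of_finite)
  refine ⟨a, b, haM, hab, hbM, hπ', hib, hig, le_antisymm hle ?_⟩
  exact le_of_le_of_index_le hle (by rw [hig, hib])

/-- Step 8d -/
lemma Setup.exists_mul_M (X : Setup m n S s) {g : G} (hc : n.Coprime (cz g).index) (h : G) :
    ∃ e ∈ MM S, ∃ c ∈ cz g, h = e * c :=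
  H15.exists_mul_of_coprime_index (MM S) (cz g) (by rw [X.index_M]; exact hc) h

/-- Step 8e -/
lemma Setup.comm_mem_M (X : Setup m n S s) (g h : G) : g * h * g⁻¹ * h⁻¹ ∈ MM S := by
  by_cases hg : g ∈ MM S
  · have h1 : g * h * g⁻¹ * h⁻¹ = g * (h * g⁻¹ * h⁻¹) := by group
    rw [h1]
    exact (MM S).mul_mem hg (Subgroup.Normal.conj_mem inferInstance _ ((MM S).inv_mem hg) h)
  · obtain ⟨a, u, haM, hau, huM, hπ, hiu, hig, hcg⟩ := X.structure_not_mem hg
    obtain ⟨e, he, c, hc, rfl⟩ := X.exists_mul_M (g := g) (by rw [hig]; exact X.hcop.symm) h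
    have h1 : c * g * c⁻¹ = g := conj_of_mem_cz hc
    have h3 : c * g⁻¹ * c⁻¹ = g⁻¹ := by
      have : c * g⁻¹ * c⁻¹ = (c * g * c⁻¹)⁻¹ := by group
      rw [this, h1]
    have h2 : g * (e * c) * g⁻¹ * (e * c)⁻¹ = (g * e * g⁻¹) * e⁻¹ := by
      calc g * (e * c) * g⁻¹ * (e * c)⁻¹ = g * e * (c * g⁻¹ * c⁻¹) * e⁻¹ := by group
        _ = (g * e * g⁻¹) * e⁻¹ := by rw [h3]
    rw [h2]
    exact (MM S).mul_mem (Subgroup.Normal.conj_mem inferInstance _ he g) ((MM S).inv_mem he)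

/-- `P1` for `M` -/
lemma Setup.M_le_of_pi' (X : Setup m n S s) {b : G} (hb : b ∈ MM S) (hπ : IsPi' m b) :
    MM S ≤ cz b := by
  rw [← X.cz_eq_M] at hb ⊢
  exact X.P1 hb hπ

/-- Step 9: `M` is abelian -/
theorem Setup.M_comm (X : Setup m n S s) : ∀ a ∈ MM S, ∀ b ∈ MM S, a * b = b * a := by
  classical
  obtain ⟨r, hr, hrn⟩ := X.exists_prime
  haveI : Fact r.Prime := ⟨hr⟩
  have hrm := X.prime_not_dvd hr hrn
  obtain ⟨P⟩ : Nonempty (Sylow r G) := inferInstance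
  have hP : ¬ (P : Subgroup G) ≤ MM S := by
    intro h
    have h1 : (MM S).index ∣ (P : Subgroup G).index := Subgroup.index_dvd_of_le h
    rw [X.index_M] at h1
    exact P.not_dvd_index (hrn.trans h1)
  obtain ⟨u₀, hu₀P, hu₀M⟩ := SetLike.not_le_iff_exists.1 hP
  have hu₀' : IsPi' m u₀ := by
    obtain ⟨k, hk⟩ := (P.isPGroup' ⟨u₀, hu₀P⟩)
    have h1 : u₀ ^ (r ^ k) = 1 := congrArg Subtype.val hk
    have h2 : orderOf u₀ ∣ r ^ k := orderOf_dvd_of_pow_eq_one h1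
    exact Nat.Coprime.coprime_dvd_left h2
      (Nat.Coprime.pow_left k ((Nat.Prime.coprime_iff_not_dvd hr).2 hrm))
  have hiu₀ := X.index_of_pi' hu₀' hu₀M
  obtain ⟨D, hD⟩ : ∃ D : Subgroup G, D = MM S ⊓ Subgroup.centralizer (P : Set G) := ⟨_, rfl⟩
  have hDM : D ≤ MM S := by rw [hD]; exact inf_le_left
  have hDu : D ≤ cz u₀ := by
    intro d hd
    rw [hD] at hd
    exact mem_cz.2 ((Subgroup.mem_centralizer_iff.1 hd.2 u₀ hu₀P).symm)
  have hDc : ∀ d₁ ∈ D, ∀ d₂ ∈ D, d₁ * d₂ = d₂ * d₁ := by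
    intro d₁ hd₁ d₂ hd₂
    obtain ⟨a₁, b₁, ha₁, hb₁, rfl, hπ₁, hπ₁'⟩ := exists_split m d₁
    obtain ⟨a₂, b₂, ha₂, hb₂, rfl, hπ₂, hπ₂'⟩ := exists_split m d₂
    have hz₁ : Subgroup.zpowers (a₁ * b₁) ≤ D := by
      rw [Subgroup.zpowers_le]; exact hd₁
    have hz₂ : Subgroup.zpowers (a₂ * b₂) ≤ D := by
      rw [Subgroup.zpowers_le]; exact hd₂
    have h1 : cz u₀ ≤ cz a₁ := X.absorb (hDu (hz₁ ha₁))
      (Nat.Coprime.symm (coprime_pi_pi' hπ₁ hu₀')) (Or.inl hiu₀)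
    have h2 : MM S ≤ cz b₁ := X.M_le_of_pi' (hDM (hz₁ hb₁)) hπ₁'
    have h3 : MM S ≤ cz b₂ := X.M_le_of_pi' (hDM (hz₂ hb₂)) hπ₂'
    have A : Commute a₁ a₂ := (mem_cz.1 (h1 (hDu (hz₂ ha₂)))).symm
    have B : Commute a₁ b₂ := mem_cz.1 (h3 (hDM (hz₁ ha₁)))
    have C : Commute b₁ a₂ := (mem_cz.1 (h2 (hDM (hz₂ ha₂)))).symm
    have E : Commute b₁ b₂ := (mem_cz.1 (h2 (hDM (hz₂ hb₂)))).symm
    exact Commute.mul_left (Commute.mul_right A B) (Commute.mul_right C E)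
  have hb : ∀ b ∈ MM S, IsPi m b → MM S ≤ cz b ∨ ∃ e ∈ MM S, e * b * e⁻¹ ∈ D := by
    intro b hbM hπ
    by_cases hcz : cz b ≤ MM S
    · left
      apply le_of_le_of_index_le hcz
      rw [X.index_M]
      rcases X.dich b with h | h
      · exfalso
        have h1 : (MM S).index ∣ (cz b).index := Subgroup.index_dvd_of_le hcz
        rw [X.index_M, h] at h1
        exact X.ndvd h1
      · exact h
    · right
      obtain ⟨v, hv, hvM⟩ := SetLike.not_le_iff_exists.1 hcz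
      obtain ⟨a, u, haM, hau, huM, hπu, hiu, hig, hcg⟩ := X.structure_not_mem hvM
      have h1 : b ∈ cz u := by
        rw [← hcg]
        exact mem_cz_comm.1 hv
      have h2 : cz u ≤ cz b := X.absorb h1 (Nat.Coprime.symm (coprime_pi_pi' hπ hπu)) (Or.inl hiu)
      have h3 : (cz b).index ∣ m := by
        rw [← hiu]; exact Subgroup.index_dvd_of_le h2
      have h4 : ¬ r ∣ (cz b).index := fun h => hrm (h.trans h3)
      have hc : n.Coprime (cz b).index :=
        Nat.Coprime.coprime_dvd_right h3 X.hcop.symm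
      obtain ⟨q, hq⟩ := IsPGroup.nonempty_fixed_point_of_prime_not_dvd_card (P.isPGroup')
        (G ⧸ cz b) (by exact h4)
      obtain ⟨g, rfl⟩ := QuotientGroup.mk_surjective q
      obtain ⟨e, he, c, hc', rfl⟩ := X.exists_mul_M hc g
      refine ⟨e, he, ?_⟩
      have hce : (e * c) * b * (e * c)⁻¹ = e * b * e⁻¹ := by
        have h5 : c * b * c⁻¹ = b := conj_of_mem_cz hc'
        calc (e * c) * b * (e * c)⁻¹ = e * (c * b * c⁻¹) * e⁻¹ := by group
          _ = e * b * e⁻¹ := by rw [h5]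
      rw [hD]
      refine ⟨Subgroup.Normal.conj_mem inferInstance _ hbM e, ?_⟩
      show e * b * e⁻¹ ∈ Subgroup.centralizer (P : Set G)
      rw [Subgroup.mem_centralizer_iff, ← hce]
      intro p hp
      have h6 := hq ⟨p, hp⟩
      have h7 : (((p * (e * c) : G) : G ⧸ cz b)) = ((e * c : G) : G ⧸ cz b) := h6
      rw [QuotientGroup.eq] at h7
      obtain ⟨g, hg⟩ : ∃ g : G, g = e * c := ⟨_, rfl⟩
      rw [← hg] at h7 ⊢
      have ht : g⁻¹ * p * g ∈ cz b := by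
        have h8 := (cz b).inv_mem h7
        have h9 : ((p * g)⁻¹ * g)⁻¹ = g⁻¹ * p * g := by group
        rwa [h9] at h8
      have h8 : (g⁻¹ * p * g) * b = b * (g⁻¹ * p * g) := mem_cz.1 ht
      calc p * (g * b * g⁻¹) = g * ((g⁻¹ * p * g) * b) * g⁻¹ := by group
        _ = g * (b * (g⁻¹ * p * g)) * g⁻¹ := by rw [h8]
        _ = (g * b * g⁻¹) * p := by group
  have hcover : ∀ a : MM S, ∃ e : MM S,
      e * a * e⁻¹ ∈ (Subgroup.centralizer (D : Set G)).subgroupOf (MM S) := by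
    rintro ⟨a, ha⟩
    obtain ⟨a₁, a₂, h1, h2, rfl, hπ, hπ'⟩ := exists_split m a
    have hz : Subgroup.zpowers (a₁ * a₂) ≤ MM S := by
      rw [Subgroup.zpowers_le]; exact ha
    have h3 : MM S ≤ cz a₂ := X.M_le_of_pi' (hz h2) hπ'
    rcases hb a₁ (hz h1) hπ with h4 | ⟨e, he, h4⟩
    · refine ⟨1, ?_⟩
      rw [Subgroup.mem_subgroupOf]
      show ((1 : MM S) : G) * (a₁ * a₂) * ((1 : MM S) : G)⁻¹ ∈ Subgroup.centralizer (D : Set G)
      rw [Subgroup.mem_centralizer_iff]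
      intro d hd
      have h5 : Commute d a₁ := mem_cz.1 (h4 (hDM hd))
      have h6 : Commute d a₂ := mem_cz.1 (h3 (hDM hd))
      simpa using (Commute.mul_right h5 h6).eq
    · refine ⟨⟨e, he⟩, ?_⟩
      rw [Subgroup.mem_subgroupOf]
      show e * (a₁ * a₂) * e⁻¹ ∈ Subgroup.centralizer (D : Set G)
      have h5 : e * a₂ * e⁻¹ = a₂ := conj_of_mem_cz (h3 he)
      have h6 : e * (a₁ * a₂) * e⁻¹ = (e * a₁ * e⁻¹) * (e * a₂ * e⁻¹) := by group
      rw [h6, h5, Subgroup.mem_centralizer_iff]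
      intro d hd
      have h7 : Commute d (e * a₁ * e⁻¹) := hDc d hd _ h4
      have h8 : Commute d a₂ := mem_cz.1 (h3 (hDM hd))
      exact Commute.mul_right h7 h8
  have htop := H19.eq_top_of_conj_cover _ hcover
  have hDZ : ∀ d ∈ D, MM S ≤ cz d := by
    intro d hd a ha
    have h1 : (⟨a, ha⟩ : MM S) ∈ (Subgroup.centralizer (D : Set G)).subgroupOf (MM S) := by
      rw [htop]; trivial
    rw [Subgroup.mem_subgroupOf] at h1
    have h2 : a ∈ Subgroup.centralizer (D : Set G) := h1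
    exact mem_cz.2 ((Subgroup.mem_centralizer_iff.1 h2 d hd).symm)
  have hall : ∀ b ∈ MM S, IsPi m b → MM S ≤ cz b := by
    intro b hbM hπ
    rcases hb b hbM hπ with h | ⟨e, he, h⟩
    · exact h
    · have h1 := hDZ _ h
      have h2 : e⁻¹ * (e * b * e⁻¹) * e⁻¹⁻¹ = e * b * e⁻¹ :=
        conj_of_mem_cz (h1 ((MM S).inv_mem he))
      have h3 : e⁻¹ * (e * b * e⁻¹) * e⁻¹⁻¹ = b := by group
      rw [h3] at h2
      rw [h2]
      exact h1
  intro a ha b hb'
  obtain ⟨a₁, a₂, h1, h2, rfl, hπ, hπ'⟩ := exists_split m a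
  have hz : Subgroup.zpowers (a₁ * a₂) ≤ MM S := by
    rw [Subgroup.zpowers_le]; exact ha
  have h3 : MM S ≤ cz a₂ := X.M_le_of_pi' (hz h2) hπ'
  have h4 : MM S ≤ cz a₁ := hall a₁ (hz h1) hπ
  have h5 : Commute b a₁ := mem_cz.1 (h4 hb')
  have h6 : Commute b a₂ := mem_cz.1 (h3 hb')
  exact (Commute.mul_right h5 h6).symm

end Cfsg.Agent.H08.CC
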