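import Mathlib
import Cfsg.Agent.Lib.H08.CC4

/-! Groups whose two largest class sizes are coprime: the Frobenius structure (helper8). -/

set_option autoImplicit false
set_option linter.style.haveILetI false
set_option linter.unusedSectionVars false
set_option linter.unusedVariables false

namespace Cfsg.Agent.H08.CC

open scoped Pointwise

variable {G : Type*} [Group G] [Finite G] {m n : ℕ} {S : Subgroup G} {s : G} [hS : S.Normal]

/-- F7 -/
lemma Setup.pi'_central (X : Setup m n S s) {a : G} (ha : a ∈ MM S) (hπ' : IsPi' m a) :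
    a ∈ Subgroup.center G := by
  obtain ⟨y, hy⟩ := X.ey
  have hMa : MM S ≤ cz a := fun b hb => mem_cz.2 (X.M_comm b hb a ha)
  have h1 : (cz a).index ∣ n := by
    rw [← X.index_M]; exact Subgroup.index_dvd_of_le hMa
  have hc : ((cz a).index).Coprime m := Nat.Coprime.coprime_dvd_left h1 X.hcop.symm
  obtain ⟨z, hz, τ, hτ, hrep⟩ := sg_central X.top hy hc
  have hd := sg_card_dvd X.top hy hc
  have h2 : τ ^ Nat.card (sg a) = 1 := by
    rw [← orderOf_dvd_iff_pow_eq_one]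
    exact Subgroup.orderOf_dvd_natCard _ hτ
  have hcomm : Commute z τ := (Subgroup.mem_center_iff.1 hz τ).symm
  have h3 : a ^ Nat.card (sg a) = z ^ Nat.card (sg a) := by
    rw [hrep]
    conv_lhs => rw [hcomm.mul_pow]
    rw [← hrep, h2, mul_one]
  have h4 : (Nat.card (sg a)).Coprime (orderOf a) :=
    Nat.Coprime.coprime_dvd_left hd (Nat.Coprime.symm hπ')
  obtain ⟨k, hk⟩ := exists_pow_eq_self_of_coprime h4
  rw [← hk, h3]
  exact Subgroup.pow_mem _ (Subgroup.pow_mem _ hz _) _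

/-- Z1 -/
lemma Setup.mem_center_of_cz (X : Setup m n S s) {g d : G} (hg : g ∉ MM S) (hd : d ∈ MM S)
    (hdg : d ∈ cz g) : d ∈ Subgroup.center G := by
  obtain ⟨a, u, haM, hau, huM, hπu, hiu, hig, hcg⟩ := X.structure_not_mem hg
  rw [hcg] at hdg
  obtain ⟨d₁, d₂, h1, h2, rfl, hπ, hπ'⟩ := exists_split m d
  have hz : Subgroup.zpowers (d₁ * d₂) ≤ MM S := by
    rw [Subgroup.zpowers_le]; exact hd
  have hz' : Subgroup.zpowers (d₁ * d₂) ≤ cz u := by
    rw [Subgroup.zpowers_le]; exact hdg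
  apply Subgroup.mul_mem
  · have h3 : cz u ≤ cz d₁ := X.absorb (hz' h1)
      (Nat.Coprime.symm (coprime_pi_pi' hπ hπu)) (Or.inl hiu)
    rw [Subgroup.mem_center_iff]
    intro h
    obtain ⟨e, he, c, hc, rfl⟩ := X.exists_mul_M (g := u) (by rw [hiu]; exact X.hcop.symm) h
    have h4 : Commute e d₁ := X.M_comm _ he _ (hz h1)
    have h5 : Commute c d₁ := mem_cz.1 (h3 hc)
    exact Commute.mul_left h4 h5
  · exact X.pi'_central (hz h2) hπ'

/-- A4 -/
lemma Setup.A4 (X : Setup m n S s) {e g : G} (he : e ∈ MM S) (hg : g ∉ MM S)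
    (hz : e * g * e⁻¹ * g⁻¹ ∈ Subgroup.center G) : e ∈ Subgroup.center G := by
  obtain ⟨a₀, u, ha₀, hau, huM, hπu, hiu, hig, hcg⟩ := X.structure_not_mem hg
  obtain ⟨t, c, h1, h2, hec, hπ, hπ'⟩ := exists_split m e
  have hzp : Subgroup.zpowers e ≤ MM S := by
    rw [Subgroup.zpowers_le]; exact he
  have hcZ : c ∈ Subgroup.center G := X.pi'_central (hzp h2) hπ'
  have htM : t ∈ MM S := hzp h1
  -- the commutator of `t` and `u`
  obtain ⟨z, hzdef⟩ : ∃ z : G, z = t * u * t⁻¹ * u⁻¹ := ⟨_, rfl⟩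
  have hcg' : ∀ w : G, c * w * c⁻¹ = w := by
    intro w
    have : c * w = w * c := (Subgroup.mem_center_iff.1 hcZ w).symm
    rw [this]; group
  have hz1 : e * g * e⁻¹ * g⁻¹ = t * g * t⁻¹ * g⁻¹ := by
    rw [hec]
    calc t * c * g * (t * c)⁻¹ * g⁻¹ = t * (c * g * c⁻¹) * t⁻¹ * g⁻¹ := by group
      _ = t * g * t⁻¹ * g⁻¹ := by rw [hcg']
  have hta : t * a₀ = a₀ * t := X.M_comm _ htM _ ha₀
  have hz2 : t * g * t⁻¹ * g⁻¹ = a₀ * z * a₀⁻¹ := by
    rw [hau, hzdef]
    calc t * (a₀ * u) * t⁻¹ * (a₀ * u)⁻¹ = (t * a₀) * u * t⁻¹ * u⁻¹ * a₀⁻¹ := by group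
      _ = (a₀ * t) * u * t⁻¹ * u⁻¹ * a₀⁻¹ := by rw [hta]
      _ = _ := by group
  have hzZ : z ∈ Subgroup.center G := by
    have h3 : a₀ * z * a₀⁻¹ ∈ Subgroup.center G := by
      rw [← hz2, ← hz1]; exact hz
    have h4 : a₀⁻¹ * (a₀ * z * a₀⁻¹) * a₀⁻¹⁻¹ ∈ Subgroup.center G :=
      Subgroup.Normal.conj_mem inferInstance _ h3 _
    have h5 : a₀⁻¹ * (a₀ * z * a₀⁻¹) * a₀⁻¹⁻¹ = z := by group
    rwa [h5] at h4
  -- `z` is a `Π`-element
  obtain ⟨k, hk⟩ := hπ
  have hzpi : z ^ (m ^ k) = 1 := by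
    have h3 : Commute t (u * t⁻¹ * u⁻¹) := X.M_comm _ htM _
      (Subgroup.Normal.conj_mem inferInstance _ ((MM S).inv_mem htM) u)
    have h4 : z = t * (u * t⁻¹ * u⁻¹) := by rw [hzdef]; group
    rw [h4, h3.mul_pow, hk, one_mul]
    have h5 : (u * t⁻¹ * u⁻¹) ^ (m ^ k) = u * (t⁻¹) ^ (m ^ k) * u⁻¹ := by
      rw [conj_pow]
    rw [h5, inv_pow, hk]; group
  -- moving `t` by powers of `u`
  have hzt : z⁻¹ * t = t * z⁻¹ :=
    (Subgroup.mem_center_iff.1 ((Subgroup.center G).inv_mem hzZ) t).symm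
  have hut : u * t = t * z⁻¹ * u := by
    rw [← hzt, hzdef]; group
  have hcz : Commute z⁻¹ u := by
    have := (Subgroup.mem_center_iff.1 ((Subgroup.center G).inv_mem hzZ) u)
    exact this.symm
  have hj : ∀ j : ℕ, u ^ j * t = t * z⁻¹ ^ j * u ^ j := by
    intro j
    induction j with
    | zero => simp
    | succ j ih =>
      calc u ^ (j + 1) * t = u ^ j * (u * t) := by rw [pow_succ]; group
        _ = u ^ j * (t * z⁻¹ * u) := by rw [hut]
        _ = (u ^ j * t) * z⁻¹ * u := by group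
        _ = (t * z⁻¹ ^ j * u ^ j) * z⁻¹ * u := by rw [ih]
        _ = t * z⁻¹ ^ j * (u ^ j * z⁻¹) * u := by group
        _ = t * z⁻¹ ^ j * (z⁻¹ * u ^ j) * u := by
            rw [(hcz.symm.pow_left j).eq]
        _ = t * z⁻¹ ^ (j + 1) * u ^ (j + 1) := by
            rw [pow_succ z⁻¹, pow_succ u]; group
  have h3 := hj (orderOf u)
  rw [pow_orderOf_eq_one, one_mul, mul_one] at h3
  have h4 : z⁻¹ ^ orderOf u = 1 := by simpa using h3
  have h5 : z ^ orderOf u = 1 := by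
    rw [inv_pow] at h4
    exact inv_eq_one.1 h4
  have h6 : orderOf z ∣ orderOf u := orderOf_dvd_of_pow_eq_one h5
  have h7 : orderOf z ∣ m ^ k := orderOf_dvd_of_pow_eq_one hzpi
  have h8 : (orderOf u).Coprime (m ^ k) := Nat.Coprime.pow_right k hπu
  have h9 := Nat.dvd_gcd h6 h7
  rw [h8] at h9
  have hz1' : z = 1 := orderOf_eq_one_iff.1 (Nat.dvd_one.1 h9)
  have htu : t ∈ cz u := by
    rw [hz1'] at hut
    rw [mem_cz]
    simpa using hut.symm
  have htZ : t ∈ Subgroup.center G := X.mem_center_of_cz huM htM htu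
  rw [hec]
  exact Subgroup.mul_mem _ htZ hcZ

/-- Step 11 -/
lemma Setup.cz_comm (X : Setup m n S s) {g : G} (hg : g ∉ MM S) :
    ∀ h₁ ∈ cz g, ∀ h₂ ∈ cz g, h₁ * h₂ = h₂ * h₁ := by
  intro h₁ hh₁ h₂ hh₂
  by_cases hm₁ : h₁ ∈ MM S
  · exact (Subgroup.mem_center_iff.1 (X.mem_center_of_cz hg hm₁ hh₁) h₂).symm
  by_cases hm₂ : h₂ ∈ MM S
  · exact (Subgroup.mem_center_iff.1 (X.mem_center_of_cz hg hm₂ hh₂) h₁)
  obtain ⟨a, u, haM, hau, huM, hπu, hiu, hig, hcg⟩ := X.structure_not_mem hm₁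
  obtain ⟨e, he, d, hd, hed⟩ := X.exists_mul_M (g := h₁) (by rw [hig]; exact X.hcop.symm) h₂
  have hc : h₁ * h₂ * h₁⁻¹ * h₂⁻¹ ∈ Subgroup.center G :=
    X.mem_center_of_cz hg (X.comm_mem_M _ _)
      ((cz g).mul_mem ((cz g).mul_mem ((cz g).mul_mem hh₁ hh₂) ((cz g).inv_mem hh₁))
        ((cz g).inv_mem hh₂))
  have hd1 : d * h₁⁻¹ * d⁻¹ = h₁⁻¹ := by
    have h1 : d * h₁ * d⁻¹ = h₁ := conj_of_mem_cz hd
    have : d * h₁⁻¹ * d⁻¹ = (d * h₁ * d⁻¹)⁻¹ := by group
    rw [this, h1]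
  have h3 : h₁ * h₂ * h₁⁻¹ * h₂⁻¹ = h₁ * e * h₁⁻¹ * e⁻¹ := by
    rw [hed]
    calc h₁ * (e * d) * h₁⁻¹ * (e * d)⁻¹ = h₁ * e * (d * h₁⁻¹ * d⁻¹) * e⁻¹ := by group
      _ = h₁ * e * h₁⁻¹ * e⁻¹ := by rw [hd1]
  rw [h3] at hc
  have h4 : e * h₁ * e⁻¹ * h₁⁻¹ ∈ Subgroup.center G := by
    have h5 := (Subgroup.center G).inv_mem hc
    have h6 : (h₁ * e * h₁⁻¹ * e⁻¹)⁻¹ = e * h₁ * e⁻¹ * h₁⁻¹ := by group
    rwa [h6] at h5
  have heZ := X.A4 he hm₁ h4
  rw [hed]
  have h7 : Commute h₁ e := (Subgroup.mem_center_iff.1 heZ h₁)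
  have h8 : Commute h₁ d := (mem_cz.1 hd).symm
  exact Commute.mul_right h7 h8

lemma center_le_M (X : Setup m n S s) : Subgroup.center G ≤ MM S := by
  intro z hz
  rw [← X.cz_eq_M, mem_cz]
  exact (Subgroup.mem_center_iff.1 hz s).symm

lemma center_le_cz (g : G) : Subgroup.center G ≤ cz g := by
  intro z hz
  rw [mem_cz]
  exact (Subgroup.mem_center_iff.1 hz g).symm

lemma mem_conj_smul {Q : Type*} [Group Q] {H : Subgroup Q} {g x : Q} :
    x ∈ MulAut.conj g • H ↔ ∃ h ∈ H, g * h * g⁻¹ = x := by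
  rw [Subgroup.mem_pointwise_smul_iff_inv_smul_mem]
  constructor
  · intro h
    refine ⟨_, h, ?_⟩
    simp [MulAut.smul_def, MulAut.conj_symm_apply, mul_assoc]
  · rintro ⟨h, hh, rfl⟩
    convert hh using 1
    simp [MulAut.smul_def, MulAut.conj_symm_apply, mul_assoc]

/-- the Frobenius statement -/
theorem Setup.frob (X : Setup m n S s) {y : G} (hy : (cz y).index = m) :
    Cfsg.IsFrobeniusComplement ((cz y).map (QuotientGroup.mk' (Subgroup.center G))) ∧
      Cfsg.frobeniusKernel ((cz y).map (QuotientGroup.mk' (Subgroup.center G))) =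
        ((MM S).map (QuotientGroup.mk' (Subgroup.center G)) : Set (G ⧸ Subgroup.center G)) := by
  have hyM : y ∉ MM S := by
    intro h
    have hMa : MM S ≤ cz y := fun b hb => mem_cz.2 (X.M_comm b hb y h)
    have h1 : (cz y).index ∣ n := by
      rw [← X.index_M]; exact Subgroup.index_dvd_of_le hMa
    rw [hy] at h1
    have h2 := Nat.le_of_dvd (by have := X.hn; omega) h1
    have := X.hmn
    omega
  have hZM := center_le_M X
  -- membership in the image
  have hmem : ∀ g : G, QuotientGroup.mk' (Subgroup.center G) g ∈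
      (cz y).map (QuotientGroup.mk' (Subgroup.center G)) → g ∈ cz y := by
    rintro g ⟨c, hc, hcg⟩
    have h1 : (c : G ⧸ Subgroup.center G) = g := hcg
    rw [QuotientGroup.eq] at h1
    have h2 : g = c * (c⁻¹ * g) := by group
    rw [h2]
    exact (cz y).mul_mem hc (center_le_cz y h1)
  have hcomm := X.cz_comm hyM
  refine ⟨⟨?_, ?_, ?_⟩, ?_⟩
  · intro h
    apply hyM
    have h1 : QuotientGroup.mk' (Subgroup.center G) y ∈
        (cz y).map (QuotientGroup.mk' (Subgroup.center G)) := ⟨y, one_mem_cz y, rfl⟩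
    rw [h, Subgroup.mem_bot] at h1
    exact hZM ((QuotientGroup.eq_one_iff y).1 h1)
  · intro h
    have h1 : cz y = ⊤ := by
      rw [eq_top_iff]
      intro g _
      apply hmem
      rw [h]; trivial
    rw [h1, Subgroup.index_top] at hy
    have := X.mpos
    omega
  · intro ĝ hĝ
    obtain ⟨g, rfl⟩ := QuotientGroup.mk'_surjective _ ĝ
    have hgy : g ∉ cz y := fun h => hĝ ⟨g, h, rfl⟩
    rw [eq_bot_iff]
    rintro ξ ⟨⟨c, hc, rfl⟩, hξ⟩
    have hξ' := mem_conj_smul.1 hξ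
    obtain ⟨_, ⟨c₂, hc₂, rfl⟩, he⟩ := hξ'
    rw [Subgroup.mem_bot]
    show ((c : G) : G ⧸ Subgroup.center G) = 1
    rw [QuotientGroup.eq_one_iff]
    by_contra hcZ
    have he0 := he
    have he' : (((g * c₂ * g⁻¹ : G)) : G ⧸ Subgroup.center G) = (c : G) := he
    rw [QuotientGroup.eq] at he'
    have hcM : c ∉ MM S := fun h => hcZ (X.mem_center_of_cz hyM h hc)
    obtain ⟨w, hw, d, hd, hgwd⟩ := X.exists_mul_M (g := y) (by rw [hy]; exact X.hcop.symm) g
    have hdc : d * c₂ * d⁻¹ = c₂ := by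
      rw [hcomm d hd c₂ hc₂]; group
    have hB : g * c₂ * g⁻¹ = w * c₂ * w⁻¹ := by
      rw [hgwd]
      calc (w * d) * c₂ * (w * d)⁻¹ = w * (d * c₂ * d⁻¹) * w⁻¹ := by group
        _ = w * c₂ * w⁻¹ := by rw [hdc]
    rw [hB] at he'
    -- `c c₂⁻¹` is central
    have hcc₂M : c * c₂⁻¹ ∈ MM S := by
      have h1 := X.comm_mem_M w c₂
      have h2 : c₂ * ((w * c₂ * w⁻¹)⁻¹ * c) * c₂⁻¹ ∈ MM S :=
        Subgroup.Normal.conj_mem inferInstance _ (hZM he') c₂
      have h3 := (MM S).mul_mem h1 h2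
      have h4 : w * c₂ * w⁻¹ * c₂⁻¹ * (c₂ * ((w * c₂ * w⁻¹)⁻¹ * c) * c₂⁻¹) = c * c₂⁻¹ := by group
      rwa [h4] at h3
    have hcc₂ : c * c₂⁻¹ ∈ Subgroup.center G :=
      X.mem_center_of_cz hyM hcc₂M ((cz y).mul_mem hc ((cz y).inv_mem hc₂))
    -- pass to the quotient
    have hp1 : ((c₂ : G) : G ⧸ Subgroup.center G) = (c : G) := by
      rw [QuotientGroup.eq]
      have h5 : c₂⁻¹ * c = c₂⁻¹ * (c * c₂⁻¹) * c₂⁻¹⁻¹ := by group
      rw [h5]
      exact Subgroup.Normal.conj_mem inferInstance _ hcc₂ _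
    have hp2 : ((w * c₂ * w⁻¹ : G) : G ⧸ Subgroup.center G) = (c : G) := by
      rw [QuotientGroup.eq]; exact he'
    have hcomZ : w * c * w⁻¹ * c⁻¹ ∈ Subgroup.center G := by
      rw [← QuotientGroup.eq_one_iff]
      have h6 : ((w * c * w⁻¹ * c⁻¹ : G) : G ⧸ Subgroup.center G) =
          ((w * c₂ * w⁻¹ : G) : G ⧸ Subgroup.center G) * ((c : G) : G ⧸ Subgroup.center G)⁻¹ := by
        simp only [QuotientGroup.mk_mul, QuotientGroup.mk_inv, hp1]
      rw [h6, hp2, mul_inv_cancel]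
    have hwZ := X.A4 hw hcM hcomZ
    apply hgy
    rw [hgwd]
    exact (cz y).mul_mem (center_le_cz y hwZ) hd
  · ext ξ
    obtain ⟨g, rfl⟩ := QuotientGroup.mk'_surjective _ ξ
    constructor
    · rintro (h | h)
      · rw [h]
        exact Subgroup.one_mem _
      · by_contra hcon
        have hgM : g ∉ MM S := fun hh => hcon ⟨g, hh, rfl⟩
        obtain ⟨w, hw, c, hc, hgwc⟩ := X.exists_mul_M (g := y) (by rw [hy]; exact X.hcop.symm) g
        have hcM : c ∉ MM S := fun hh => hgM (by rw [hgwc]; exact (MM S).mul_mem hw hh)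
        have hd : ∀ v ∈ vv (MM S) X.M_comm c, v ∈ cz c → v = 1 := by
          intro v hv hvc
          have hvM := vv_le (MM S) X.M_comm c hv
          obtain ⟨e, he, hve⟩ := (mem_vv (MM S) X.M_comm).1 hv
          have hvZ := X.mem_center_of_cz hcM hvM hvc
          have h1 : e⁻¹ * c * e⁻¹⁻¹ * c⁻¹ ∈ Subgroup.center G := by
            have h2 : e⁻¹ * c * e⁻¹⁻¹ * c⁻¹ = v := by rw [hve]; group
            rw [h2]; exact hvZ
          have heZ := X.A4 ((MM S).inv_mem he) hcM h1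
          have h3 : e ∈ Subgroup.center G := by simpa using (Subgroup.center G).inv_mem heZ
          have h4 : c * e = e * c := (Subgroup.mem_center_iff.1 h3 c)
          rw [hve, h4]; group
        obtain ⟨k, hkM, hkc, v, hv, hwkv⟩ := fitting (MM S) X.M_comm c hd w hw
        have hkZ := X.mem_center_of_cz hcM hkM hkc
        obtain ⟨e, he, hve⟩ := (mem_vv (MM S) X.M_comm).1 hv
        apply h (QuotientGroup.mk' (Subgroup.center G) e⁻¹)
        refine mem_conj_smul.2 ⟨_, ⟨c, hc, rfl⟩, ?_⟩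
        have h1 : g = k * (e⁻¹ * c * e) := by
          rw [hgwc, hwkv, hve]; group
        have h2 : QuotientGroup.mk' (Subgroup.center G) k = 1 :=
          (QuotientGroup.eq_one_iff k).2 hkZ
        rw [h1, map_mul, h2, one_mul]
        simp only [map_mul, map_inv, inv_inv]
    · rintro ⟨e, heM, he⟩
      have he' : ((e : G) : G ⧸ Subgroup.center G) = (g : G) := he
      rw [QuotientGroup.eq] at he'
      have hgM : g ∈ MM S := by
        have h1 : g = e * (e⁻¹ * g) := by group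
        rw [h1]
        exact (MM S).mul_mem heM (hZM he')
      by_cases hgZ : g ∈ Subgroup.center G
      · left
        exact (QuotientGroup.eq_one_iff g).2 hgZ
      · right
        intro ĥ hmem
        obtain ⟨h, rfl⟩ := QuotientGroup.mk'_surjective _ ĥ
        obtain ⟨_, ⟨c, hc, rfl⟩, hh⟩ := mem_conj_smul.1 hmem
        have h1 : ((h * c * h⁻¹ : G) : G ⧸ Subgroup.center G) = (g : G) := hh
        rw [QuotientGroup.eq] at h1
        have h2 : h * c * h⁻¹ ∈ MM S := by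
          have h3 : h * c * h⁻¹ = g * ((h * c * h⁻¹)⁻¹ * g)⁻¹ := by group
          rw [h3]
          exact (MM S).mul_mem hgM ((MM S).inv_mem (hZM h1))
        have h3 : c ∈ MM S := by
          have h4 := Subgroup.Normal.conj_mem (inferInstance : (MM S).Normal) _ h2 h⁻¹
          have h5 : h⁻¹ * (h * c * h⁻¹) * h⁻¹⁻¹ = c := by group
          rwa [h5] at h4
        have hcZ := X.mem_center_of_cz hyM h3 hc
        have h4 : h * c * h⁻¹ = c := by
          rw [Subgroup.mem_center_iff.1 hcZ h]; group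
        rw [h4] at h1
        apply hgZ
        have h5 : g = c * (c⁻¹ * g) := by group
        rw [h5]
        exact Subgroup.mul_mem _ hcZ h1

end Cfsg.Agent.H08.CC
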