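import Mathlib

set_option autoImplicit false

namespace Cfsg.Agent.H08.Dih

open DihedralGroup Finset

variable {m : ℕ} [NeZero m]

def eqH (m : ℕ) : (ZMod m ⊕ ZMod m) ≃ DihedralGroup m where
  toFun := fun s => match s with | Sum.inl i => r i | Sum.inr i => sr i
  invFun := fun x => match x with | r i => Sum.inl i | sr i => Sum.inr i
  left_inv := by rintro (i | i) <;> rfl
  right_inv := by rintro (i | i) <;> rfl

lemma sum_H {R : Type*} [AddCommMonoid R] (F : DihedralGroup m → R) :
    ∑ x, F x = ∑ i, F (r i) + ∑ i, F (sr i) := by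
  rw [← Equiv.sum_comp (eqH m) F, Fintype.sum_sum_type]
  rfl

/-- The permutation-group data: a group of permutations of the dihedral group containing all left
translations and with no nontrivial invariant subgroup (primitivity). -/
structure PG (m : ℕ) [NeZero m] where
  G : Subgroup (Equiv.Perm (DihedralGroup m))
  hL : ∀ h : DihedralGroup m, Equiv.mulLeft h ∈ G
  prim : ∀ N : Subgroup (DihedralGroup m),
    (∀ g ∈ G, ∀ x y, x⁻¹ * y ∈ N → (g x)⁻¹ * (g y) ∈ N) → N = ⊥ ∨ N = ⊤

variable (P : PG m)

def SS (E : Set (DihedralGroup m)) : Prop :=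
  ∀ g ∈ P.G, ∀ x y, x⁻¹ * y ∈ E → (g x)⁻¹ * (g y) ∈ E

variable {P}

lemma SS.iff {E : Set (DihedralGroup m)} (hE : SS P E) {g : Equiv.Perm (DihedralGroup m)}
    (hg : g ∈ P.G) (x y : DihedralGroup m) : (g x)⁻¹ * (g y) ∈ E ↔ x⁻¹ * y ∈ E := by
  refine ⟨fun h => ?_, hE g hg x y⟩
  have := hE g⁻¹ (P.G.inv_mem hg) (g x) (g y) h
  simpa using this

lemma SS.compl {E : Set (DihedralGroup m)} (hE : SS P E) : SS P Eᶜ := by
  intro g hg x y h h'
  exact h ((hE.iff hg x y).1 h')

lemma SS.union {E F : Set (DihedralGroup m)} (hE : SS P E) (hF : SS P F) : SS P (E ∪ F) := by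
  intro g hg x y h
  rcases h with h | h
  · exact Or.inl (hE g hg x y h)
  · exact Or.inr (hF g hg x y h)

lemma SS.inter {E F : Set (DihedralGroup m)} (hE : SS P E) (hF : SS P F) : SS P (E ∩ F) :=
  fun g hg x y h => ⟨hE g hg x y h.1, hF g hg x y h.2⟩

lemma SS.diff {E F : Set (DihedralGroup m)} (hE : SS P E) (hF : SS P F) : SS P (E \ F) :=
  hE.inter hF.compl

lemma SS_one : SS P ({1} : Set (DihedralGroup m)) := by
  intro g hg x y h
  have h' : x = y := by
    have : x⁻¹ * y = 1 := h
    exact (inv_mul_eq_one.1 this)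
  subst h'
  simp

lemma SS_univ : SS P (Set.univ : Set (DihedralGroup m)) := fun _ _ _ _ _ => trivial

lemma SS_empty : SS P (∅ : Set (DihedralGroup m)) := fun _ _ _ _ h => h

/-- closure of an `SS` set is `SS`. -/
lemma SS.closure {E : Set (DihedralGroup m)} (hE : SS P E) :
    SS P (Subgroup.closure E : Set (DihedralGroup m)) := by
  have key : ∀ w ∈ Subgroup.closure E, ∀ g ∈ P.G, ∀ x, (g x)⁻¹ * g (x * w) ∈ Subgroup.closure E := by
    intro w hw
    induction hw using Subgroup.closure_induction with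
    | mem w hw =>
      intro g hg x
      apply Subgroup.subset_closure
      apply hE g hg x (x * w)
      simpa using hw
    | one => intro g hg x; simp
    | mul u v _ _ hu hv =>
      intro g hg x
      have h1 := hu g hg x
      have h2 := hv g hg (x * u)
      have := (Subgroup.closure E).mul_mem h1 h2
      simpa [mul_assoc] using this
    | inv u _ hu =>
      intro g hg x
      have h1 := hu g hg (x * u⁻¹)
      have := (Subgroup.closure E).inv_mem h1
      simpa [mul_assoc] using this
  intro g hg x y h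
  have := key _ h g hg x
  simpa using this

/-- A subgroup generated by an `SS` set is trivial or everything. -/
lemma SS.closure_triv {E : Set (DihedralGroup m)} (hE : SS P E) :
    Subgroup.closure E = ⊥ ∨ Subgroup.closure E = ⊤ :=
  P.prim _ hE.closure

/-- The rotation subgroup. -/
def rotG (m : ℕ) : Subgroup (DihedralGroup m) where
  carrier := {x | ∃ i, x = r i}
  mul_mem' := by
    rintro _ _ ⟨i, rfl⟩ ⟨j, rfl⟩
    exact ⟨i + j, by simp⟩
  one_mem' := ⟨0, rfl⟩
  inv_mem' := by
    rintro _ ⟨i, rfl⟩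
    exact ⟨-i, by simp⟩

lemma sr_not_mem_rotG (i : ZMod m) : sr i ∉ rotG m := by
  rintro ⟨j, hj⟩
  cases hj

/-- An `SS` set consisting of rotations only is contained in `{1}`. -/
lemma SS.rot_sub {E : Set (DihedralGroup m)} (hE : SS P E) (h : ∀ x ∈ E, ∃ i, x = r i) :
    E ⊆ {1} := by
  have hle : Subgroup.closure E ≤ rotG m := by
    rw [Subgroup.closure_le]
    intro x hx
    exact h x hx
  rcases hE.closure_triv with h1 | h1
  · intro x hx
    have : x ∈ Subgroup.closure E := Subgroup.subset_closure hx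
    rw [h1] at this
    simpa using this
  · exfalso
    have : sr (0 : ZMod m) ∈ Subgroup.closure E := by rw [h1]; trivial
    exact sr_not_mem_rotG _ (hle this)

/-- Every `SS` set is inverse closed. -/
lemma SS.inv_set {E : Set (DihedralGroup m)} (hE : SS P E) : SS P {x | x⁻¹ ∈ E} := by
  intro g hg x y h
  -- `(x⁻¹ y)⁻¹ = y⁻¹ x ∈ E`
  have h' : y⁻¹ * x ∈ E := by simpa using h
  have := hE g hg y x h'
  simpa using this

lemma SS.symm {E : Set (DihedralGroup m)} (hE : SS P E) {x : DihedralGroup m} (hx : x ∈ E) :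
    x⁻¹ ∈ E := by
  by_contra hn
  -- the set `E \ E⁻¹` is rotations only
  have hS : SS P (E \ {x | x⁻¹ ∈ E}) := hE.diff hE.inv_set
  have hrot : ∀ y ∈ E \ {x | x⁻¹ ∈ E}, ∃ i, y = r i := by
    rintro y ⟨hy1, hy2⟩
    cases y with
    | r i => exact ⟨i, rfl⟩
    | sr i =>
      exfalso
      apply hy2
      show (sr i)⁻¹ ∈ E
      simpa using hy1
  have hsub := hS.rot_sub hrot
  have hxm : x ∈ E \ {x | x⁻¹ ∈ E} := ⟨hx, hn⟩
  have : x = 1 := hsub hxm
  subst this
  exact hn (by simpa using hx)

/-- Invariant matrices. -/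
def IsI (P : PG m) {R : Type*} (A : Matrix (DihedralGroup m) (DihedralGroup m) R) : Prop :=
  ∀ g ∈ P.G, ∀ x y, A (g x) (g y) = A x y

section Mat
variable {R : Type*} [CommRing R]

lemma IsI.mul {A B : Matrix (DihedralGroup m) (DihedralGroup m) R} (hA : IsI P A) (hB : IsI P B) :
    IsI P (A * B) := by
  intro g hg x y
  simp only [Matrix.mul_apply]
  rw [← Equiv.sum_comp g]
  refine Finset.sum_congr rfl fun z _ => ?_
  rw [hA g hg, hB g hg]

lemma IsI.add {A B : Matrix (DihedralGroup m) (DihedralGroup m) R} (hA : IsI P A) (hB : IsI P B) :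
    IsI P (A + B) := by
  intro g hg x y
  simp [Matrix.add_apply, hA g hg, hB g hg]

lemma IsI.sub {A B : Matrix (DihedralGroup m) (DihedralGroup m) R} (hA : IsI P A) (hB : IsI P B) :
    IsI P (A - B) := by
  intro g hg x y
  simp [Matrix.sub_apply, hA g hg, hB g hg]

lemma IsI.one : IsI P (1 : Matrix (DihedralGroup m) (DihedralGroup m) R) := by
  intro g hg x y
  by_cases h : x = y
  · subst h; simp
  · have : g x ≠ g y := fun h' => h (g.injective h')
    simp [Matrix.one_apply, h, this]

lemma IsI.pow {A : Matrix (DihedralGroup m) (DihedralGroup m) R} (hA : IsI P A) (n : ℕ) :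
    IsI P (A ^ n) := by
  induction n with
  | zero => simpa using IsI.one
  | succ n ih => rw [pow_succ]; exact ih.mul hA

lemma IsI.eq {A : Matrix (DihedralGroup m) (DihedralGroup m) R} (hA : IsI P A) (x y) :
    A x y = A 1 (x⁻¹ * y) := by
  have := hA (Equiv.mulLeft x⁻¹) (P.hL _) x y
  simpa using this.symm

/-- build a left-invariant matrix from a function -/
def ofF (f : DihedralGroup m → R) : Matrix (DihedralGroup m) (DihedralGroup m) R :=
  Matrix.of fun x y => f (x⁻¹ * y)

@[simp] lemma ofF_apply (f : DihedralGroup m → R) (x y) : ofF f x y = f (x⁻¹ * y) := rfl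

lemma IsI.eq_ofF {A : Matrix (DihedralGroup m) (DihedralGroup m) R} (hA : IsI P A) :
    A = ofF (A 1) := by
  ext x y
  exact hA.eq x y

lemma ofF_mul (f g : DihedralGroup m → R) :
    ofF f * ofF g = ofF (fun x => ∑ y, f y * g (y⁻¹ * x)) := by
  ext u v
  simp only [Matrix.mul_apply, ofF_apply]
  rw [← Equiv.sum_comp (Equiv.mulLeft u)]
  refine Finset.sum_congr rfl fun y _ => ?_
  simp [mul_assoc]

lemma ofF_add (f g : DihedralGroup m → R) : ofF (f + g) = ofF f + ofF g := by
  ext u v; simp

lemma ofF_inj {f g : DihedralGroup m → R} (h : ofF f = ofF g) : f = g := by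
  funext x
  have := congrFun (congrFun h 1) x
  simpa using this

lemma ofF_one : ofF (fun x : DihedralGroup m => if x = 1 then (1 : R) else 0) = 1 := by
  ext u v
  simp only [ofF_apply, Matrix.one_apply]
  by_cases h : u = v
  · subst h; simp
  · have : u⁻¹ * v ≠ 1 := by
      intro h'; exact h (inv_mul_eq_one.1 h')
    simp [h, this]

/-- pair of rotation and reflection coefficients -/
def mk (a b : ZMod m → R) : DihedralGroup m → R
  | r i => a i
  | sr i => b i

@[simp] lemma mk_r (a b : ZMod m → R) (i) : mk a b (r i) = a i := rfl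
@[simp] lemma mk_sr (a b : ZMod m → R) (i) : mk a b (sr i) = b i := rfl

lemma mk_eta (f : DihedralGroup m → R) : mk (fun i => f (r i)) (fun i => f (sr i)) = f := by
  funext x; cases x <;> rfl

lemma mk_conv (a b a' b' : ZMod m → R) :
    (fun x => ∑ y, mk a b y * mk a' b' (y⁻¹ * x)) =
      mk (fun k => ∑ i, a i * a' (k - i) + ∑ i, b i * b' (i + k))
         (fun k => ∑ i, a i * b' (k + i) + ∑ i, b i * a' (k - i)) := by
  funext x
  rw [sum_H]
  cases x with
  | r k =>
    simp only [mk_r, mk_sr, inv_r, inv_sr, r_mul_r, sr_mul_r]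
    congr 1
    refine Finset.sum_congr rfl fun i _ => ?_
    congr 2; ring
  | sr k =>
    simp only [mk_r, mk_sr, inv_r, inv_sr, r_mul_sr, sr_mul_sr]
    congr 1
    refine Finset.sum_congr rfl fun i _ => ?_
    congr 2; ring

lemma ofF_mk_mul (a b a' b' : ZMod m → R) :
    ofF (mk a b) * ofF (mk a' b') =
      ofF (mk (fun k => ∑ i, a i * a' (k - i) + ∑ i, b i * b' (i + k))
         (fun k => ∑ i, a i * b' (k + i) + ∑ i, b i * a' (k - i))) := by
  rw [ofF_mul, mk_conv]

end Mat

end Cfsg.Agent.H08.Dih
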