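import Mathlib
import Cfsg.Agent.Lib.H08.Dih1

set_option autoImplicit false

namespace Cfsg.Agent.H08.Dih

open DihedralGroup Finset

variable {m : ℕ} [NeZero m] {P : PG m}

lemma SS.prod {E F : Set (DihedralGroup m)} (hE : SS P E) (hF : SS P F) :
    SS P {z | ∃ y ∈ E, y⁻¹ * z ∈ F} := by
  rintro g hg x u ⟨y, hy, hyu⟩
  have h1 := hE g hg x (x * y) (by simpa using hy)
  have h2 := hF g hg (x * y) u (by simpa [mul_assoc] using hyu)
  exact ⟨_, h1, by simpa [mul_assoc] using h2⟩

lemma r_one_ne [Fact (1 < m)] : (r (1 : ZMod m)) ≠ 1 := by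
  intro h
  have : (r (1 : ZMod m)) = r 0 := h
  rw [r.injEq] at this
  exact one_ne_zero this

/-- (B3) A `SS` set consisting of reflections only is empty. -/
lemma SS.refl_empty [Fact (1 < m)] {E : Set (DihedralGroup m)} (hE : SS P E)
    (h : ∀ x ∈ E, ∃ i, x = sr i) : E = ∅ := by
  classical
  by_contra hne
  obtain ⟨x, hx⟩ := Set.nonempty_iff_ne_empty.2 hne
  have hF := (hE.prod hE).rot_sub (by
    rintro z ⟨y, hy, hyz⟩
    obtain ⟨i, rfl⟩ := h y hy
    obtain ⟨j, hj⟩ := h _ hyz
    have hz : z = sr i * sr j := by rw [← hj, mul_inv_cancel_left]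
    rw [hz]
    exact ⟨_, sr_mul_sr i j⟩)
  obtain ⟨i, hi⟩ := h x hx
  have hxx : x * x = 1 := by subst hi; simp [sr_mul_sr]
  have hxinv : x⁻¹ = x := by
    rw [inv_eq_iff_mul_eq_one]; exact hxx
  have huniq : ∀ y ∈ E, y = x := by
    intro y hy
    have : x * y ∈ ({1} : Set (DihedralGroup m)) := hF ⟨x, hx, by simpa using hy⟩
    have h1 : x * y = 1 := this
    have h2 : y = x⁻¹ := eq_inv_of_mul_eq_one_right h1
    rw [h2, hxinv]
  have hcl : ∀ z ∈ Subgroup.closure E, z = 1 ∨ z = x := by
    intro z hz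
    induction hz using Subgroup.closure_induction with
    | mem z hz => exact Or.inr (huniq z hz)
    | one => exact Or.inl rfl
    | mul u v _ _ hu hv =>
      rcases hu with rfl | rfl <;> rcases hv with rfl | rfl <;> simp [hxx]
    | inv u _ hu =>
      rcases hu with rfl | rfl
      · simp
      · exact Or.inr hxinv
  rcases hE.closure_triv with h1 | h1
  · have : x ∈ Subgroup.closure E := Subgroup.subset_closure hx
    rw [h1] at this
    have hx1 : x = 1 := by simpa using this
    subst hi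
    cases hx1
  · have : r (1 : ZMod m) ∈ Subgroup.closure E := by rw [h1]; trivial
    rcases hcl _ this with h2 | h2
    · exact r_one_ne h2
    · subst hi; cases h2

lemma SS.exists_rot [Fact (1 < m)] {E : Set (DihedralGroup m)} (hE : SS P E)
    (hne : E.Nonempty) : ∃ i, r i ∈ E := by
  by_contra hn
  push Not at hn
  have := hE.refl_empty (by
    intro x hx
    cases x with
    | r i => exact absurd hx (hn i)
    | sr i => exact ⟨i, rfl⟩)
  rw [this] at hne
  exact Set.not_nonempty_empty hne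

/-- Lemma I. -/
lemma SS.of_left_inv {E : Set (DihedralGroup m)} (hE : SS P E) {z : DihedralGroup m}
    (hz : z ≠ 1) (hinv : ∀ y, y ∈ E ↔ z * y ∈ E) : E = ∅ ∨ E = Set.univ := by
  classical
  let N : Subgroup (DihedralGroup m) :=
    { carrier := {h | ∀ y, y ∈ E ↔ h * y ∈ E}
      mul_mem' := by
        intro a b ha hb y
        rw [hb y, ha (b * y), mul_assoc]
      one_mem' := by intro y; simp
      inv_mem' := by
        intro a ha y
        rw [ha (a⁻¹ * y)]
        simp }
  have hN : ∀ g ∈ P.G, ∀ x y, x⁻¹ * y ∈ N → (g x)⁻¹ * (g y) ∈ N := by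
    intro g hg x y hxy w
    -- `t' = g⁻¹ (g y * w)`
    set t : DihedralGroup m := g y * w with ht
    set t' : DihedralGroup m := g⁻¹ t with ht'
    have hgt : g t' = t := by simp [ht']
    have h1 : w ∈ E ↔ y⁻¹ * t' ∈ E := by
      have := hE.iff hg y t'
      rw [hgt, ht] at this
      simpa using this
    have h2 : (g x)⁻¹ * (g y) * w ∈ E ↔ x⁻¹ * t' ∈ E := by
      have := hE.iff hg x t'
      rw [hgt, ht] at this
      simpa [mul_assoc] using this
    have h3 : y⁻¹ * t' ∈ E ↔ x⁻¹ * t' ∈ E := by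
      have := hxy (y⁻¹ * t')
      have e : x⁻¹ * y * (y⁻¹ * t') = x⁻¹ * t' := by group
      rwa [e] at this
    rw [h1, h2, h3]
  rcases P.prim N hN with h | h
  · exfalso
    apply hz
    have : z ∈ N := hinv
    rw [h] at this
    simpa using this
  · by_cases hne : E.Nonempty
    · right
      obtain ⟨e, he⟩ := hne
      ext y
      simp only [Set.mem_univ, iff_true]
      have hm : y * e⁻¹ ∈ N := by rw [h]; trivial
      have := (hm e).1 he
      simpa using this
    · left
      exact Set.not_nonempty_iff_eq_empty.1 hne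

section Mat
variable {R : Type*} [CommRing R]

lemma IsI.ss_level {A : Matrix (DihedralGroup m) (DihedralGroup m) R} (hA : IsI P A) (c : R) :
    SS P {z | A 1 z = c} := by
  intro g hg x y h
  have h1 : A x y = c := by rw [hA.eq]; exact h
  show A 1 ((g x)⁻¹ * g y) = c
  rw [← hA.eq, hA g hg, h1]

lemma IsI.symm1 {A : Matrix (DihedralGroup m) (DihedralGroup m) R} (hA : IsI P A)
    (x : DihedralGroup m) : A 1 x⁻¹ = A 1 x :=
  (hA.ss_level (A 1 x)).symm (x := x) rfl

lemma IsI.eq_zero_of_rot [Fact (1 < m)] {A : Matrix (DihedralGroup m) (DihedralGroup m) R}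
    (hA : IsI P A) (h : ∀ i, A 1 (r i) = 0) : A = 0 := by
  have h0 : ∀ x, A 1 x = 0 := by
    intro x
    by_contra hx
    have := (hA.ss_level (A 1 x)).refl_empty (by
      intro z hz
      cases z with
      | r i =>
        exfalso
        apply hx
        have h1 : A 1 (r i) = A 1 x := hz
        rw [← h1, h i]
      | sr i => exact ⟨i, rfl⟩)
    have hm : x ∈ ({z | A 1 z = A 1 x} : Set _) := rfl
    rw [this] at hm
    exact hm
  ext x y
  rw [hA.eq]
  simpa using h0 _

lemma IsI.rot_zero_of_refl {A : Matrix (DihedralGroup m) (DihedralGroup m) R}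
    (hA : IsI P A) (h : ∀ i, A 1 (sr i) = 0) {i : ZMod m} (hi : i ≠ 0) : A 1 (r i) = 0 := by
  by_contra hx
  have := (hA.ss_level (A 1 (r i))).rot_sub (by
    intro z hz
    cases z with
    | r j => exact ⟨j, rfl⟩
    | sr j =>
      exfalso
      apply hx
      have h1 : A 1 (sr j) = A 1 (r i) := hz
      rw [← h1, h j])
  have hm : r i ∈ ({z | A 1 z = A 1 (r i)} : Set _) := rfl
  have h2 : r i = 1 := this hm
  have : r i = r 0 := h2
  rw [r.injEq] at this
  exact hi this

open Classical in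
/-- characteristic function -/
noncomputable def chi (R : Type*) [CommRing R] (E : Set (DihedralGroup m)) : DihedralGroup m → R :=
  fun x => if x ∈ E then 1 else 0

lemma chi_mem {E : Set (DihedralGroup m)} {x} (h : x ∈ E) : chi R E x = 1 := by
  simp [chi, h]

lemma chi_not {E : Set (DihedralGroup m)} {x} (h : x ∉ E) : chi R E x = 0 := by
  simp [chi, h]

lemma chi_isI {E : Set (DihedralGroup m)} (hE : SS P E) : IsI P (ofF (chi R E)) := by
  intro g hg x y
  simp only [ofF_apply, chi]
  by_cases h : x⁻¹ * y ∈ E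
  · rw [if_pos h, if_pos ((hE.iff hg x y).2 h)]
  · rw [if_neg h, if_neg (fun h' => h ((hE.iff hg x y).1 h'))]

/-- Hom-sum -/
def hsum (ε : DihedralGroup m → R) (f : DihedralGroup m → R) : R := ∑ x, ε x * f x

lemma hsum_mul (ε : DihedralGroup m → R) (hε : ∀ x y, ε (x * y) = ε x * ε y)
    (f g : DihedralGroup m → R) :
    hsum ε (fun x => ∑ y, f y * g (y⁻¹ * x)) = hsum ε f * hsum ε g := by
  simp only [hsum]
  rw [Finset.sum_mul_sum]
  simp_rw [Finset.mul_sum]
  rw [Finset.sum_comm]
  refine Finset.sum_congr rfl fun y _ => ?_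
  rw [← Equiv.sum_comp (Equiv.mulLeft y)]
  refine Finset.sum_congr rfl fun v _ => ?_
  simp only [Equiv.coe_mulLeft, inv_mul_cancel_left, hε]
  ring

lemma hsum_pow (ε : DihedralGroup m → R) (hε : ∀ x y, ε (x * y) = ε x * ε y) (hε1 : ε 1 = 1)
    (f : DihedralGroup m → R) (n : ℕ) :
    ∃ h, (ofF f) ^ n = ofF h ∧ hsum ε h = (hsum ε f) ^ n := by
  classical
  induction n with
  | zero =>
    refine ⟨fun x => if x = 1 then 1 else 0, by simp [ofF_one], ?_⟩
    simp [hsum, hε1]
  | succ n ih =>
    obtain ⟨h, h1, h2⟩ := ih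
    refine ⟨_, by rw [pow_succ, h1, ofF_mul], ?_⟩
    rw [hsum_mul ε hε, h2, pow_succ]

lemma hsum_pow' (ε : DihedralGroup m → R) (hε : ∀ x y, ε (x * y) = ε x * ε y) (hε1 : ε 1 = 1)
    (f : DihedralGroup m → R) (n : ℕ) :
    hsum ε (((ofF f) ^ n) 1) = (hsum ε f) ^ n := by
  obtain ⟨h, h1, h2⟩ := hsum_pow ε hε hε1 f n
  rw [h1, ← h2]
  congr 1
  funext x
  simp

end Mat

end Cfsg.Agent.H08.Dih
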