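import Mathlib
import Cfsg.Agent.Lib.H08.Dih2

set_option autoImplicit false

namespace Cfsg.Agent.H08.Dih

open DihedralGroup Finset

variable {m : ℕ} [NeZero m] {P : PG m}

section Mat
variable {R : Type*} [CommRing R]

def Ca (a : ZMod m → R) : Matrix (DihedralGroup m) (DihedralGroup m) R := ofF (mk a 0)
def Sa (b : ZMod m → R) : Matrix (DihedralGroup m) (DihedralGroup m) R := ofF (mk 0 b)

lemma ofF_mk_split (a b : ZMod m → R) : ofF (mk a b) = Ca a + Sa b := by
  rw [Ca, Sa, ← ofF_add]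
  congr 1
  funext x
  cases x <;> simp [mk]

lemma Ca_mul (a a' : ZMod m → R) : Ca a * Ca a' = Ca (fun k => ∑ i, a i * a' (k - i)) := by
  rw [Ca, Ca, ofF_mk_mul, Ca]
  congr 2 <;> funext k <;> simp

lemma Sa_mul_Sa (b b' : ZMod m → R) : Sa b * Sa b' = Ca (fun k => ∑ i, b i * b' (i + k)) := by
  rw [Sa, Sa, ofF_mk_mul, Ca]
  congr 2 <;> funext k <;> simp

lemma Ca_mul_Sa (a b : ZMod m → R) : Ca a * Sa b = Sa (fun k => ∑ i, a i * b (k + i)) := by
  rw [Ca, Sa, ofF_mk_mul, Sa]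
  congr 2 <;> funext k <;> simp

lemma Sa_mul_Ca (a b : ZMod m → R) : Sa b * Ca a = Sa (fun k => ∑ i, b i * a (k - i)) := by
  rw [Ca, Sa, ofF_mk_mul, Sa]
  congr 2 <;> funext k <;> simp

lemma Ca_comm_Sa (a b : ZMod m → R) (hs : ∀ i, a (-i) = a i) : Commute (Ca a) (Sa b) := by
  show Ca a * Sa b = Sa b * Ca a
  rw [Ca_mul_Sa, Sa_mul_Ca]
  congr 1
  funext k
  rw [← Equiv.sum_comp (Equiv.addLeft k) (fun i => b i * a (k - i))]
  refine Finset.sum_congr rfl fun i _ => ?_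
  simp only [Equiv.coe_addLeft]
  have : k - (k + i) = -i := by ring
  rw [this, hs, mul_comm]

/-- delta functions -/
def dl (i : ZMod m) : ZMod m → R := fun k => if k = i then 1 else 0

def Pr (i : ZMod m) : Matrix (DihedralGroup m) (DihedralGroup m) R := Ca (dl i)

lemma Pr_mul (i j : ZMod m) : (Pr i * Pr j : Matrix (DihedralGroup m) (DihedralGroup m) R) = Pr (i + j) := by
  rw [Pr, Pr, Ca_mul, Pr]
  congr 1
  funext k
  simp only [dl, ite_mul, one_mul, zero_mul, Finset.sum_ite_eq', Finset.mem_univ, if_true]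
  have : k - i = j ↔ k = i + j := sub_eq_iff_eq_add'
  simp only [this]

lemma Pr_zero : (Pr (0 : ZMod m) : Matrix (DihedralGroup m) (DihedralGroup m) R) = 1 := by
  rw [← ofF_one, Pr, Ca]
  congr 1
  funext x
  cases x with
  | r k =>
    have : (r k = (1 : DihedralGroup m)) ↔ k = 0 := by
      constructor
      · intro h
        have h' : r k = r 0 := h
        exact r.inj h'
      · rintro rfl; rfl
    simp [dl, this]
  | sr k =>
    have : (sr k ≠ (1 : DihedralGroup m)) := by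
      intro h
      have h' : sr k = r 0 := h
      cases h'
    simp [this]

lemma Pr_pow (i : ZMod m) (n : ℕ) :
    (Pr i ^ n : Matrix (DihedralGroup m) (DihedralGroup m) R) = Pr ((n : ZMod m) * i) := by
  induction n with
  | zero => simp [Pr_zero]
  | succ n ih =>
    rw [pow_succ, ih, Pr_mul]
    congr 1
    push_cast
    ring

lemma Ca_expand (a : ZMod m → R) : Ca a = ∑ i, a i • Pr i := by
  ext x y
  simp only [Matrix.sum_apply, Matrix.smul_apply, Ca, Pr, ofF_apply, smul_eq_mul]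
  generalize x⁻¹ * y = z
  cases z with
  | r k => simp [dl]
  | sr k => simp

lemma Pr_comm (i j : ZMod m) :
    Commute (Pr i : Matrix (DihedralGroup m) (DihedralGroup m) R) (Pr j) := by
  show Pr i * Pr j = Pr j * Pr i
  rw [Pr_mul, Pr_mul, add_comm]

/-- Frobenius on rotation coefficients. -/
def frobC (ℓ : ℕ) (a : ZMod m → R) : ZMod m → R :=
  fun k => ∑ i, if (ℓ : ZMod m) * i = k then a i else 0

lemma Ca_frobC (ℓ : ℕ) (a : ZMod m → R) : Ca (frobC ℓ a) = ∑ i, a i • Pr ((ℓ : ZMod m) * i) := by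
  ext x y
  simp only [Matrix.sum_apply, Matrix.smul_apply, Ca, Pr, ofF_apply, smul_eq_mul]
  generalize x⁻¹ * y = z
  cases z with
  | r k =>
    simp only [mk_r, frobC, dl]
    refine Finset.sum_congr rfl fun i _ => ?_
    by_cases h : (ℓ : ZMod m) * i = k
    · simp [h]
    · have h' : ¬ k = (ℓ : ZMod m) * i := fun h'' => h h''.symm
      simp [h, h']
  | sr k => simp

lemma frobC_unit (ℓ : ℕ) (hu : IsUnit (ℓ : ZMod m)) (a : ZMod m → R) (i : ZMod m) :
    frobC ℓ a ((ℓ : ZMod m) * i) = a i := by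
  simp only [frobC]
  rw [Finset.sum_eq_single i]
  · simp
  · intro j _ hj
    rw [if_neg]
    intro h
    exact hj (hu.mul_left_cancel h)
  · simp

end Mat

lemma sum_pow_comm {ι S : Type*} [Ring S] (ℓ : ℕ) [Fact ℓ.Prime] [CharP S ℓ] (s : Finset ι)
    (f : ι → S) (h : ∀ i j, Commute (f i) (f j)) : (∑ i ∈ s, f i) ^ ℓ = ∑ i ∈ s, f i ^ ℓ := by
  classical
  induction s using Finset.induction_on with
  | empty =>
    simp [zero_pow (Fact.out : ℓ.Prime).ne_zero]
  | insert a s ha ih =>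
    rw [Finset.sum_insert ha, Finset.sum_insert ha, add_pow_char_of_commute, ih]
    exact Commute.sum_right _ _ _ (fun j _ => h a j)

section Frob
variable (ℓ : ℕ) [Fact ℓ.Prime]

lemma Ca_pow_char (a : ZMod m → ZMod ℓ) : (Ca a) ^ ℓ = Ca (frobC ℓ a) := by
  rw [Ca_frobC, Ca_expand a, sum_pow_comm ℓ]
  · refine Finset.sum_congr rfl fun i _ => ?_
    rw [smul_pow, ZMod.pow_card, Pr_pow]
  · intro i j
    exact (Pr_comm i j).smul_left _ |>.smul_right _

lemma mk_pow_char (a b : ZMod m → ZMod ℓ) (hs : ∀ i, a (-i) = a i) :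
    (ofF (mk a b)) ^ ℓ = Ca (frobC ℓ a) + (Sa b) ^ ℓ := by
  rw [ofF_mk_split, add_pow_char_of_commute ℓ (Ca_comm_Sa a b hs), Ca_pow_char]

omit [Fact ℓ.Prime] in
lemma Sa_pow_odd {R : Type*} [CommRing R] (b : ZMod m → R) (t : ℕ) :
    ∃ b', (Sa b) ^ (2 * t + 1) = Sa b' := by
  induction t with
  | zero => exact ⟨b, by simp⟩
  | succ t ih =>
    obtain ⟨b', hb'⟩ := ih
    have e : 2 * (t + 1) + 1 = (2 * t + 1) + 1 + 1 := by ring
    rw [e, pow_succ, pow_succ, hb', Sa_mul_Sa, Ca_mul_Sa]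
    exact ⟨_, rfl⟩

lemma frob_rot (a b : ZMod m → ZMod ℓ) (hs : ∀ i, a (-i) = a i) (hodd : ℓ ≠ 2) (k : ZMod m) :
    ((ofF (mk a b)) ^ ℓ) 1 (r k) = frobC ℓ a k := by
  rw [mk_pow_char ℓ a b hs]
  obtain ⟨t, ht⟩ : ∃ t, ℓ = 2 * t + 1 := by
    have := (Fact.out : ℓ.Prime).eq_two_or_odd'
    rcases this with h | ⟨t, ht⟩
    · exact absurd h hodd
    · exact ⟨t, ht⟩
  obtain ⟨b', hb'⟩ := Sa_pow_odd b t
  rw [← ht] at hb'
  rw [hb']
  simp [Ca, Sa]

lemma frob_sq0 (a b : ZMod m → ZMod ℓ) (hs : ∀ i, a (-i) = a i) (h0 : Sa b * Sa b = 0) :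
    (ofF (mk a b)) ^ ℓ = Ca (frobC ℓ a) := by
  rw [mk_pow_char ℓ a b hs]
  have : (Sa b) ^ ℓ = 0 :=
    pow_eq_zero_of_le (Fact.out : ℓ.Prime).two_le (by rw [pow_two, h0])
  rw [this, add_zero]

end Frob

/-! ### number theory in `ZMod m` -/

lemma dir_prime {i j : ZMod m} (h : addOrderOf i = addOrderOf j) (N : ℕ) :
    ∃ ℓ : ℕ, ℓ > N ∧ ℓ.Prime ∧ (ℓ : ZMod m) * i = j := by
  have hm0 : m ≠ 0 := NeZero.ne m
  have hi : ((i.val : ℕ) : ZMod m) = i := ZMod.natCast_zmod_val i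
  have hj : ((j.val : ℕ) : ZMod m) = j := ZMod.natCast_zmod_val j
  rw [← hi, ← hj, ZMod.addOrderOf_coe _ hm0, ZMod.addOrderOf_coe _ hm0] at h
  obtain ⟨n, i', hco, hmn, hi'⟩ := Nat.exists_coprime m i.val
  obtain ⟨n₂, j', hco₂, hmn₂, hj'⟩ := Nat.exists_coprime m j.val
  have hg : 0 < m.gcd i.val := Nat.gcd_pos_of_pos_left _ (Nat.pos_of_ne_zero hm0)
  have hg₂ : 0 < m.gcd j.val := Nat.gcd_pos_of_pos_left _ (Nat.pos_of_ne_zero hm0)
  have e1 : m / m.gcd i.val = n := Nat.div_eq_of_eq_mul_left hg hmn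
  have e2 : m / m.gcd j.val = n₂ := Nat.div_eq_of_eq_mul_left hg₂ hmn₂
  have hnn : n = n₂ := by rw [← e1, ← e2, h]
  subst hnn
  have hn0 : n ≠ 0 := by
    rintro rfl
    rw [zero_mul] at hmn
    exact hm0 hmn
  have hgg : m.gcd i.val = m.gcd j.val := by
    have h1 : n * m.gcd i.val = n * m.gcd j.val := by rw [← hmn, ← hmn₂]
    exact Nat.eq_of_mul_eq_mul_left (Nat.pos_of_ne_zero hn0) h1
  haveI : NeZero n := ⟨hn0⟩
  have hui : IsUnit (i' : ZMod n) := (ZMod.isUnit_iff_coprime i' n).2 hco.symm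
  have huj : IsUnit (j' : ZMod n) := (ZMod.isUnit_iff_coprime j' n).2 hco₂.symm
  obtain ⟨ui, hui'⟩ := hui
  obtain ⟨uj, huj'⟩ := huj
  obtain ⟨ℓ, hℓN, hℓp, hℓ⟩ := Nat.forall_exists_prime_gt_and_eq_mod
    (q := n) (a := ((uj * ui⁻¹ : (ZMod n)ˣ) : ZMod n)) (Units.isUnit _) N
  refine ⟨ℓ, hℓN, hℓp, ?_⟩
  have hmodn : ((ℓ * i' : ℕ) : ZMod n) = ((j' : ℕ) : ZMod n) := by
    push_cast
    rw [hℓ, ← hui', ← huj']
    push_cast
    simp
  have hmod : ℓ * i' ≡ j' [MOD n] := (ZMod.natCast_eq_natCast_iff _ _ _).1 hmodn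
  have hmod2 : ℓ * i' * m.gcd i.val ≡ j' * m.gcd i.val [MOD n * m.gcd i.val] :=
    Nat.ModEq.mul_right' _ hmod
  rw [← hmn] at hmod2
  have hcast := (ZMod.natCast_eq_natCast_iff _ _ m).2 hmod2
  rw [hgg, ← hj'] at hcast
  rw [hgg] at hmod2
  have hiv : i.val = i' * m.gcd j.val := by rw [← hgg]; exact hi'
  rw [mul_assoc, ← hiv] at hcast
  push_cast at hcast
  simpa [hi, hj] using hcast

lemma isUnit_of_big {ℓ : ℕ} (hℓ : ℓ.Prime) (h : ℓ > m) : IsUnit (ℓ : ZMod m) := by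
  rw [ZMod.isUnit_iff_coprime]
  rw [Nat.Prime.coprime_iff_not_dvd hℓ]
  intro hd
  have := Nat.le_of_dvd (Nat.pos_of_ne_zero (NeZero.ne m)) hd
  omega

lemma ord_unit_mul {u : ZMod m} (hu : IsUnit u) (i : ZMod m) : addOrderOf (u * i) = addOrderOf i := by
  have := addOrderOf_injective (AddMonoidHom.mulLeft u)
    (fun a b h => hu.mul_left_cancel h) i
  simpa using this

section PD

variable {p d : ℕ} [hp : Fact p.Prime]

lemma d_pos (hm : m = p * d) : 0 < d := by
  rcases Nat.eq_zero_or_pos d with h | h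
  · subst h
    rw [mul_zero] at hm
    exact absurd hm (NeZero.ne m)
  · exact h

lemma ord_d (hm : m = p * d) : addOrderOf (d : ZMod m) = p := by
  rw [ZMod.addOrderOf_coe _ (NeZero.ne m)]
  have hd := d_pos hm
  rw [hm, Nat.gcd_mul_left_left, Nat.mul_div_cancel _ hd]

lemma p_mul_d (hm : m = p * d) : (p : ZMod m) * (d : ZMod m) = 0 := by
  have : ((p * d : ℕ) : ZMod m) = 0 := by
    rw [← hm]; simp
  simpa using this

lemma mul_p_eq_iff (hm : m = p * d) (x y : ZMod m) :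
    (p : ZMod m) * x = (p : ZMod m) * y ↔ ∃ t < p, y = x + (t : ZMod m) * (d : ZMod m) := by
  constructor
  · intro h
    have hz : (p : ZMod m) * (y - x) = 0 := by rw [mul_sub, h, sub_self]
    set z := y - x with hzdef
    have hv : ((z.val : ℕ) : ZMod m) = z := ZMod.natCast_zmod_val z
    have hdvd : m ∣ p * z.val := by
      rw [← ZMod.natCast_eq_zero_iff]
      push_cast
      rw [hv, hz]
    have hd := d_pos hm
    have hppos := (Fact.out : p.Prime).pos
    have hdz : ∀ v : ℕ, m ∣ p * v → d ∣ v := by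
      intro v hv
      rw [hm] at hv
      exact Nat.dvd_of_mul_dvd_mul_left hppos hv
    obtain ⟨t, ht⟩ := hdz _ hdvd
    refine ⟨t, ?_, ?_⟩
    · have hlt : z.val < m := ZMod.val_lt z
      have hlt2 : ∀ v : ℕ, v < m → v = d * t → t < p := by
        intro v hv hvt
        rw [hvt, hm, mul_comm] at hv
        exact Nat.lt_of_mul_lt_mul_right hv
      exact hlt2 _ hlt ht
    · have : y = x + z := by rw [hzdef]; ring
      rw [this, ← hv, ht]
      push_cast
      ring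
  · rintro ⟨t, _, rfl⟩
    have h1 : (p : ZMod m) * (x + (t : ZMod m) * (d : ZMod m)) =
        (p : ZMod m) * x + (t : ZMod m) * ((p : ZMod m) * (d : ZMod m)) := by ring
    rw [h1, p_mul_d hm]
    ring

lemma td_inj (hm : m = p * d) {t t' : ℕ} (ht : t < p) (ht' : t' < p)
    (h : (t : ZMod m) * (d : ZMod m) = (t' : ZMod m) * (d : ZMod m)) : t = t' := by
  have hd := d_pos hm
  have h' : ((t * d : ℕ) : ZMod m) = ((t' * d : ℕ) : ZMod m) := by
    push_cast; exact h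
  rw [ZMod.natCast_eq_natCast_iff'] at h'
  have h1 : t * d < m := by rw [hm]; exact Nat.mul_lt_mul_of_pos_right ht hd
  have h2 : t' * d < m := by rw [hm]; exact Nat.mul_lt_mul_of_pos_right ht' hd
  rw [Nat.mod_eq_of_lt h1, Nat.mod_eq_of_lt h2] at h'
  exact Nat.eq_of_mul_eq_mul_right hd h'

lemma fiber_sum {R : Type*} [AddCommMonoid R] (hm : m = p * d) (F : ZMod m → R) (x₀ : ZMod m) :
    (∑ i, if (p : ZMod m) * i = (p : ZMod m) * x₀ then F i else 0) =
      ∑ t ∈ Finset.range p, F (x₀ + (t : ZMod m) * (d : ZMod m)) := by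
  classical
  rw [← Finset.sum_filter]
  symm
  refine Finset.sum_nbij (fun t : ℕ => x₀ + (t : ZMod m) * (d : ZMod m)) ?_ ?_ ?_ ?_
  · intro t ht
    rw [Finset.mem_filter]
    refine ⟨Finset.mem_univ _, ?_⟩
    exact ((mul_p_eq_iff hm x₀ _).2 ⟨t, Finset.mem_range.1 ht, rfl⟩).symm
  · intro t ht t' ht' h
    have h' : (t : ZMod m) * (d : ZMod m) = (t' : ZMod m) * (d : ZMod m) := add_left_cancel h
    exact td_inj hm (Finset.mem_range.1 ht) (Finset.mem_range.1 ht') h'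
  · intro y hy
    have hy' := (Finset.mem_filter.1 hy).2
    obtain ⟨t, ht, h⟩ := (mul_p_eq_iff hm x₀ y).1 hy'.symm
    exact ⟨t, Finset.mem_coe.2 (Finset.mem_range.2 ht), h.symm⟩
  · intro t _
    rfl

lemma per_add {S : Type*} (f : ZMod m → S) (hf : ∀ i, f (i + (d : ZMod m)) = f i) (x : ZMod m)
    (t : ℕ) : f (x + (t : ZMod m) * (d : ZMod m)) = f x := by
  induction t with
  | zero => simp
  | succ t ih =>
    have : x + ((t + 1 : ℕ) : ZMod m) * (d : ZMod m) = (x + (t : ZMod m) * (d : ZMod m)) + d := by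
      push_cast; ring
    rw [this, hf, ih]

lemma per_sum {R : Type*} [CommRing R] [CharP R p] (hm : m = p * d) (f : ZMod m → R)
    (hf : ∀ i, f (i + (d : ZMod m)) = f i) : ∑ i, f i = 0 := by
  classical
  have h1 : ∑ i, f i = ∑ j : ZMod m, ∑ i, if (p : ZMod m) * i = j then f i else 0 := by
    rw [Finset.sum_comm]
    refine Finset.sum_congr rfl fun i _ => ?_
    simp
  rw [h1]
  refine Finset.sum_eq_zero fun j _ => ?_
  by_cases hj : ∃ x₀, (p : ZMod m) * x₀ = j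
  · obtain ⟨x₀, rfl⟩ := hj
    rw [fiber_sum hm]
    simp only [per_add f hf x₀]
    simp
  · push Not at hj
    refine Finset.sum_eq_zero fun i _ => ?_
    rw [if_neg (hj i)]

lemma ord_p_mul (x : ZMod m) :
    addOrderOf ((p : ZMod m) * x) = addOrderOf x / (addOrderOf x).gcd p := by
  have := addOrderOf_nsmul' x (Fact.out : p.Prime).ne_zero
  rwa [nsmul_eq_mul] at this

lemma ord_of_dvd {x : ZMod m} (h : p ∣ addOrderOf x) :
    addOrderOf x = p * addOrderOf ((p : ZMod m) * x) := by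
  rw [ord_p_mul, Nat.gcd_eq_right h, Nat.mul_div_cancel' h]

lemma ord_of_not_dvd {x : ZMod m} (h : ¬ p ∣ addOrderOf x) :
    addOrderOf ((p : ZMod m) * x) = addOrderOf x := by
  have hc : (addOrderOf x).Coprime p := ((Nat.Prime.coprime_iff_not_dvd hp.out).2 h).symm
  rw [ord_p_mul, hc, Nat.div_one]

lemma ord_pos (x : ZMod m) : 0 < addOrderOf x := addOrderOf_pos x

lemma exists_root {i : ZMod m} (h : ¬ p ∣ addOrderOf i) :
    ∃ x₀, (p : ZMod m) * x₀ = i ∧ addOrderOf x₀ = addOrderOf i := by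
  set n := addOrderOf i with hn
  have hc : p.Coprime n := (Nat.Prime.coprime_iff_not_dvd hp.out).2 h
  have hn0 : n ≠ 0 := (ord_pos i).ne'
  haveI : NeZero n := ⟨hn0⟩
  have e1 := ZMod.coe_mul_inv_eq_one p hc
  set u := ((p : ZMod n)⁻¹).val with hu
  have e2 : ((p * u : ℕ) : ZMod n) = ((1 : ℕ) : ZMod n) := by
    push_cast
    rw [hu, ZMod.natCast_zmod_val, e1]
  have e3 : p * u ≡ 1 [MOD n] := (ZMod.natCast_eq_natCast_iff _ _ _).1 e2
  have e4 : (p * u) • i = 1 • i := (nsmul_eq_nsmul_iff_modEq).2 e3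
  have hpx : (p : ZMod m) * (u • i) = i := by
    have : (p * u) • i = i := by simpa using e4
    rw [nsmul_eq_mul] at this ⊢
    push_cast at this
    rw [← mul_assoc]
    exact this
  refine ⟨u • i, hpx, ?_⟩
  have hdvd : addOrderOf (u • i) ∣ n := by
    apply addOrderOf_dvd_of_nsmul_eq_zero
    rw [smul_comm, hn, addOrderOf_nsmul_eq_zero, smul_zero]
  have hnd : ¬ p ∣ addOrderOf (u • i) := fun h' => h (h'.trans hdvd)
  have := ord_of_not_dvd (p := p) hnd
  rw [hpx] at this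
  exact this.symm

lemma ord_td (hm : m = p * d) {t : ℕ} (ht0 : t ≠ 0) (htp : t < p) :
    addOrderOf ((t : ZMod m) * (d : ZMod m)) = p := by
  have := addOrderOf_nsmul' (d : ZMod m) ht0
  rw [nsmul_eq_mul, ord_d hm] at this
  rw [this]
  have hc : p.Coprime t := (Nat.Prime.coprime_iff_not_dvd hp.out).2
    (fun h => by
      have := Nat.le_of_dvd (Nat.pos_of_ne_zero ht0) h
      omega)
  rw [hc, Nat.div_one]

lemma ord_add_td (hm : m = p * d) {x : ZMod m} (hx : ¬ p ∣ addOrderOf x) {t : ℕ} (ht0 : t ≠ 0)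
    (htp : t < p) : addOrderOf (x + (t : ZMod m) * (d : ZMod m)) = p * addOrderOf x := by
  have hc : (addOrderOf x).Coprime (addOrderOf ((t : ZMod m) * (d : ZMod m))) := by
    rw [ord_td hm ht0 htp]
    exact ((Nat.Prime.coprime_iff_not_dvd hp.out).2 hx).symm
  have := (AddCommute.all x ((t : ZMod m) * (d : ZMod m))).addOrderOf_add_eq_mul_addOrderOf_of_coprime hc
  rw [this, ord_td hm ht0 htp, mul_comm]

lemma ord_add_d (hm : m = p * d) {x : ZMod m} (hx : ¬ p ∣ addOrderOf x) :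
    addOrderOf (x + (d : ZMod m)) = p * addOrderOf x := by
  have := ord_add_td hm hx (t := 1) one_ne_zero hp.out.one_lt
  simpa using this

lemma d_ne_zero (hm : m = p * d) : (d : ZMod m) ≠ 0 := by
  intro h
  have := ord_d hm
  rw [h, addOrderOf_zero] at this
  exact hp.out.one_lt.ne this

lemma p_mul_add_d (hm : m = p * d) (x : ZMod m) :
    (p : ZMod m) * (x + (d : ZMod m)) = (p : ZMod m) * x := by
  rw [mul_add, p_mul_d hm, add_zero]

end PD

end Cfsg.Agent.H08.Dih
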