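import Mathlib
import Cfsg.Agent.Lib.H08.Dih3

set_option autoImplicit false

namespace Cfsg.Agent.H08.Dih

open DihedralGroup Finset

variable {m : ℕ} [NeZero m] {P : PG m}

/-- rationality on rotations -/
def Rt (E : Set (DihedralGroup m)) : Prop :=
  ∀ i j : ZMod m, addOrderOf i = addOrderOf j → (r i ∈ E ↔ r j ∈ E)

omit [NeZero m] in
lemma Rt.compl {E : Set (DihedralGroup m)} (h : Rt E) : Rt Eᶜ := fun i j hij =>
  not_congr (h i j hij)
omit [NeZero m] in
lemma Rt.union {E F : Set (DihedralGroup m)} (h : Rt E) (h' : Rt F) : Rt (E ∪ F) := fun i j hij =>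
  or_congr (h i j hij) (h' i j hij)
omit [NeZero m] in
lemma Rt.inter {E F : Set (DihedralGroup m)} (h : Rt E) (h' : Rt F) : Rt (E ∩ F) := fun i j hij =>
  and_congr (h i j hij) (h' i j hij)

omit [NeZero m] in
lemma r_eq_one_iff (i : ZMod m) : (r i : DihedralGroup m) = 1 ↔ i = 0 := by
  constructor
  · intro h
    exact r.inj (show r i = r 0 from h)
  · rintro rfl; rfl

omit [NeZero m] in
lemma sr_ne_one (i : ZMod m) : (sr i : DihedralGroup m) ≠ 1 := by
  intro h
  have h' : sr i = r 0 := h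
  cases h'

omit [NeZero m] in
lemma Rt_one : Rt ({1} : Set (DihedralGroup m)) := by
  intro i j hij
  simp only [Set.mem_singleton_iff, r_eq_one_iff]
  rw [← AddMonoid.addOrderOf_eq_one_iff, ← AddMonoid.addOrderOf_eq_one_iff, hij]

section Mat
variable (R : Type*) [CommRing R]

noncomputable def al (E : Set (DihedralGroup m)) (i : ZMod m) : R := chi R E (r i)
noncomputable def be (E : Set (DihedralGroup m)) (i : ZMod m) : R := chi R E (sr i)

lemma chi_eq_mk (E : Set (DihedralGroup m)) : chi R E = mk (al R E) (be R E) := (mk_eta _).symm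

noncomputable def gam (E : Set (DihedralGroup m)) (k : ZMod m) : R :=
  ∑ i, al R E i * al R E (k - i) + ∑ i, be R E i * be R E (i + k)
noncomputable def del (E : Set (DihedralGroup m)) (k : ZMod m) : R :=
  ∑ i, al R E i * be R E (k + i) + ∑ i, be R E i * al R E (k - i)

lemma XX_sq (E : Set (DihedralGroup m)) :
    ofF (chi R E) * ofF (chi R E) = ofF (mk (gam R E) (del R E)) := by
  rw [chi_eq_mk, ofF_mk_mul]
  rfl

variable {R}

lemma mk_symm {a b : ZMod m → R} (h : IsI P (ofF (mk a b))) (i : ZMod m) : a (-i) = a i := by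
  have := h.symm1 (r i)
  simpa using this

lemma al_symm {E : Set (DihedralGroup m)} (hE : SS P E) (i : ZMod m) :
    al R E (-i) = al R E i := by
  have h := chi_isI (R := R) hE
  rw [chi_eq_mk] at h
  exact mk_symm h i

lemma XX_sq_isI {E : Set (DihedralGroup m)} (hE : SS P E) : IsI P (ofF (mk (gam R E) (del R E))) := by
  rw [← XX_sq]
  exact (chi_isI hE).mul (chi_isI hE)

lemma frobC_rat {ℓ : ℕ} (hu : IsUnit (ℓ : ZMod m)) (a : ZMod m → R)
    (ha : ∀ i j, addOrderOf i = addOrderOf j → a i = a j) (k : ZMod m) : frobC ℓ a k = a k := by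
  obtain ⟨u, hu'⟩ := hu
  set y : ZMod m := ((u⁻¹ : (ZMod m)ˣ) : ZMod m) * k with hy
  have hy' : (ℓ : ZMod m) * y = k := by
    rw [← hu', hy]; simp
  have hu2 : IsUnit (ℓ : ZMod m) := by rw [← hu']; exact u.isUnit
  calc frobC ℓ a k = frobC ℓ a ((ℓ : ZMod m) * y) := by rw [hy']
    _ = a y := frobC_unit ℓ hu2 a y
    _ = a k := ha _ _ (by rw [← hy', ord_unit_mul hu2])

lemma al_rat {E : Set (DihedralGroup m)} (h : Rt E) (i j : ZMod m)
    (hij : addOrderOf i = addOrderOf j) : al R E i = al R E j := by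
  classical
  simp only [al, chi]
  by_cases hi : r i ∈ E
  · rw [if_pos hi, if_pos ((h i j hij).1 hi)]
  · rw [if_neg hi, if_neg (fun h' => hi ((h i j hij).2 h'))]

end Mat

lemma frob_self [Fact (1 < m)] {E : Set (DihedralGroup m)} (hE : SS P E) (hRt : Rt E) {ℓ : ℕ}
    [Fact ℓ.Prime] (hℓm : ℓ > m) (hℓ2 : ℓ ≠ 2) :
    (ofF (chi (ZMod ℓ) E)) ^ ℓ = ofF (chi (ZMod ℓ) E) := by
  have hI := chi_isI (R := ZMod ℓ) hE
  have hD : IsI P ((ofF (chi (ZMod ℓ) E)) ^ ℓ - ofF (chi (ZMod ℓ) E)) := (hI.pow ℓ).sub hI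
  have := hD.eq_zero_of_rot (by
    intro k
    rw [Matrix.sub_apply, sub_eq_zero, chi_eq_mk, frob_rot ℓ _ _ (al_symm hE) hℓ2,
      frobC_rat (isUnit_of_big Fact.out hℓm) _ (al_rat hRt)]
    simp)
  exact sub_eq_zero.1 this

lemma chi_cast {S : Type*} [CommRing S] (E : Set (DihedralGroup m)) (x : DihedralGroup m) :
    ((chi ℤ E x : ℤ) : S) = chi S E x := by
  classical
  simp only [chi]
  split_ifs <;> simp

lemma gam_cast {S : Type*} [CommRing S] (E : Set (DihedralGroup m)) (k : ZMod m) :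
    ((gam ℤ E k : ℤ) : S) = gam S E k := by
  simp only [gam, al, be]
  push_cast
  simp only [chi_cast]

lemma chi_cases (E : Set (DihedralGroup m)) (x : DihedralGroup m) :
    chi ℤ E x = 0 ∨ chi ℤ E x = 1 := by
  classical
  simp only [chi]
  split_ifs <;> simp

lemma sum_01 (f : ZMod m → ℤ) (h : ∀ i, 0 ≤ f i ∧ f i ≤ 1) :
    0 ≤ ∑ i, f i ∧ ∑ i, f i ≤ m := by
  refine ⟨Finset.sum_nonneg fun i _ => (h i).1, ?_⟩
  have := Finset.sum_le_card_nsmul Finset.univ f 1 (fun i _ => (h i).2)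
  simpa [ZMod.card] using this

lemma prod01 (E : Set (DihedralGroup m)) (x y : DihedralGroup m) :
    0 ≤ chi ℤ E x * chi ℤ E y ∧ chi ℤ E x * chi ℤ E y ≤ 1 := by
  rcases chi_cases E x with h | h <;> rcases chi_cases E y with h' | h' <;> simp [h, h']

lemma gam_bds (E : Set (DihedralGroup m)) (k : ZMod m) :
    0 ≤ gam ℤ E k ∧ gam ℤ E k ≤ 2 * m := by
  have h1 := sum_01 (fun i => al ℤ E i * al ℤ E (k - i)) (fun i => prod01 E _ _)
  have h2 := sum_01 (fun i => be ℤ E i * be ℤ E (i + k)) (fun i => prod01 E _ _)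
  simp only [gam]
  constructor <;> linarith [h1.1, h1.2, h2.1, h2.2]

lemma gam_rat [Fact (1 < m)] {E : Set (DihedralGroup m)} (hE : SS P E) (hRt : Rt E) {i j : ZMod m}
    (h : addOrderOf i = addOrderOf j) : gam ℤ E i = gam ℤ E j := by
  obtain ⟨ℓ, hℓN, hℓp, hℓj⟩ := dir_prime h.symm (4 * m + 2)
  haveI : Fact ℓ.Prime := ⟨hℓp⟩
  have hu := isUnit_of_big (m := m) hℓp (by omega)
  have hX := frob_self hE hRt (ℓ := ℓ) (by omega) (by omega)
  have hZ : (ofF (chi (ZMod ℓ) E) * ofF (chi (ZMod ℓ) E)) ^ ℓ =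
      ofF (chi (ZMod ℓ) E) * ofF (chi (ZMod ℓ) E) := by
    rw [← pow_two, ← pow_mul, mul_comm, pow_mul, hX]
  rw [XX_sq] at hZ
  have hI : IsI P (ofF (mk (gam (ZMod ℓ) E) (del (ZMod ℓ) E))) := XX_sq_isI hE
  have key : ∀ k, frobC ℓ (gam (ZMod ℓ) E) k = gam (ZMod ℓ) E k := by
    intro k
    have := frob_rot ℓ (gam (ZMod ℓ) E) (del (ZMod ℓ) E) (mk_symm hI) (by omega) k
    rw [hZ] at this
    simpa using this.symm
  have hji : gam (ZMod ℓ) E j = gam (ZMod ℓ) E i := by
    have h1 := key i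
    rw [← hℓj, frobC_unit ℓ hu] at h1
    rw [hℓj] at h1
    exact h1
  rw [← gam_cast (S := ZMod ℓ) E j, ← gam_cast (S := ZMod ℓ) E i] at hji
  have hdvd := (ZMod.intCast_eq_intCast_iff_dvd_sub _ _ _).1 hji
  have b1 := gam_bds E i
  have b2 := gam_bds E j
  have habs : |gam ℤ E i - gam ℤ E j| < (ℓ : ℤ) := by
    rw [abs_lt]
    have : (ℓ : ℤ) > 4 * m + 2 := by exact_mod_cast hℓN
    constructor <;> linarith [b1.1, b1.2, b2.1, b2.2]
  have := Int.eq_zero_of_abs_lt_dvd hdvd habs
  linarith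

lemma fiber_const {p : ℕ} [hp : Fact p.Prime] (G : ℕ → Prop) [DecidablePred G]
    (h : ∑ t ∈ Finset.range p, (if G t then (1 : ZMod p) else 0) = 0) :
    (∀ t < p, G t) ∨ (∀ t < p, ¬ G t) := by
  rw [Finset.sum_boole] at h
  have h1 := (ZMod.natCast_eq_zero_iff _ _).1 h
  have h2 : ((Finset.range p).filter G).card ≤ p := by
    simpa using Finset.card_filter_le (Finset.range p) G
  rcases Nat.eq_zero_or_pos ((Finset.range p).filter G).card with h0 | h0
  · right
    intro t ht hG
    have : t ∈ (Finset.range p).filter G := Finset.mem_filter.2 ⟨Finset.mem_range.2 ht, hG⟩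
    rw [Finset.card_eq_zero] at h0
    rw [h0] at this
    simp at this
  · left
    have h3 := Nat.le_of_dvd h0 h1
    have h4 : ((Finset.range p).filter G).card = (Finset.range p).card := by
      rw [Finset.card_range]; omega
    intro t ht
    exact (Finset.card_filter_eq_iff.1 h4) t (Finset.mem_range.2 ht)

section Star
variable {p d : ℕ} [hp : Fact p.Prime]

/-- `Star'` -/
lemma star' [Fact (1 < m)] (hm : m = p * d) {Y : Set (DihedralGroup m)} (hY : SS P Y) (hRt : Rt Y)
    (h1 : (1 : DihedralGroup m) ∉ Y) (hne : Y.Nonempty)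
    (hs : ∀ i : ZMod m, sr i ∈ Y ↔ sr (i + (d : ZMod m)) ∈ Y) :
    ∀ x : DihedralGroup m, x ≠ 1 → x ∈ Y := by
  classical
  have hper : ∀ i : ZMod m, be (ZMod p) Y (i + (d : ZMod m)) = be (ZMod p) Y i := by
    intro i
    simp only [be, chi]
    by_cases h : sr i ∈ Y
    · rw [if_pos h, if_pos ((hs i).1 h)]
    · rw [if_neg h, if_neg (fun h' => h ((hs i).2 h'))]
  have hsq : Sa (be (ZMod p) Y) * Sa (be (ZMod p) Y) = 0 := by
    rw [Sa_mul_Sa]
    have : (fun k => ∑ i, be (ZMod p) Y i * be (ZMod p) Y (i + k)) = (0 : ZMod m → ZMod p) := by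
      funext k
      refine per_sum hm _ (fun i => ?_)
      rw [hper i]
      have e : i + (d : ZMod m) + k = i + k + (d : ZMod m) := by ring
      rw [e, hper]
    rw [this]
    ext x y
    simp only [Ca, ofF_apply, Matrix.zero_apply]
    generalize x⁻¹ * y = z
    cases z <;> simp
  have hXp := frob_sq0 p (al (ZMod p) Y) (be (ZMod p) Y) (al_symm hY) hsq
  have hI : IsI P ((ofF (mk (al (ZMod p) Y) (be (ZMod p) Y))) ^ p) := by
    rw [← chi_eq_mk]
    exact (chi_isI hY).pow p
  have hzero : ∀ i : ZMod m, i ≠ 0 → frobC p (al (ZMod p) Y) i = 0 := by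
    intro i hi
    have := hI.rot_zero_of_refl (by
      intro j
      rw [hXp]
      simp [Ca]) hi
    rw [hXp] at this
    simpa [Ca] using this
  have hαper : ∀ x : ZMod m, (p : ZMod m) * x ≠ 0 → (r x ∈ Y ↔ r (x + (d : ZMod m)) ∈ Y) := by
    intro x hx
    have h2 := hzero _ hx
    simp only [frobC] at h2
    rw [fiber_sum hm] at h2
    have h3 : ∑ t ∈ Finset.range p,
        (if r (x + (t : ZMod m) * (d : ZMod m)) ∈ Y then (1 : ZMod p) else 0) = 0 := by
      simpa only [al, chi] using h2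
    have hp1 := hp.out.one_lt
    have hp0 := hp.out.pos
    rcases fiber_const (fun t => r (x + (t : ZMod m) * (d : ZMod m)) ∈ Y) h3 with h4 | h4
    · have a0 := h4 0 hp0
      have a1 := h4 1 hp1
      simp only [Nat.cast_zero, zero_mul, add_zero, Nat.cast_one, one_mul] at a0 a1
      exact ⟨fun _ => a1, fun _ => a0⟩
    · have a0 := h4 0 hp0
      have a1 := h4 1 hp1
      simp only [Nat.cast_zero, zero_mul, add_zero, Nat.cast_one, one_mul] at a0 a1
      exact ⟨fun h => absurd h a0, fun h => absurd h a1⟩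
  have hd0 : (d : ZMod m) ≠ 0 := d_ne_zero hm
  -- the set `W`
  set W : Set (DihedralGroup m) := if r (d : ZMod m) ∈ Y then Y ∪ {1} else Y with hW
  have hWS : SS P W := by
    rw [hW]
    split_ifs
    · exact hY.union SS_one
    · exact hY
  have hWY : ∀ x : DihedralGroup m, x ≠ 1 → (x ∈ W ↔ x ∈ Y) := by
    intro x hx
    rw [hW]
    split_ifs
    · simp [hx]
    · rfl
  have hWP : ∀ j : ZMod m, (p : ZMod m) * j = 0 → (r j ∈ W ↔ r (d : ZMod m) ∈ Y) := by
    intro j hj
    by_cases hj0 : j = 0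
    · subst hj0
      rw [hW]
      split_ifs with h
      · simp only [h, iff_true]
        right; rfl
      · simp only [h, iff_false]
        exact h1
    · rw [hWY _ (fun h => hj0 ((r_eq_one_iff j).1 h))]
      obtain ⟨t, ht, htj⟩ := (mul_p_eq_iff hm 0 j).1 (by rw [hj, mul_zero])
      rw [zero_add] at htj
      have ht0 : t ≠ 0 := by
        rintro rfl
        apply hj0
        rw [htj]
        simp
      apply hRt
      rw [htj, ord_td hm ht0 ht, ord_d hm]
  have hWinv : ∀ y : DihedralGroup m, y ∈ W ↔ r (d : ZMod m) * y ∈ W := by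
    intro y
    cases y with
    | r i =>
      rw [r_mul_r]
      have e : (d : ZMod m) + i = i + d := add_comm _ _
      rw [e]
      have hpp : (p : ZMod m) * (i + d) = (p : ZMod m) * i := p_mul_add_d hm i
      by_cases hi : (p : ZMod m) * i = 0
      · rw [hWP i hi, hWP (i + d) (by rw [hpp, hi])]
      · have n1 : (r i : DihedralGroup m) ≠ 1 := by
          intro h
          apply hi
          rw [(r_eq_one_iff i).1 h, mul_zero]
        have n2 : (r (i + d) : DihedralGroup m) ≠ 1 := by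
          intro h
          apply hi
          rw [← hpp, (r_eq_one_iff _).1 h, mul_zero]
        rw [hWY _ n1, hWY _ n2]
        exact hαper i hi
    | sr i =>
      rw [r_mul_sr, hWY _ (sr_ne_one _), hWY _ (sr_ne_one _)]
      have := hs (i - d)
      rw [sub_add_cancel] at this
      exact this.symm
  have hz : (r (d : ZMod m) : DihedralGroup m) ≠ 1 := fun h => hd0 ((r_eq_one_iff _).1 h)
  rcases hWS.of_left_inv hz hWinv with h0 | h0
  · exfalso
    obtain ⟨y, hy⟩ := hne
    have : y ∈ W := by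
      by_cases hy1 : y = 1
      · subst hy1; exact absurd hy h1
      · exact (hWY y hy1).2 hy
    rw [h0] at this
    exact this
  · intro x hx
    apply (hWY x hx).1
    rw [h0]
    trivial

/-- `Star` -/
lemma star [Fact (1 < m)] (hm : m = p * d) {Z : Matrix (DihedralGroup m) (DihedralGroup m) ℤ}
    (hZ : IsI P Z) (hrat : ∀ i j : ZMod m, addOrderOf i = addOrderOf j → Z 1 (r i) = Z 1 (r j))
    (hs : ∀ i : ZMod m, Z 1 (sr (i + (d : ZMod m))) = Z 1 (sr i)) :
    ∀ x : DihedralGroup m, x ≠ 1 → Z 1 x = Z 1 (r (d : ZMod m)) := by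
  have hd0 : (d : ZMod m) ≠ 0 := d_ne_zero hm
  have hz : (r (d : ZMod m) : DihedralGroup m) ≠ 1 := fun h => hd0 ((r_eq_one_iff _).1 h)
  have := star' (P := P) hm (Y := {z | Z 1 z = Z 1 (r (d : ZMod m))} \ {1})
    ((hZ.ss_level _).diff SS_one)
    (by
      intro i j hij
      constructor
      · rintro ⟨h1, h2⟩
        refine ⟨by
          show Z 1 (r j) = _
          rw [← hrat i j hij]; exact h1, ?_⟩
        exact fun h => h2 ((Rt_one i j hij).2 h)
      · rintro ⟨h1, h2⟩
        refine ⟨by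
          show Z 1 (r i) = _
          rw [hrat i j hij]; exact h1, ?_⟩
        exact fun h => h2 ((Rt_one i j hij).1 h))
    (by simp)
    ⟨r (d : ZMod m), rfl, hz⟩
    (by
      intro i
      constructor
      · rintro ⟨h1, h2⟩
        refine ⟨?_, sr_ne_one _⟩
        show Z 1 (sr _) = _
        rw [hs]; exact h1
      · rintro ⟨h1, h2⟩
        refine ⟨?_, sr_ne_one _⟩
        show Z 1 (sr _) = _
        rw [← hs]; exact h1)
  intro x hx
  exact (this x hx).1

end Star

end Cfsg.Agent.H08.Dih
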