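import Mathlib
import Cfsg.Agent.Lib.H08.Dih4

set_option autoImplicit false

namespace Cfsg.Agent.H08.Dih

open DihedralGroup Finset

variable {m : ℕ} [NeZero m] {P : PG m}

noncomputable def Az (E : Set (DihedralGroup m)) : ℤ := ∑ i, al ℤ E i
noncomputable def Bz (E : Set (DihedralGroup m)) : ℤ := ∑ i, be ℤ E i

lemma al_mem {R : Type*} [CommRing R] {E : Set (DihedralGroup m)} {i : ZMod m} (h : r i ∈ E) :
    al R E i = 1 := chi_mem h
lemma al_not {R : Type*} [CommRing R] {E : Set (DihedralGroup m)} {i : ZMod m} (h : r i ∉ E) :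
    al R E i = 0 := chi_not h
lemma be_mem {R : Type*} [CommRing R] {E : Set (DihedralGroup m)} {i : ZMod m} (h : sr i ∈ E) :
    be R E i = 1 := chi_mem h
lemma be_not {R : Type*} [CommRing R] {E : Set (DihedralGroup m)} {i : ZMod m} (h : sr i ∉ E) :
    be R E i = 0 := chi_not h

lemma al_per {R : Type*} [CommRing R] {E : Set (DihedralGroup m)} {d : ZMod m}
    (h : ∀ i, r i ∈ E ↔ r (i + d) ∈ E) (i : ZMod m) : al R E (i + d) = al R E i := by
  by_cases hi : r i ∈ E
  · rw [al_mem hi, al_mem ((h i).1 hi)]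
  · rw [al_not hi, al_not (fun h' => hi ((h i).2 h'))]

lemma al_sq (E : Set (DihedralGroup m)) (i : ZMod m) : al ℤ E i * al ℤ E i = al ℤ E i := by
  rcases chi_cases E (r i) with h | h <;> simp [al, h]

lemma be_sq (E : Set (DihedralGroup m)) (i : ZMod m) : be ℤ E i * be ℤ E i = be ℤ E i := by
  rcases chi_cases E (sr i) with h | h <;> simp [be, h]

lemma be_cases (E : Set (DihedralGroup m)) (i : ZMod m) : be ℤ E i = 0 ∨ be ℤ E i = 1 :=
  chi_cases E (sr i)

lemma al_cases (E : Set (DihedralGroup m)) (i : ZMod m) : al ℤ E i = 0 ∨ al ℤ E i = 1 :=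
  chi_cases E (r i)

lemma sum_shift {S : Type*} [AddCommMonoid S] (f : ZMod m → S) (c : ZMod m) :
    ∑ i, f (i + c) = ∑ i, f i := Equiv.sum_comp (Equiv.addRight c) f

section Core
variable {p d : ℕ} [hp : Fact p.Prime]

lemma del_per {X : Set (DihedralGroup m)} {c : ZMod m} (hα : ∀ i, r i ∈ X ↔ r (i + c) ∈ X)
    (k : ZMod m) : del ℤ X (k + c) = del ℤ X k := by
  simp only [del]
  congr 1
  · rw [← sum_shift (fun i => al ℤ X i * be ℤ X (k + i)) c]
    refine Finset.sum_congr rfl fun i _ => ?_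
    rw [al_per hα i]
    congr 2
    ring
  · refine Finset.sum_congr rfl fun i _ => ?_
    have e : k + c - i = (k - i) + c := by ring
    rw [e, al_per hα]

lemma gam_td (hm : m = p * d) {X : Set (DihedralGroup m)} (hX : SS P X)
    (hα : ∀ i, r i ∈ X ↔ r (i + (d : ZMod m)) ∈ X) (t : ℕ) :
    gam ℤ X ((t : ZMod m) * (d : ZMod m)) =
      Az X + ∑ i, be ℤ X i * be ℤ X (i + (t : ZMod m) * (d : ZMod m)) := by
  simp only [gam, Az]
  congr 1
  refine Finset.sum_congr rfl fun i _ => ?_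
  have e : (t : ZMod m) * (d : ZMod m) - i = -i + (t : ZMod m) * (d : ZMod m) := by ring
  rw [e, per_add (al ℤ X) (al_per hα), al_symm hX, al_sq]

lemma del_sum (X : Set (DihedralGroup m)) : ∑ k, del ℤ X k = 2 * Az X * Bz X := by
  simp only [del, Finset.sum_add_distrib]
  have h1 : ∑ k, ∑ i, al ℤ X i * be ℤ X (k + i) = Az X * Bz X := by
    rw [Finset.sum_comm, Az, Finset.sum_mul]
    refine Finset.sum_congr rfl fun i _ => ?_
    rw [← Finset.mul_sum, sum_shift (be ℤ X) i, Bz]
  have h2 : ∑ k, ∑ i, be ℤ X i * al ℤ X (k - i) = Az X * Bz X := by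
    rw [Finset.sum_comm, Bz, mul_comm, Finset.sum_mul]
    refine Finset.sum_congr rfl fun i _ => ?_
    rw [← Finset.mul_sum, Az]
    congr 1
    have := Equiv.sum_comp (Equiv.subRight i) (al ℤ X)
    simpa using this
  rw [h1, h2]
  ring

lemma half [Fact (1 < m)] (hm : m = p * d) {X : Set (DihedralGroup m)} (hX : SS P X) (hRt : Rt X)
    (hα : ∀ i, r i ∈ X ↔ r (i + (d : ZMod m)) ∈ X) (hne : X.Nonempty) :
    0 < Az X ∧ (m : ℤ) * gam ℤ X (d : ZMod m) = 2 * Az X * Bz X ∧
      (∀ x : DihedralGroup m, x ≠ 1 → ofF (mk (gam ℤ X) (del ℤ X)) 1 x = gam ℤ X (d : ZMod m)) ∧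
      (m : ℤ) ≤ 2 * Bz X := by
  have hA : 0 < Az X := by
    obtain ⟨i, hi⟩ := hX.exists_rot hne
    have h1 := Finset.single_le_sum (f := al ℤ X) (s := Finset.univ)
      (fun j _ => by rcases al_cases X j with h | h <;> simp [h]) (Finset.mem_univ i)
    rw [al_mem hi] at h1
    show 0 < ∑ i, al ℤ X i
    linarith
  have hS := star (P := P) hm (Z := ofF (mk (gam ℤ X) (del ℤ X))) (XX_sq_isI hX)
    (by
      intro i j hij
      simpa using gam_rat hX hRt hij)
    (by
      intro i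
      simpa using del_per hα i)
  have hS' : ∀ x : DihedralGroup m, x ≠ 1 →
      ofF (mk (gam ℤ X) (del ℤ X)) 1 x = gam ℤ X (d : ZMod m) := by
    intro x hx
    rw [hS x hx]
    simp
  have hdel : ∀ k, del ℤ X k = gam ℤ X (d : ZMod m) := by
    intro k
    have := hS' (sr k) (sr_ne_one k)
    simpa using this
  have hm' : (m : ℤ) * gam ℤ X (d : ZMod m) = 2 * Az X * Bz X := by
    rw [← del_sum]
    simp only [hdel, Finset.sum_const, Finset.card_univ, ZMod.card, nsmul_eq_mul]
  have hga : Az X ≤ gam ℤ X (d : ZMod m) := by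
    have := gam_td hm hX hα 1
    simp only [Nat.cast_one, one_mul] at this
    rw [this]
    have h0 : 0 ≤ ∑ i, be ℤ X i * be ℤ X (i + (d : ZMod m)) :=
      Finset.sum_nonneg fun i _ => (prod01 X _ _).1
    linarith
  refine ⟨hA, hm', hS', ?_⟩
  have hm0 : (0 : ℤ) ≤ m := by positivity
  have h2 : Az X * (m : ℤ) ≤ Az X * (2 * Bz X) := by
    have : (m : ℤ) * Az X ≤ (m : ℤ) * gam ℤ X (d : ZMod m) := mul_le_mul_of_nonneg_left hga hm0
    nlinarith
  exact le_of_mul_le_mul_left h2 hA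

lemma Bz_compl (X : Set (DihedralGroup m)) : Bz Xᶜ = m - Bz X := by
  classical
  have h : ∀ i, be ℤ Xᶜ i = 1 - be ℤ X i := by
    intro i
    by_cases hi : sr i ∈ X
    · have h1 : sr i ∉ Xᶜ := fun h => h hi
      rw [be_mem hi, be_not h1]; simp
    · have h1 : sr i ∈ Xᶜ := hi
      rw [be_not hi, be_mem h1]; simp
  simp only [Bz, h, Finset.sum_sub_distrib]
  simp [ZMod.card]

lemma core [Fact (1 < m)] (hm : m = p * d) {X : Set (DihedralGroup m)} (hX : SS P X) (hRt : Rt X)
    (hα : ∀ i, r i ∈ X ↔ r (i + (d : ZMod m)) ∈ X) (hne : X.Nonempty) (hne' : Xᶜ.Nonempty) :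
    2 * Bz X = m ∧ (∀ x : DihedralGroup m, x ≠ 1 → ofF (mk (gam ℤ X) (del ℤ X)) 1 x = Az X) ∧
      gam ℤ X 0 = Az X + Bz X ∧
      ∀ (t : ℕ) (i : ZMod m), (t : ZMod m) * (d : ZMod m) ≠ 0 →
        be ℤ X i * be ℤ X (i + (t : ZMod m) * (d : ZMod m)) = 0 := by
  obtain ⟨hA, h1, h2, h3⟩ := half hm hX hRt hα hne
  obtain ⟨_, _, _, h3'⟩ := half hm hX.compl hRt.compl (fun i => not_congr (hα i)) hne'
  rw [Bz_compl] at h3'
  have hB : 2 * Bz X = m := by linarith
  have hm0 : (m : ℤ) ≠ 0 := by exact_mod_cast NeZero.ne m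
  have hv : gam ℤ X (d : ZMod m) = Az X := by
    apply mul_left_cancel₀ hm0
    rw [h1, ← hB]
    ring
  have hS : ∀ x : DihedralGroup m, x ≠ 1 → ofF (mk (gam ℤ X) (del ℤ X)) 1 x = Az X := by
    intro x hx
    rw [h2 x hx, hv]
  refine ⟨hB, hS, ?_, ?_⟩
  · simp only [gam, zero_sub, add_zero]
    congr 1
    · refine Finset.sum_congr rfl fun i _ => ?_
      rw [al_symm hX, al_sq]
    · refine Finset.sum_congr rfl fun i _ => ?_
      rw [be_sq]
  · intro t i ht
    have hr : (r ((t : ZMod m) * (d : ZMod m)) : DihedralGroup m) ≠ 1 :=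
      fun h => ht ((r_eq_one_iff _).1 h)
    have h4 := hS _ hr
    simp only [ofF_apply, inv_one, one_mul, mk_r] at h4
    rw [gam_td hm hX hα t] at h4
    have h5 : ∑ i, be ℤ X i * be ℤ X (i + (t : ZMod m) * (d : ZMod m)) = 0 := by linarith
    exact (Finset.sum_eq_zero_iff_of_nonneg (fun j _ => (prod01 X _ _).1)).1 h5 i (Finset.mem_univ _)

/-- `†_p` -/
lemma dagger [Fact (1 < m)] (hm : m = p * d) (hp2 : p ≠ 2) {X : Set (DihedralGroup m)} (hX : SS P X)
    (hRt : Rt X) (hα : ∀ i, r i ∈ X ↔ r (i + (d : ZMod m)) ∈ X) : X = ∅ ∨ X = Set.univ := by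
  by_contra hcon
  push Not at hcon
  have hne : X.Nonempty := hcon.1
  have hne' : Xᶜ.Nonempty := by
    by_contra h
    rw [Set.not_nonempty_iff_eq_empty, Set.compl_empty_iff] at h
    exact hcon.2 h
  obtain ⟨hB, -, -, h4⟩ := core hm hX hRt hα hne hne'
  have hp1 := hp.out.one_lt
  have hp3 : 2 < p := by
    have := hp.out.two_le
    omega
  have hne1 : ((1 : ℕ) : ZMod m) * (d : ZMod m) ≠ 0 := by
    intro h
    have := ord_td (p := p) hm (t := 1) one_ne_zero hp1
    rw [h, addOrderOf_zero] at this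
    omega
  have hne2 : ((2 : ℕ) : ZMod m) * (d : ZMod m) ≠ 0 := by
    intro h
    have := ord_td (p := p) hm (t := 2) two_ne_zero hp3
    rw [h, addOrderOf_zero] at this
    omega
  have b1 : ∀ i, be ℤ X i * be ℤ X (i + (d : ZMod m)) = 0 := by
    intro i
    have := h4 1 i hne1
    simpa using this
  have b2 : ∀ i, be ℤ X i * be ℤ X (i + (d : ZMod m) + (d : ZMod m)) = 0 := by
    intro i
    have := h4 2 i hne2
    have e : i + ((2 : ℕ) : ZMod m) * (d : ZMod m) = i + (d : ZMod m) + (d : ZMod m) := by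
      push_cast; ring
    rwa [e] at this
  have hle : ∀ i, be ℤ X i + be ℤ X (i + (d : ZMod m)) + be ℤ X (i + (d : ZMod m) + (d : ZMod m)) ≤ 1 := by
    intro i
    have e1 := b1 i
    have e2 := b2 i
    have e3 := b1 (i + (d : ZMod m))
    rcases be_cases X i with h | h <;> rcases be_cases X (i + (d : ZMod m)) with h' | h' <;>
      rcases be_cases X (i + (d : ZMod m) + (d : ZMod m)) with h'' | h'' <;>
      simp_all
  have hsum := Finset.sum_le_card_nsmul Finset.univ
    (fun i => be ℤ X i + be ℤ X (i + (d : ZMod m)) + be ℤ X (i + (d : ZMod m) + (d : ZMod m))) 1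
    (fun i _ => hle i)
  simp only [Finset.sum_add_distrib] at hsum
  rw [sum_shift (be ℤ X) (d : ZMod m),
    sum_shift (fun i => be ℤ X (i + (d : ZMod m))) (d : ZMod m),
    sum_shift (be ℤ X) (d : ZMod m)] at hsum
  simp only [Finset.card_univ, ZMod.card, nsmul_eq_mul, mul_one] at hsum
  have hB' : (∑ i, be ℤ X i) = Bz X := rfl
  rw [hB'] at hsum
  have hmpos : (0 : ℤ) < m := by exact_mod_cast Nat.pos_of_ne_zero (NeZero.ne m)
  linarith

/-! ### DG -/

section DG
variable {α : ZMod m → ZMod p}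

lemma theta_dvd (hm : m = p * d) (hα : ∀ i j : ZMod m, addOrderOf i = addOrderOf j → α i = α j)
    {j : ZMod m} (hj : p ∣ addOrderOf j) : frobC p α j = 0 := by
  classical
  simp only [frobC]
  by_cases h : ∃ x₀, (p : ZMod m) * x₀ = j
  · obtain ⟨x₀, rfl⟩ := h
    rw [fiber_sum hm]
    have hord : ∀ x : ZMod m, (p : ZMod m) * x = (p : ZMod m) * x₀ →
        addOrderOf x = p * addOrderOf ((p : ZMod m) * x₀) := by
      intro x hx
      rw [← hx]
      apply ord_of_dvd
      by_contra hn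
      rw [← hx, ord_of_not_dvd hn] at hj
      exact hn hj
    have hconst : ∀ t ∈ Finset.range p, α (x₀ + (t : ZMod m) * (d : ZMod m)) = α x₀ := by
      intro t ht
      apply hα
      rw [hord x₀ rfl, hord _ ((mul_p_eq_iff hm x₀ _).2 ⟨t, Finset.mem_range.1 ht, rfl⟩).symm]
    rw [Finset.sum_congr rfl hconst]
    simp
  · push Not at h
    refine Finset.sum_eq_zero fun i _ => ?_
    rw [if_neg (h i)]

lemma theta_free (hm : m = p * d) (hα : ∀ i j : ZMod m, addOrderOf i = addOrderOf j → α i = α j)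
    {i : ZMod m} (hi : ¬ p ∣ addOrderOf i) : frobC p α i = α i - α (i + (d : ZMod m)) := by
  classical
  obtain ⟨x₀, hx₀, hord⟩ := exists_root (p := p) hi
  simp only [frobC]
  rw [← hx₀, fiber_sum hm, hx₀]
  have hx₀' : ¬ p ∣ addOrderOf x₀ := by rwa [hord]
  obtain ⟨q, hq⟩ : ∃ q, p = q + 1 := ⟨p - 1, by have := hp.out.pos; omega⟩
  have hconst : ∀ t ∈ Finset.range q, α (x₀ + ((t + 1 : ℕ) : ZMod m) * (d : ZMod m)) =
      α (i + (d : ZMod m)) := by
    intro t ht
    apply hα
    have htq := Finset.mem_range.1 ht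
    rw [ord_add_td hm hx₀' (Nat.succ_ne_zero t) (by omega), ord_add_d hm hi, hord]
  have hsplit : ∑ t ∈ Finset.range p, α (x₀ + (t : ZMod m) * (d : ZMod m)) =
      ∑ t ∈ Finset.range q, α (x₀ + ((t + 1 : ℕ) : ZMod m) * (d : ZMod m)) +
        α (x₀ + ((0 : ℕ) : ZMod m) * (d : ZMod m)) := by
    have aux : ∀ (F : ℕ → ZMod p) (n : ℕ), n = q + 1 →
        ∑ t ∈ Finset.range n, F t = ∑ t ∈ Finset.range q, F (t + 1) + F 0 := by
      rintro F n rfl
      exact Finset.sum_range_succ' _ _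
    exact aux (fun t : ℕ => α (x₀ + (t : ZMod m) * (d : ZMod m))) p hq
  rw [hsplit, Finset.sum_congr rfl hconst]
  simp only [Finset.sum_const, Finset.card_range, nsmul_eq_mul, Nat.cast_zero, zero_mul, add_zero]
  have hq' : (q : ZMod p) = -1 := by
    have h1 : ((q + 1 : ℕ) : ZMod p) = 0 := by
      rw [← hq]; simp
    push_cast at h1
    exact eq_neg_of_add_eq_zero_left h1
  rw [hq', hα x₀ i hord]
  ring

lemma theta_rat (hm : m = p * d) (hα : ∀ i j : ZMod m, addOrderOf i = addOrderOf j → α i = α j)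
    (i j : ZMod m) (h : addOrderOf i = addOrderOf j) : frobC p α i = frobC p α j := by
  by_cases hi : p ∣ addOrderOf i
  · rw [theta_dvd hm hα hi, theta_dvd hm hα (h ▸ hi)]
  · have hj : ¬ p ∣ addOrderOf j := h ▸ hi
    rw [theta_free hm hα hi, theta_free hm hα hj, hα i j h,
      hα (i + (d : ZMod m)) (j + (d : ZMod m)) (by rw [ord_add_d hm hi, ord_add_d hm hj, h])]

end DG

lemma DG [Fact (1 < m)] (hm : m = p * d) (hp2 : p ≠ 2) {E : Set (DihedralGroup m)} (hE : SS P E)
    (hRt : Rt E) (h1 : (1 : DihedralGroup m) ∉ E) {i₀ : ZMod m} (hi₀ : r i₀ ∈ E)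
    (hpi₀ : p ∣ addOrderOf i₀) : ∀ i : ZMod m, p ∣ addOrderOf i → r i ∈ E := by
  classical
  set c : Set (DihedralGroup m) :=
    {x | ∀ S : Set (DihedralGroup m), SS P S → Rt S → (1 : DihedralGroup m) ∉ S → r i₀ ∈ S → x ∈ S}
    with hc
  have hcS : SS P c := fun g hg x y h S hS hR h1' h0 => hS g hg x y (h S hS hR h1' h0)
  have hcR : Rt c := by
    intro i j hij
    constructor
    · intro h S hS hR h1' h0
      exact (hR i j hij).1 (h S hS hR h1' h0)
    · intro h S hS hR h1' h0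
      exact (hR i j hij).2 (h S hS hR h1' h0)
  have hc1 : (1 : DihedralGroup m) ∉ c := fun h => h1 (h E hE hRt h1 hi₀)
  have hci₀ : r i₀ ∈ c := fun S _ _ _ h0 => h0
  have hcE : c ⊆ E := fun x hx => hx E hE hRt h1 hi₀
  have hRc : ∀ i j : ZMod m, addOrderOf i = addOrderOf j → al (ZMod p) c i = al (ZMod p) c j :=
    al_rat hcR
  set A := (ofF (chi (ZMod p) c)) ^ p with hA
  have hI : IsI P A := (chi_isI hcS).pow p
  have hA_r : ∀ k : ZMod m, A 1 (r k) = frobC p (al (ZMod p) c) k := by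
    intro k
    rw [hA, chi_eq_mk]
    exact frob_rot p _ _ (al_symm hcS) hp2 k
  set θ := frobC p (al (ZMod p) c) with hθ
  have hθrat : ∀ i j : ZMod m, addOrderOf i = addOrderOf j → θ i = θ j := theta_rat hm hRc
  have hθ0 : ∀ j : ZMod m, p ∣ addOrderOf j → θ j = 0 := fun j hj => theta_dvd hm hRc hj
  have hθf : ∀ i : ZMod m, ¬ p ∣ addOrderOf i →
      θ i = al (ZMod p) c i - al (ZMod p) c (i + (d : ZMod m)) := fun i hi => theta_free hm hRc hi
  have hne01 : (1 : ZMod p) ≠ 0 := one_ne_zero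
  have hneg : (-1 : ZMod p) ≠ 0 := neg_ne_zero.2 hne01
  have h2ne : (2 : ZMod p) ≠ 0 := by
    intro h
    have h' : ((2 : ℕ) : ZMod p) = 0 := by exact_mod_cast h
    rw [ZMod.natCast_eq_zero_iff] at h'
    exact hp2 ((Nat.prime_dvd_prime_iff_eq hp.out Nat.prime_two).1 h')
  -- `c` is contained in the zero level set
  have hL0 : c ⊆ {x | A 1 x = 0} \ {1} := by
    intro x hx
    refine hx _ ((hI.ss_level 0).diff SS_one) ?_ (by simp) ⟨?_, ?_⟩ 
    · intro i j hij
      constructor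
      · rintro ⟨h3, h4⟩
        refine ⟨?_, fun h => h4 ((Rt_one i j hij).2 h)⟩
        show A 1 (r j) = 0
        rw [hA_r, ← hθrat i j hij, ← hA_r]
        exact h3
      · rintro ⟨h3, h4⟩
        refine ⟨?_, fun h => h4 ((Rt_one i j hij).1 h)⟩
        show A 1 (r i) = 0
        rw [hA_r, hθrat i j hij, ← hA_r]
        exact h3
    · show A 1 (r i₀) = 0
      rw [hA_r]
      exact hθ0 _ hpi₀
    · intro h
      exact hc1 (by rw [← (show r i₀ = 1 from h)]; exact hci₀)
  have hstep : ∀ i : ZMod m, ¬ p ∣ addOrderOf i → r i ∈ c → r (i + (d : ZMod m)) ∈ c := by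
    intro i hi hic
    have h3 : θ i = 0 := by
      have := (hL0 hic).1
      have h4 : A 1 (r i) = 0 := this
      rwa [hA_r] at h4
    rw [hθf i hi, al_mem hic] at h3
    by_contra hn
    rw [al_not hn] at h3
    simp at h3
  set X : Set (DihedralGroup m) := c ∪ {x | A 1 x = -1} with hX
  have hXS : SS P X := hcS.union (hI.ss_level _)
  have hXmem : ∀ i : ZMod m, r i ∈ X ↔ (r i ∈ c ∨ θ i = -1) := by
    intro i
    show (r i ∈ c ∨ A 1 (r i) = -1) ↔ _
    rw [hA_r]
  have hXdvd : ∀ i : ZMod m, p ∣ addOrderOf i → (r i ∈ X ↔ r i ∈ c) := by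
    intro i hi
    rw [hXmem, hθ0 i hi]
    constructor
    · rintro (h | h)
      · exact h
      · exact absurd h.symm hneg
    · exact Or.inl
  have hXfree : ∀ i : ZMod m, ¬ p ∣ addOrderOf i → (r i ∈ X ↔ r (i + (d : ZMod m)) ∈ c) := by
    intro i hi
    rw [hXmem]
    constructor
    · rintro (h | h)
      · exact hstep i hi h
      · rw [hθf i hi] at h
        by_contra hn
        rw [al_not hn] at h
        by_cases h5 : r i ∈ c
        · rw [al_mem h5] at h
          have : (2 : ZMod p) = 0 := by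
            have h6 : (1 : ZMod p) - 0 + 1 = 0 := by rw [h]; ring
            rw [show (2 : ZMod p) = 1 + 1 by norm_num]
            simpa using h6
          exact h2ne this
        · rw [al_not h5] at h
          simp at h
    · intro h
      by_cases h5 : r i ∈ c
      · exact Or.inl h5
      · right
        rw [hθf i hi, al_not h5, al_mem h]
        ring
  have hdvd_add : ∀ i : ZMod m, ¬ p ∣ addOrderOf i → p ∣ addOrderOf (i + (d : ZMod m)) := by
    intro i hi
    rw [ord_add_d hm hi]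
    exact dvd_mul_right _ _
  have hXR : Rt X := by
    intro i j hij
    rw [hXmem, hXmem, hθrat i j hij, hcR i j hij]
  have hXα : ∀ i : ZMod m, r i ∈ X ↔ r (i + (d : ZMod m)) ∈ X := by
    intro i
    by_cases hi : p ∣ addOrderOf i
    · by_cases hi' : p ∣ addOrderOf (i + (d : ZMod m))
      · rw [hXdvd i hi, hXdvd _ hi']
        apply hcR
        rw [ord_of_dvd hi, ord_of_dvd hi', p_mul_add_d hm]
      · rw [hXdvd i hi, hXfree _ hi']
        apply hcR
        have hp0 := hp.out.pos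
        have hp1 := hp.out.one_lt
        have e1 : i = (i + (d : ZMod m)) + ((p - 1 : ℕ) : ZMod m) * (d : ZMod m) := by
          have h6 : ((p - 1 + 1 : ℕ) : ZMod m) * (d : ZMod m) = 0 := by
            rw [Nat.sub_add_cancel hp0]
            exact p_mul_d hm
          push_cast at h6
          have : i + (d : ZMod m) + ((p - 1 : ℕ) : ZMod m) * (d : ZMod m) =
              i + (((p - 1 : ℕ) : ZMod m) + 1) * (d : ZMod m) := by ring
          rw [this]
          have h7 : (((p - 1 : ℕ) : ZMod m) + 1) * (d : ZMod m) = 0 := h6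
          rw [h7, add_zero]
        conv_lhs => rw [e1]
        rw [ord_add_td hm hi' (t := p - 1) (by omega) (by omega), ord_add_d hm hi']
    · rw [hXfree i hi, hXdvd _ (hdvd_add i hi)]
  rcases dagger hm hp2 hXS hXR hXα with h0 | h0
  · exfalso
    have : r i₀ ∈ X := Or.inl hci₀
    rw [h0] at this
    exact this
  · intro i hi
    apply hcE
    apply (hXdvd i hi).1
    rw [h0]
    trivial

end Core

end Cfsg.Agent.H08.Dih
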