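import Mathlib
import Cfsg.Agent.Lib.H08.Dih5

set_option autoImplicit false

namespace Cfsg.Agent.H08.Dih

open DihedralGroup Finset

variable {m : ℕ} [NeZero m] {P : PG m}

/-- sign character -/
def eps1 : DihedralGroup m → ℤ
  | r _ => 1
  | sr _ => -1

omit [NeZero m] in
lemma eps1_mul (x y : DihedralGroup m) : eps1 (x * y) = eps1 x * eps1 y := by
  cases x <;> cases y <;> simp [eps1]

def g2 (a : ZMod 2) : ℤ := if a = 0 then 1 else -1

lemma g2_add : ∀ a b : ZMod 2, g2 (a + b) = g2 a * g2 b := by decide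
lemma g2_sub : ∀ a b : ZMod 2, g2 (a - b) = g2 a * g2 b := by decide

/-- parity character on `ZMod m` -/
noncomputable def chiZ (h : 2 ∣ m) (i : ZMod m) : ℤ := g2 (ZMod.castHom h (ZMod 2) i)

omit [NeZero m] in
lemma chiZ_add (h : 2 ∣ m) (i j : ZMod m) : chiZ h (i + j) = chiZ h i * chiZ h j := by
  simp only [chiZ, map_add, g2_add]

omit [NeZero m] in
lemma chiZ_sub (h : 2 ∣ m) (i j : ZMod m) : chiZ h (i - j) = chiZ h i * chiZ h j := by
  simp only [chiZ, map_sub, g2_sub]

omit [NeZero m] in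
lemma chiZ_zero (h : 2 ∣ m) : chiZ h 0 = 1 := by
  simp [chiZ, g2]

omit [NeZero m] in
lemma chiZ_one (h : 2 ∣ m) : chiZ h 1 = -1 := by
  simp only [chiZ, map_one]
  decide

lemma chiZ_sum (h : 2 ∣ m) : ∑ i, chiZ h i = 0 := by
  have h1 := sum_shift (chiZ h) (1 : ZMod m)
  simp only [chiZ_add, chiZ_one, mul_neg, mul_one, Finset.sum_neg_distrib] at h1
  linarith

/-- parity character on the dihedral group -/
noncomputable def eps2 (h : 2 ∣ m) : DihedralGroup m → ℤ
  | r i => chiZ h i
  | sr i => chiZ h i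

omit [NeZero m] in
lemma eps2_mul (h : 2 ∣ m) (x y : DihedralGroup m) : eps2 h (x * y) = eps2 h x * eps2 h y := by
  cases x with
  | r i =>
    cases y with
    | r j => simp [eps2, chiZ_add]
    | sr j => simp only [r_mul_sr, eps2, chiZ_sub]; ring
  | sr i =>
    cases y with
    | r j => simp [eps2, chiZ_add]
    | sr j => simp only [sr_mul_sr, eps2, chiZ_sub]; ring

lemma hsum_chi (ε : DihedralGroup m → ℤ) (X : Set (DihedralGroup m)) :
    hsum ε (chi ℤ X) = ∑ i, ε (r i) * al ℤ X i + ∑ i, ε (sr i) * be ℤ X i := by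
  simp only [hsum]
  rw [sum_H]
  rfl

lemma sq_hsum (ε : DihedralGroup m → ℤ) (hε : ∀ x y, ε (x * y) = ε x * ε y)
    (X : Set (DihedralGroup m)) :
    hsum ε (mk (gam ℤ X) (del ℤ X)) = (hsum ε (chi ℤ X)) ^ 2 := by
  have h1 := mk_conv (al ℤ X) (be ℤ X) (al ℤ X) (be ℤ X)
  rw [← chi_eq_mk] at h1
  have h2 : mk (gam ℤ X) (del ℤ X) = fun x => ∑ y, chi ℤ X y * chi ℤ X (y⁻¹ * x) := h1.symm
  rw [h2, hsum_mul ε hε, pow_two]

lemma sq_eq_B (ε : DihedralGroup m → ℤ) (hε : ∀ x y, ε (x * y) = ε x * ε y) (hε1 : ε 1 = 1)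
    (hε0 : ∑ x, ε x = 0) {X : Set (DihedralGroup m)} {A B : ℤ}
    (hval : ∀ x, mk (gam ℤ X) (del ℤ X) x = A + if x = 1 then B else 0) :
    (hsum ε (chi ℤ X)) ^ 2 = B := by
  classical
  rw [← sq_hsum ε hε]
  simp only [hsum, hval, mul_add, Finset.sum_add_distrib]
  rw [← Finset.sum_mul, hε0, zero_mul, zero_add, Finset.sum_eq_single 1]
  · simp [hε1]
  · intro x _ hx
    simp [hx]
  · simp

lemma num1 {A B : ℤ} {Q n₀ e : ℕ} (hQ : Q = 2 ^ e) (hn₀ : Odd n₀) (hn₃ : 3 ≤ n₀)
    (hm : ((Q * n₀ : ℕ) : ℤ) = 2 * B) (hA : 1 ≤ A) (hAQ : A ≤ Q) (hs : (A - B) ^ 2 = B) : False := by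
  have hQ1 : 1 ≤ Q := by rw [hQ]; exact Nat.one_le_two_pow
  push_cast at hm
  have hn₃' : (3 : ℤ) ≤ n₀ := by exact_mod_cast hn₃
  have hQ' : (1 : ℤ) ≤ Q := by exact_mod_cast hQ1
  have h3 : 3 * A ≤ 2 * B := by nlinarith
  have hB : 1 ≤ B := by nlinarith
  set u := B - A with hu
  have hu1 : 1 ≤ u := by omega
  have hu2 : u ^ 2 = B := by rw [← hs, hu]; ring
  have hu3 : u ≤ 3 := by
    by_contra hn
    have h4 : 4 ≤ u := by omega
    have : A = u ^ 2 - u := by rw [hu2, hu]; ring
    nlinarith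
  have hu4 : u ≠ 1 := by
    rintro hu'
    rw [hu'] at hu2
    omega
  have hcases : u = 2 ∨ u = 3 := by omega
  rcases hcases with h | h
  · rw [h] at hu2
    have hB4 : B = 4 := by omega
    have h8 : Q * n₀ = 8 := by
      have : ((Q * n₀ : ℕ) : ℤ) = 8 := by push_cast; omega
      exact_mod_cast this
    have hn₈ : n₀ ≤ 8 := by nlinarith
    interval_cases n₀ <;> first | omega | (exact absurd hn₀ (by decide))
  · rw [h] at hu2
    have hB9 : B = 9 := by omega
    have hA6 : A = 6 := by omega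
    have h18 : Q * n₀ = 18 := by
      have : ((Q * n₀ : ℕ) : ℤ) = 18 := by push_cast; omega
      exact_mod_cast this
    have hQ6 : 6 ≤ Q := by
      have : (6 : ℤ) ≤ Q := by omega
      exact_mod_cast this
    have hn₈ : n₀ ≤ 3 := by nlinarith
    have hn : n₀ = 3 := by omega
    subst hn
    have hQ6' : Q = 6 := by omega
    have h3d : 3 ∣ 2 ^ e := by rw [← hQ, hQ6']; norm_num
    have := Nat.Prime.dvd_of_dvd_pow Nat.prime_three h3d
    omega

lemma num2 {A B o : ℤ} (ho : o = 0 ∨ o = 1) (hA : 1 ≤ A) (hB : 1 ≤ B) (h1 : (A - B) ^ 2 = B)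
    (h2 : (A - 2 * B * o) ^ 2 = B) : B = 4 := by
  rcases ho with rfl | rfl
  · have hBA : B = A ^ 2 := by rw [← h2]; ring
    have h3 : A ^ 3 * (A - 2) = 0 := by
      rw [hBA] at h1
      nlinarith
    rcases mul_eq_zero.1 h3 with h4 | h4
    · have : A = 0 := by
        rcases pow_eq_zero_iff (n := 3) (by norm_num) |>.1 h4 with h5
        exact h5
      omega
    · have : A = 2 := by omega
      rw [hBA, this]
      norm_num
  · have h3 : B * (2 * A - 3 * B) = 0 := by nlinarith
    rcases mul_eq_zero.1 h3 with h4 | h4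
    · omega
    · have h5 : 2 * A = 3 * B := by omega
      have h6 : B * (B - 4) = 0 := by
        have : 4 * (A - B) ^ 2 = (2 * A - 2 * B) ^ 2 := by ring
        rw [h1, h5] at this
        nlinarith
      rcases mul_eq_zero.1 h6 with h7 | h7
      · omega
      · omega

lemma sum8 (f : ZMod 8 → ℤ) : ∑ i, f i = f 0 + f 1 + f 2 + f 3 + f 4 + f 5 + f 6 + f 7 :=
  Fin.sum_univ_eight f

lemma m8_final (a b : ZMod 8 → ℤ) (ha : ∀ i, a i = 0 ∨ a i = 1) (hb : ∀ i, b i = 0 ∨ b i = 1)
    (ha4 : ∀ i, a (i + 4) = a i) (ha1 : ∀ i, i = 3 ∨ i = 5 ∨ i = 7 → a i = a 1)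
    (hb4 : ∀ i, b i + b (i + 4) = 1)
    (heq : ∑ i, a i * a (1 - i) + ∑ i, b i * b (i + 1) = ∑ i, a i) : False := by
  rw [sum8, sum8, sum8] at heq
  have e0 : (1 : ZMod 8) - 0 = 1 := by decide
  have e1 : (1 : ZMod 8) - 1 = 0 := by decide
  have e2 : (1 : ZMod 8) - 2 = 7 := by decide
  have e3 : (1 : ZMod 8) - 3 = 6 := by decide
  have e4 : (1 : ZMod 8) - 4 = 5 := by decide
  have e5 : (1 : ZMod 8) - 5 = 4 := by decide
  have e6 : (1 : ZMod 8) - 6 = 3 := by decide
  have e7 : (1 : ZMod 8) - 7 = 2 := by decide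
  have f0 : (0 : ZMod 8) + 1 = 1 := by decide
  have f1 : (1 : ZMod 8) + 1 = 2 := by decide
  have f2 : (2 : ZMod 8) + 1 = 3 := by decide
  have f3 : (3 : ZMod 8) + 1 = 4 := by decide
  have f4 : (4 : ZMod 8) + 1 = 5 := by decide
  have f5 : (5 : ZMod 8) + 1 = 6 := by decide
  have f6 : (6 : ZMod 8) + 1 = 7 := by decide
  have f7 : (7 : ZMod 8) + 1 = 0 := by decide
  rw [e0, e1, e2, e3, e4, e5, e6, e7, f0, f1, f2, f3, f4, f5, f6, f7] at heq
  have a4 : a 4 = a 0 := ha4 0
  have a6 : a 6 = a 2 := ha4 2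
  have a3 := ha1 3 (Or.inl rfl)
  have a5 := ha1 5 (Or.inr (Or.inl rfl))
  have a7 := ha1 7 (Or.inr (Or.inr rfl))
  have b4 : b 0 + b 4 = 1 := hb4 0
  have b5 : b 1 + b 5 = 1 := hb4 1
  have b6 : b 2 + b 6 = 1 := hb4 2
  have b7 : b 3 + b 7 = 1 := hb4 3
  have b4' : b 4 = 1 - b 0 := by linarith
  have b5' : b 5 = 1 - b 1 := by linarith
  have b6' : b 6 = 1 - b 2 := by linarith
  have b7' : b 7 = 1 - b 3 := by linarith
  rw [a4, a6, a3, a5, a7, b4', b5', b6', b7'] at heq
  rcases ha 0 with h0 | h0 <;> rcases ha 1 with h1 | h1 <;> rcases ha 2 with h2 | h2 <;>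
    rcases hb 0 with k0 | k0 <;> rcases hb 1 with k1 | k1 <;> rcases hb 2 with k2 | k2 <;>
    rcases hb 3 with k3 | k3 <;> rw [h0, h1, h2, k0, k1, k2, k3] at heq <;> norm_num at heq

lemma ord_ne_one_of {i : ZMod m} (h : i ≠ 0) : addOrderOf i ≠ 1 := by
  rw [Ne, AddMonoid.addOrderOf_eq_one_iff]
  exact h

lemma ord_dvd_m (i : ZMod m) : addOrderOf i ∣ m := by
  have := addOrderOf_dvd_card (x := i)
  rwa [ZMod.card] at this

lemma good_side [Fact (1 < m)] {Y : Set (DihedralGroup m)} (hY : SS P Y) (hRt : Rt Y)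
    (h1 : (1 : DihedralGroup m) ∉ Y) (hne : Y.Nonempty) (hne' : ∃ y, y ≠ 1 ∧ y ∉ Y)
    (hodd : ∀ i : ZMod m, r i ∈ Y → ∀ q : ℕ, q.Prime → q ≠ 2 → ¬ q ∣ addOrderOf i) : False := by
  classical
  obtain ⟨i₁, hi₁⟩ := hY.exists_rot hne
  have hi₁0 : i₁ ≠ 0 := by
    rintro rfl
    exact h1 hi₁
  have h2 : 2 ∣ addOrderOf i₁ := by
    obtain ⟨q, hq, hqd⟩ := Nat.exists_prime_and_dvd (ord_ne_one_of hi₁0)
    by_cases hq2 : q = 2
    · subst hq2; exact hqd
    · exact absurd hqd (hodd i₁ hi₁ q hq hq2)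
  have h2m : 2 ∣ m := h2.trans (ord_dvd_m i₁)
  obtain ⟨d, hm⟩ := h2m
  have h2m : 2 ∣ m := ⟨d, hm⟩
  have hd0 : (d : ZMod m) ≠ 0 := d_ne_zero (p := 2) hm
  have hrd : (r (d : ZMod m) : DihedralGroup m) ≠ 1 := fun h => hd0 ((r_eq_one_iff _).1 h)
  have hdd : ∀ i : ZMod m, i + (d : ZMod m) + (d : ZMod m) = i := by
    intro i
    have h6 : ((2 : ℕ) : ZMod m) * (d : ZMod m) = 0 := p_mul_d hm
    have : i + (d : ZMod m) + (d : ZMod m) = i + ((2 : ℕ) : ZMod m) * (d : ZMod m) := by
      push_cast; ring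
    rw [this, h6, add_zero]
  set X : Set (DihedralGroup m) := if r (d : ZMod m) ∈ Y then Y ∪ {1} else Y with hX
  have hXS : SS P X := by
    rw [hX]
    split_ifs
    · exact hY.union SS_one
    · exact hY
  have hXR : Rt X := by
    rw [hX]
    split_ifs
    · exact hRt.union Rt_one
    · exact hRt
  have hXY : ∀ x : DihedralGroup m, x ≠ 1 → (x ∈ X ↔ x ∈ Y) := by
    intro x hx
    rw [hX]
    split_ifs
    · simp [hx]
    · rfl
  have hX0 : (1 : DihedralGroup m) ∈ X ↔ r (d : ZMod m) ∈ Y := by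
    rw [hX]
    split_ifs with h
    · simp [h]
    · simp [h, h1]
  have hB' : ∀ i : ZMod m, ¬ 2 ∣ addOrderOf i → (r i ∈ X ↔ r (i + (d : ZMod m)) ∈ X) := by
    intro i hi
    by_cases hi0 : i = 0
    · subst hi0
      rw [zero_add, hXY _ hrd]
      exact hX0
    · obtain ⟨q, hq, hqd⟩ := Nat.exists_prime_and_dvd (ord_ne_one_of hi0)
      have hq2 : q ≠ 2 := by
        rintro rfl
        exact hi hqd
      have h3 : r i ∉ Y := fun h => hodd i h q hq hq2 hqd
      have hord := ord_add_d (p := 2) hm hi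
      have h4 : r (i + (d : ZMod m)) ∉ Y := by
        intro h
        apply hodd _ h q hq hq2
        rw [hord]
        exact hqd.trans (dvd_mul_left _ _)
      have n1 : (r i : DihedralGroup m) ≠ 1 := fun h => hi0 ((r_eq_one_iff _).1 h)
      have n2 : (r (i + (d : ZMod m)) : DihedralGroup m) ≠ 1 := by
        intro h
        rw [(r_eq_one_iff _).1 h, addOrderOf_zero] at hord
        have := ord_pos i
        omega
      rw [hXY _ n1, hXY _ n2]
      exact ⟨fun h => absurd h h3, fun h => absurd h h4⟩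
  have hXα : ∀ i : ZMod m, r i ∈ X ↔ r (i + (d : ZMod m)) ∈ X := by
    intro i
    by_cases hi : 2 ∣ addOrderOf i
    · by_cases hi' : 2 ∣ addOrderOf (i + (d : ZMod m))
      · apply hXR
        rw [ord_of_dvd hi, ord_of_dvd hi', p_mul_add_d (p := 2) hm]
      · have := hB' _ hi'
        rw [hdd] at this
        exact this.symm
    · exact hB' i hi
  have hneX : X.Nonempty := by
    obtain ⟨y, hy⟩ := hne
    have hy1 : y ≠ 1 := by
      rintro rfl
      exact h1 hy
    exact ⟨y, (hXY y hy1).2 hy⟩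
  have hneX' : Xᶜ.Nonempty := by
    obtain ⟨y, hy1, hy⟩ := hne'
    exact ⟨y, fun h => hy ((hXY y hy1).1 h)⟩
  obtain ⟨hB, hZ, hg0, hprod⟩ := core (p := 2) hm hXS hXR hXα hneX hneX'
  obtain ⟨hA, -, -, -⟩ := half (p := 2) hm hXS hXR hXα hneX
  obtain ⟨hA', -, -, -⟩ := half (p := 2) hm hXS.compl hXR.compl (fun i => not_congr (hXα i)) hneX'
  have hAc : Az X + Az Xᶜ = m := by
    have h : ∀ i, al ℤ Xᶜ i = 1 - al ℤ X i := by
      intro i
      by_cases hi : r i ∈ X
      · have h1' : r i ∉ Xᶜ := fun h => h hi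
        rw [al_mem hi, al_not h1']; simp
      · have h1' : r i ∈ Xᶜ := hi
        rw [al_not hi, al_mem h1']; simp
    simp only [Az, h, Finset.sum_sub_distrib]
    simp [ZMod.card]
  have hM : (0 : ℤ) < m := by exact_mod_cast Nat.pos_of_ne_zero (NeZero.ne m)
  have hB1 : 1 ≤ Bz X := by linarith
  have hgam : ∀ i : ZMod m, gam ℤ X i = Az X + if i = 0 then Bz X else 0 := by
    intro i
    by_cases hi : i = 0
    · subst hi
      simp [hg0]
    · have := hZ (r i) (fun h => hi ((r_eq_one_iff _).1 h))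
      simp only [hi, if_false, add_zero]
      simpa using this
  have hdel : ∀ k : ZMod m, del ℤ X k = Az X := by
    intro k
    have := hZ (sr k) (sr_ne_one k)
    simpa using this
  have hval : ∀ x, mk (gam ℤ X) (del ℤ X) x = Az X + if x = 1 then Bz X else 0 := by
    intro x
    cases x with
    | r i =>
      simp only [mk_r, hgam, r_eq_one_iff]
    | sr i =>
      simp [hdel, sr_ne_one]
  -- the first character
  have heps1 : ∑ x : DihedralGroup m, eps1 x = 0 := by
    rw [sum_H]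
    simp [eps1]
  have hs1 : (Az X - Bz X) ^ 2 = Bz X := by
    have := sq_eq_B eps1 eps1_mul rfl heps1 hval
    rw [hsum_chi] at this
    simp only [eps1, one_mul, neg_mul, Finset.sum_neg_distrib] at this
    exact this
  -- 2-part
  obtain ⟨e, n₀, hn₀, h2e⟩ := Nat.exists_eq_two_pow_mul_odd (NeZero.ne m)
  have hAQ : Az X ≤ ((2 ^ e : ℕ) : ℤ) := by
    have hle : ∀ i : ZMod m, al ℤ X i ≤ if (2 ^ e) • i = 0 then 1 else 0 := by
      intro i
      by_cases hi : r i ∈ X
      · have hz : (2 ^ e) • i = 0 := by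
          by_cases hi0 : i = 0
          · subst hi0; simp
          · have hi' : r i ∈ Y := (hXY _ (fun h => hi0 ((r_eq_one_iff _).1 h))).1 hi
            rw [← addOrderOf_dvd_iff_nsmul_eq_zero]
            rcases Nat.eq_two_pow_or_exists_odd_prime_and_dvd (addOrderOf i) with ⟨k, hk⟩ | ⟨q, hq, hqd, hqo⟩
            · have hd : addOrderOf i ∣ 2 ^ e * n₀ := by
                rw [← h2e]; exact ord_dvd_m i
              have hco : (addOrderOf i).Coprime n₀ := by
                rw [hk]
                exact Nat.Coprime.pow_left _ (Nat.coprime_two_left.2 hn₀)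
              exact hco.dvd_of_dvd_mul_right hd
            · exfalso
              apply hodd i hi' q hq _ hqd
              rintro rfl
              exact absurd hqo (by decide)
        rw [al_mem hi, if_pos hz]
      · rw [al_not hi]
        split_ifs <;> simp
    have h3 := Finset.sum_le_sum (fun i (_ : i ∈ Finset.univ) => hle i)
    rw [Finset.sum_boole] at h3
    have h4 := IsAddCyclic.card_nsmul_eq_zero_le (α := ZMod m) (n := 2 ^ e) (by positivity)
    have h5 : ((Finset.univ.filter fun i : ZMod m => (2 ^ e) • i = 0).card : ℤ) ≤ ((2 ^ e : ℕ) : ℤ) := by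
      exact_mod_cast h4
    exact h3.trans h5
  have hn₀cases : n₀ = 1 ∨ 3 ≤ n₀ := by
    obtain ⟨t, ht⟩ := hn₀
    omega
  rcases hn₀cases with hn₀1 | hn₃
  · -- `m` is a power of two
    subst hn₀1
    rw [mul_one] at h2e
    by_cases h4m : 2 ∣ d
    · have hm8 : ∀ v : ℕ, ¬ 2 ∣ v → m.Coprime v := by
        intro v hv
        rw [h2e]
        exact Nat.Coprime.pow_left _ ((Nat.Prime.coprime_iff_not_dvd Nat.prime_two).2 hv)
      have hoddord : ∀ i : ZMod m, ZMod.castHom h2m (ZMod 2) i ≠ 0 → addOrderOf i = m := by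
        intro i hi
        have hv : ¬ 2 ∣ i.val := by
          intro hv
          apply hi
          have : (i : ZMod m) = (i.val : ZMod m) := (ZMod.natCast_zmod_val i).symm
          rw [this, map_natCast, ZMod.natCast_eq_zero_iff]
          exact hv
        have h5 := ZMod.addOrderOf_coe i.val (NeZero.ne m)
        rw [ZMod.natCast_zmod_val, (hm8 _ hv).gcd_eq_one, Nat.div_one] at h5
        exact h5
      have hc1 : ZMod.castHom h2m (ZMod 2) (1 : ZMod m) ≠ 0 := by
        rw [map_one]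
        exact one_ne_zero
      have hαo : ∀ i : ZMod m, ZMod.castHom h2m (ZMod 2) i ≠ 0 → al ℤ X i = al ℤ X 1 := by
        intro i hi
        apply al_rat hXR
        rw [hoddord i hi, hoddord 1 hc1]
      have hχα : ∀ i : ZMod m, chiZ h2m i * al ℤ X i = al ℤ X i - (1 - chiZ h2m i) * al ℤ X 1 := by
        intro i
        by_cases hi : ZMod.castHom h2m (ZMod 2) i = 0
        · simp [chiZ, g2, hi]
        · rw [hαo i hi]
          simp only [chiZ, g2, hi, if_false]
          ring
      have hsumα : ∑ i, chiZ h2m i * al ℤ X i = Az X - m * al ℤ X 1 := by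
        rw [Finset.sum_congr rfl (fun i _ => hχα i), Finset.sum_sub_distrib, ← Finset.sum_mul,
          Finset.sum_sub_distrib, chiZ_sum]
        simp [ZMod.card, Az]
      -- the reflection part
      have hb1 : ∀ i : ZMod m, be ℤ X i + be ℤ X (i + (d : ZMod m)) = 1 := by
        have hb0 : ∀ i : ZMod m, be ℤ X i * be ℤ X (i + (d : ZMod m)) = 0 := by
          intro i
          have := hprod 1 i (by simpa using hd0)
          simpa using this
        have hle : ∀ i : ZMod m, be ℤ X i + be ℤ X (i + (d : ZMod m)) ≤ 1 := by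
          intro i
          have e1 := hb0 i
          rcases be_cases X i with h | h <;> rcases be_cases X (i + (d : ZMod m)) with h' | h' <;>
            rw [h, h'] at e1 ⊢ <;> omega
        have hsum0 : ∑ i : ZMod m, (1 - (be ℤ X i + be ℤ X (i + (d : ZMod m)))) = 0 := by
          simp only [Finset.sum_sub_distrib, Finset.sum_add_distrib]
          rw [sum_shift (be ℤ X) (d : ZMod m)]
          have hB'' : (∑ i, be ℤ X i) = Bz X := rfl
          rw [hB'']
          simp only [Finset.sum_const, Finset.card_univ, ZMod.card, nsmul_eq_mul, mul_one]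
          linarith
        intro i
        have := (Finset.sum_eq_zero_iff_of_nonneg (fun j _ => by linarith [hle j])).1 hsum0 i
          (Finset.mem_univ _)
        linarith
      have hχd : ∀ i : ZMod m, chiZ h2m (i + (d : ZMod m)) = chiZ h2m i := by
        intro i
        have : chiZ h2m (d : ZMod m) = 1 := by
          simp only [chiZ, map_natCast, g2]
          rw [(ZMod.natCast_eq_zero_iff d 2).2 h4m]
          simp
        rw [chiZ_add, this, mul_one]
      have hsumβ : ∑ i, chiZ h2m i * be ℤ X i = 0 := by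
        have h5 := sum_shift (fun i => chiZ h2m i * be ℤ X i) (d : ZMod m)
        have h6 : ∀ i : ZMod m, chiZ h2m (i + (d : ZMod m)) * be ℤ X (i + (d : ZMod m)) =
            chiZ h2m i - chiZ h2m i * be ℤ X i := by
          intro i
          have := hb1 i
          rw [hχd, show be ℤ X (i + (d : ZMod m)) = 1 - be ℤ X i by linarith]
          ring
        simp only [h6, Finset.sum_sub_distrib, chiZ_sum] at h5
        linarith
      have heps2 : ∑ x : DihedralGroup m, eps2 h2m x = 0 := by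
        rw [sum_H]
        simp [eps2, chiZ_sum]
      have hs2 : (Az X - 2 * Bz X * al ℤ X 1) ^ 2 = Bz X := by
        have := sq_eq_B (eps2 h2m) (eps2_mul h2m) (chiZ_zero h2m) heps2 hval
        rw [hsum_chi] at this
        simp only [eps2] at this
        rw [hsumα, hsumβ, add_zero, ← hB] at this
        exact this
      have hB4 := num2 (al_cases X 1) hA hB1 hs1 hs2
      have hm8' : m = 8 := by
        have : (m : ℤ) = 8 := by rw [← hB, hB4]; norm_num
        exact_mod_cast this
      have hd4 : d = 4 := by omega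
      subst hd4
      subst hm8'
      exact m8_final (al ℤ X) (be ℤ X) (al_cases X) (be_cases X)
        (fun i => by simpa using al_per hXα i)
        (fun i hi => by
          apply hαo
          rcases hi with rfl | rfl | rfl <;> (rw [map_ofNat]; decide))
        (fun i => by simpa using hb1 i)
        (by
          have := hgam 1
          rw [if_neg (by decide), add_zero] at this
          exact this)
    · -- `m = 2`
      have hm2 : m = 2 := by
        have hd1 : d = 1 := by
          have hd2 : d ∣ 2 ^ e := by rw [← h2e, hm]; exact dvd_mul_left _ _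
          rcases (Nat.dvd_prime_pow Nat.prime_two).1 hd2 with ⟨k, _, hk⟩
          rcases k with _ | k
          · simpa using hk
          · exact absurd (by rw [hk, pow_succ]; exact dvd_mul_left _ _) h4m
        omega
      have hB1' : Bz X = 1 := by
        have : (2 : ℤ) * Bz X = 2 := by rw [hB, hm2]; norm_num
        linarith
      have hm2' : (m : ℤ) = 2 := by exact_mod_cast hm2
      rw [hm2'] at hAc
      rw [hB1'] at hs1
      have hA1 : Az X = 1 := by linarith
      rw [hA1] at hs1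
      norm_num at hs1
  · refine num1 (A := Az X) (B := Bz X) rfl hn₀ hn₃ ?_ hA hAQ hs1
    rw [← h2e, hB]

/-- `Main(rat)` -/
theorem main_rat [Fact (1 < m)] {E : Set (DihedralGroup m)} (hE : SS P E) (hRt : Rt E)
    (h1 : (1 : DihedralGroup m) ∉ E) : E = ∅ ∨ ∀ x : DihedralGroup m, x ≠ 1 → x ∈ E := by
  by_contra hcon
  push Not at hcon
  obtain ⟨hne, y, hy1, hyE⟩ := hcon
  set E' : Set (DihedralGroup m) := (E ∪ {1})ᶜ with hE'
  have hE'S : SS P E' := (hE.union SS_one).compl
  have hE'R : Rt E' := (hRt.union Rt_one).compl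
  have h1' : (1 : DihedralGroup m) ∉ E' := fun h => h (Or.inr rfl)
  have hne' : E'.Nonempty := ⟨y, fun h => by
    rcases h with h | h
    · exact hyE h
    · exact hy1 h⟩
  have hdisj : ∀ x, x ∈ E → x ∉ E' := fun x hx h => h (Or.inl hx)
  by_cases hside : ∀ i : ZMod m, r i ∈ E → ∀ q : ℕ, q.Prime → q ≠ 2 → ¬ q ∣ addOrderOf i
  · exact good_side hE hRt h1 hne ⟨y, hy1, hyE⟩ hside
  · by_cases hside' : ∀ i : ZMod m, r i ∈ E' → ∀ q : ℕ, q.Prime → q ≠ 2 → ¬ q ∣ addOrderOf i
    · obtain ⟨x, hx⟩ := hne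
      refine good_side hE'S hE'R h1' hne' ⟨x, ?_, hdisj x hx⟩ hside'
      rintro rfl
      exact h1 hx
    · push Not at hside hside'
      obtain ⟨i, hi, q, hq, hq2, hqd⟩ := hside
      obtain ⟨j, hj, q', hq', hq2', hqd'⟩ := hside'
      obtain ⟨dq, hdq⟩ := hqd.trans (ord_dvd_m i)
      obtain ⟨dq', hdq'⟩ := hqd'.trans (ord_dvd_m j)
      haveI : Fact q.Prime := ⟨hq⟩
      haveI : Fact q'.Prime := ⟨hq'⟩
      have hD := DG hdq hq2 hE hRt h1 hi hqd
      have hD' := DG hdq' hq2' hE'S hE'R h1' hj hqd'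
      by_cases hqq : q = q'
      · subst hqq
        exact hdisj _ (hD i hqd) (hD' i hqd)
      · have hc : (addOrderOf (dq : ZMod m)).Coprime (addOrderOf (dq' : ZMod m)) := by
          rw [ord_d hdq, ord_d hdq']
          exact (Nat.coprime_primes hq hq').2 hqq
        have hk := (AddCommute.all (dq : ZMod m) (dq' : ZMod m)).addOrderOf_add_eq_mul_addOrderOf_of_coprime hc
        rw [ord_d hdq, ord_d hdq'] at hk
        have h3 : q ∣ addOrderOf ((dq : ZMod m) + (dq' : ZMod m)) := by
          rw [hk]; exact dvd_mul_right _ _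
        have h4 : q' ∣ addOrderOf ((dq : ZMod m) + (dq' : ZMod m)) := by
          rw [hk]; exact dvd_mul_left _ _
        exact hdisj _ (hD _ h3) (hD' _ h4)

end Cfsg.Agent.H08.Dih
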