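import Mathlib
import Cfsg.Agent.Lib.H08.Dih6

set_option autoImplicit false

namespace Cfsg.Agent.H08.Dih

open DihedralGroup Finset

variable {m : ℕ} [NeZero m] {P : PG m}

lemma Az_pos [Fact (1 < m)] {X : Set (DihedralGroup m)} (hX : SS P X) (hne : X.Nonempty) :
    0 < Az X := by
  obtain ⟨i, hi⟩ := hX.exists_rot hne
  have h1 := Finset.single_le_sum (f := al ℤ X) (s := Finset.univ)
    (fun j _ => by rcases al_cases X j with h | h <;> simp [h]) (Finset.mem_univ i)
  rw [al_mem hi] at h1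
  show 0 < ∑ i, al ℤ X i
  linarith

lemma Az_compl (X : Set (DihedralGroup m)) : Az Xᶜ = m - Az X := by
  have h : ∀ i, al ℤ Xᶜ i = 1 - al ℤ X i := by
    intro i
    by_cases hi : r i ∈ X
    · have h1' : r i ∉ Xᶜ := fun h => h hi
      rw [al_mem hi, al_not h1']; simp
    · have h1' : r i ∈ Xᶜ := hi
      rw [al_not hi, al_mem h1']; simp
  simp only [Az, h, Finset.sum_sub_distrib]
  simp [ZMod.card]

lemma card_bds (X : Set (DihedralGroup m)) : 0 ≤ Az X + Bz X ∧ Az X + Bz X ≤ 2 * m := by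
  have h1 := sum_01 (al ℤ X) (fun i => by rcases al_cases X i with h | h <;> simp [h])
  have h2 := sum_01 (be ℤ X) (fun i => by rcases be_cases X i with h | h <;> simp [h])
  simp only [Az, Bz]
  constructor <;> linarith [h1.1, h1.2, h2.1, h2.2]

lemma sum_chi_eq (X : Set (DihedralGroup m)) : ∑ x, chi ℤ X x = Az X + Bz X := by
  rw [sum_H]
  rfl

/-- The multiplier set. -/
lemma multiplier [Fact (1 < m)] {T : Set (DihedralGroup m)} (hT : SS P T) {ℓ : ℕ} [hℓp : Fact ℓ.Prime]
    (hℓ : ℓ > 4 * m + 2) :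
    ∃ E : Set (DihedralGroup m), SS P E ∧ (∀ j : ZMod m, r ((ℓ : ZMod m) * j) ∈ E ↔ r j ∈ T) ∧
      Az E + Bz E = Az T + Bz T := by
  classical
  set Z := (ofF (chi (ZMod ℓ) T)) ^ ℓ with hZ
  have hI : IsI P Z := (chi_isI hT).pow ℓ
  have hu : IsUnit (ℓ : ZMod m) := isUnit_of_big hℓp.out (by omega)
  have hZr : ∀ j : ZMod m, Z 1 (r ((ℓ : ZMod m) * j)) = al (ZMod ℓ) T j := by
    intro j
    rw [hZ, chi_eq_mk, frob_rot ℓ _ _ (al_symm hT) (by omega), frobC_unit ℓ hu]
  have hne10 : (1 : ZMod ℓ) ≠ 0 := one_ne_zero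
  have hvals : ∀ x, Z 1 x = 0 ∨ Z 1 x = 1 := by
    intro x
    by_contra hcon
    push Not at hcon
    have := (hI.ss_level (Z 1 x)).refl_empty (by
      intro z hz
      cases z with
      | r i =>
        exfalso
        obtain ⟨u, hu'⟩ := hu
        have hi : i = (ℓ : ZMod m) * (((u⁻¹ : (ZMod m)ˣ) : ZMod m) * i) := by
          rw [← hu']; simp
        have h1 : Z 1 (r i) = Z 1 x := hz
        rw [hi, hZr] at h1
        by_cases hm : r (((u⁻¹ : (ZMod m)ˣ) : ZMod m) * i) ∈ T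
        · rw [al_mem hm] at h1
          exact hcon.2 h1.symm
        · rw [al_not hm] at h1
          exact hcon.1 h1.symm
      | sr i => exact ⟨i, rfl⟩)
    have hm : x ∈ ({z | Z 1 z = Z 1 x} : Set _) := rfl
    rw [this] at hm
    exact hm
  refine ⟨{x | Z 1 x = 1}, hI.ss_level 1, ?_, ?_⟩
  · intro j
    show Z 1 (r ((ℓ : ZMod m) * j)) = 1 ↔ _
    rw [hZr]
    by_cases hm : r j ∈ T
    · simp [al_mem hm, hm]
    · simp [al_not hm, hm]
  · have hs := hsum_pow' (R := ZMod ℓ) (fun _ => 1) (by simp) rfl (chi (ZMod ℓ) T) ℓ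
    rw [ZMod.pow_card] at hs
    simp only [hsum, one_mul] at hs
    have e1 : ∑ x, (ofF (chi (ZMod ℓ) T) ^ ℓ) 1 x = ((Az {x | Z 1 x = 1} + Bz {x | Z 1 x = 1} : ℤ) : ZMod ℓ) := by
      rw [← sum_chi_eq]
      push_cast
      refine Finset.sum_congr rfl fun x _ => ?_
      rw [chi_cast]
      rcases hvals x with h | h
      · rw [chi_not (by
          show ¬ (Z 1 x = 1)
          rw [h]
          exact hne10.symm)]
        exact h
      · rw [chi_mem (show Z 1 x = 1 from h)]
        exact h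
    have e2 : ∑ x, chi (ZMod ℓ) T x = ((Az T + Bz T : ℤ) : ZMod ℓ) := by
      rw [← sum_chi_eq]
      push_cast
      refine Finset.sum_congr rfl fun x _ => ?_
      rw [chi_cast]
    rw [e1, e2] at hs
    have hdvd := (ZMod.intCast_eq_intCast_iff_dvd_sub _ _ _).1 hs
    have b1 := card_bds {x | Z 1 x = 1}
    have b2 := card_bds T
    have habs : |Az T + Bz T - (Az {x | Z 1 x = 1} + Bz {x | Z 1 x = 1})| < (ℓ : ℤ) := by
      rw [abs_lt]
      have : (ℓ : ℤ) > 4 * m + 2 := by exact_mod_cast hℓ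
      constructor <;> linarith [b1.1, b1.2, b2.1, b2.2]
    have := Int.eq_zero_of_abs_lt_dvd hdvd habs
    linarith

/-- Final: a nonempty `SS` set not containing the identity is everything but the identity. -/
theorem final_ss [Fact (1 < m)] {T : Set (DihedralGroup m)} (hT : SS P T)
    (h1 : (1 : DihedralGroup m) ∉ T) (hne : T.Nonempty) :
    ∀ x : DihedralGroup m, x ≠ 1 → x ∈ T := by
  classical
  have hex : ∀ k : (ZMod m)ˣ, ∃ E : Set (DihedralGroup m), SS P E ∧
      (∀ j : ZMod m, r ((k : ZMod m) * j) ∈ E ↔ r j ∈ T) ∧ Az E + Bz E = Az T + Bz T := by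
    intro k
    obtain ⟨ℓ, hℓN, hℓp, hℓ⟩ := Nat.forall_exists_prime_gt_and_eq_mod (q := m) k.isUnit (4 * m + 2)
    haveI : Fact ℓ.Prime := ⟨hℓp⟩
    have := multiplier hT (ℓ := ℓ) hℓN
    rwa [hℓ] at this
  choose E hES hEr hEc using hex
  -- `Az` is preserved
  have hEA : ∀ k, Az (E k) = Az T := by
    intro k
    have h2 : Az (E k) = ∑ j, al ℤ (E k) ((k : ZMod m) * j) := by
      simp only [Az]
      exact (Equiv.sum_comp (Units.mulLeft k) (al ℤ (E k))).symm
    rw [h2]
    refine Finset.sum_congr rfl fun j _ => ?_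
    by_cases hm : r j ∈ T
    · rw [al_mem hm, al_mem ((hEr k j).2 hm)]
    · rw [al_not hm, al_not (fun h => hm ((hEr k j).1 h))]
  have hEB : ∀ k, Bz (E k) = Bz T := by
    intro k
    have := hEc k
    rw [hEA k] at this
    linarith
  set w : DihedralGroup m → ℤ := fun x => ∑ k, chi ℤ (E k) x with hw
  have hwI : IsI P (ofF w) := by
    intro g hg x y
    simp only [ofF_apply, hw]
    refine Finset.sum_congr rfl fun k _ => ?_
    exact chi_isI (hES k) g hg x y
  have hw_r : ∀ y : ZMod m, w (r y) = ∑ k : (ZMod m)ˣ, al ℤ T (((k⁻¹ : (ZMod m)ˣ) : ZMod m) * y) := by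
    intro y
    simp only [hw]
    refine Finset.sum_congr rfl fun k _ => ?_
    have hy : y = (k : ZMod m) * (((k⁻¹ : (ZMod m)ˣ) : ZMod m) * y) := by simp
    by_cases hm : r (((k⁻¹ : (ZMod m)ˣ) : ZMod m) * y) ∈ T
    · rw [al_mem hm, chi_mem]
      rw [hy]
      exact (hEr k _).2 hm
    · rw [al_not hm, chi_not]
      intro h
      rw [hy] at h
      exact hm ((hEr k _).1 h)
  have hwrat : ∀ i j : ZMod m, addOrderOf i = addOrderOf j → w (r i) = w (r j) := by
    intro i j hij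
    obtain ⟨ℓ, hℓN, hℓp, hℓ⟩ := dir_prime hij (m + 1)
    obtain ⟨u, hu⟩ := isUnit_of_big (m := m) hℓp (by omega)
    rw [hw_r, hw_r, ← hℓ, ← hu]
    rw [← Equiv.sum_comp (Equiv.mulLeft u) (fun k : (ZMod m)ˣ =>
      al ℤ T (((k⁻¹ : (ZMod m)ˣ) : ZMod m) * ((u : ZMod m) * i)))]
    refine Finset.sum_congr rfl fun k _ => ?_
    simp only [Equiv.coe_mulLeft]
    congr 1
    rw [mul_inv_rev, Units.val_mul, mul_assoc, Units.inv_mul_cancel_left]
  have hr1 : (r (1 : ZMod m) : DihedralGroup m) ≠ 1 := r_one_ne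
  have hW1 := main_rat (P := P) (E := {z | w z = w (r 1)} \ {1}) ((show SS P {z | w z = w (r 1)} from by
      have := hwI.ss_level (w (r 1))
      simpa using this).diff SS_one)
    (by
      intro i j hij
      constructor
      · rintro ⟨h3, h4⟩
        refine ⟨?_, fun h => h4 ((Rt_one i j hij).2 h)⟩
        show w (r j) = _
        rw [← hwrat i j hij]
        exact h3
      · rintro ⟨h3, h4⟩
        refine ⟨?_, fun h => h4 ((Rt_one i j hij).1 h)⟩
        show w (r i) = _
        rw [hwrat i j hij]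
        exact h3)
    (by simp)
  have hW2 : ∀ x : DihedralGroup m, x ≠ 1 → w x = w (r 1) := by
    rcases hW1 with h | h
    · exfalso
      have : r (1 : ZMod m) ∈ ({z | w z = w (r 1)} \ {1} : Set (DihedralGroup m)) := ⟨rfl, hr1⟩
      rw [h] at this
      exact this
    · intro x hx
      exact (h x hx).1
  set c := w (r 1) with hc
  have hw0 : w (r 0) = 0 := by
    simp only [hw]
    refine Finset.sum_eq_zero fun k _ => ?_
    apply chi_not
    intro h
    have h3 := (hEr k 0).1 (by rwa [mul_zero])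
    exact h1 h3
  set Φ : ℤ := (Fintype.card (ZMod m)ˣ : ℤ) with hΦ
  have hΦ0 : Φ ≠ 0 := by
    have : 0 < Fintype.card (ZMod m)ˣ := Fintype.card_pos
    rw [hΦ]
    omega
  have hsumS : (m : ℤ) * c = Φ * Bz T := by
    have h3 : ∑ i : ZMod m, w (sr i) = (m : ℤ) * c := by
      rw [Finset.sum_congr rfl (fun i _ => hW2 (sr i) (sr_ne_one i))]
      simp [ZMod.card]
    rw [← h3]
    simp only [hw]
    rw [Finset.sum_comm]
    have h5 : ∀ k, ∑ i : ZMod m, chi ℤ (E k) (sr i) = Bz T := fun k => hEB k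
    rw [Finset.sum_congr rfl (fun k _ => h5 k)]
    simp [hΦ]
  have hsumR : ((m : ℤ) - 1) * c = Φ * Az T := by
    have h3 : ∑ i : ZMod m, w (r i) = ((m : ℤ) - 1) * c := by
      have h4 : ∀ i : ZMod m, w (r i) = c - if i = 0 then c else 0 := by
        intro i
        by_cases hi : i = 0
        · subst hi
          rw [hw0]; simp
        · rw [hW2 (r i) (fun h => hi ((r_eq_one_iff _).1 h))]
          simp [hi]
      rw [Finset.sum_congr rfl (fun i _ => h4 i), Finset.sum_sub_distrib]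
      simp [ZMod.card]
      ring
    rw [← h3]
    simp only [hw]
    rw [Finset.sum_comm]
    have h5 : ∀ k, ∑ i : ZMod m, chi ℤ (E k) (r i) = Az T := fun k => hEA k
    rw [Finset.sum_congr rfl (fun k _ => h5 k)]
    simp [hΦ]
  have hkey : Az T * (m : ℤ) = ((m : ℤ) - 1) * Bz T := by
    apply mul_left_cancel₀ hΦ0
    calc Φ * (Az T * (m : ℤ)) = (Φ * Az T) * m := by ring
      _ = ((m : ℤ) - 1) * c * m := by rw [hsumR]
      _ = ((m : ℤ) - 1) * ((m : ℤ) * c) := by ring
      _ = ((m : ℤ) - 1) * (Φ * Bz T) := by rw [hsumS]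
      _ = Φ * (((m : ℤ) - 1) * Bz T) := by ring
  have hA := Az_pos hT hne
  have hTc : Tᶜ.Nonempty := ⟨1, h1⟩
  have hA' := Az_pos hT.compl hTc
  rw [Az_compl] at hA'
  have hm1 : (1 : ℤ) < m := by
    have : 1 < m := Fact.out
    exact_mod_cast this
  -- `m - 1 ∣ Az T`
  have hdvd : ((m : ℤ) - 1) ∣ Az T := by
    have h3 : ((m : ℤ) - 1) ∣ Az T * ((m : ℤ) - 1) + Az T := by
      refine ⟨Bz T, ?_⟩
      linarith
    exact (Int.dvd_add_right (dvd_mul_left _ _)).1 h3
  have hAm : Az T = (m : ℤ) - 1 := by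
    have h3 := Int.le_of_dvd hA hdvd
    linarith
  have hBm : Bz T = m := by
    rw [hAm] at hkey
    have : (m : ℤ) - 1 ≠ 0 := by omega
    apply mul_left_cancel₀ this
    linarith
  intro x hx
  cases x with
  | r i =>
    by_contra hn
    have hi0 : i ≠ 0 := fun h => hx ((r_eq_one_iff _).2 h)
    have h3 : Az Tᶜ = 1 := by rw [Az_compl, hAm]; ring
    have h4 : r (0 : ZMod m) ∈ Tᶜ := h1
    have h5 : r i ∈ Tᶜ := hn
    have h6 : al ℤ Tᶜ 0 + al ℤ Tᶜ i ≤ Az Tᶜ := by
      have h7 := Finset.sum_le_sum_of_subset_of_nonneg (f := al ℤ Tᶜ)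
        (s := {0, i}) (t := Finset.univ) (Finset.subset_univ _)
        (fun j _ _ => by rcases al_cases Tᶜ j with h | h <;> simp [h])
      rw [Finset.sum_pair hi0.symm] at h7
      exact h7
    rw [al_mem h4, al_mem h5, h3] at h6
    norm_num at h6
  | sr i =>
    by_contra hn
    have h3 : Bz Tᶜ = 0 := by rw [Bz_compl, hBm]; ring
    have h5 : sr i ∈ Tᶜ := hn
    have h4 := (Finset.sum_eq_zero_iff_of_nonneg (f := be ℤ Tᶜ) (s := Finset.univ)
      (fun j _ => by rcases be_cases Tᶜ j with h | h <;> simp [h])).1 h3 i (Finset.mem_univ _)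
    rw [be_mem h5] at h4
    norm_num at h4

end Cfsg.Agent.H08.Dih
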