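import Mathlib
import Cfsg.Agent.Lib.H08.Dih7

set_option autoImplicit false

namespace Cfsg.Agent.H08.Dih

open DihedralGroup Finset

variable {m : ℕ} [NeZero m]

/-- point stabilizer orbits -/
lemma stab_orbit_ss (P : PG m) (x : DihedralGroup m) :
    SS P {y | ∃ g ∈ P.G, g 1 = 1 ∧ g x = y} := by
  rintro g₂ hg₂ u v ⟨g, hg, hg1, hgx⟩
  refine ⟨(Equiv.mulLeft (g₂ u)⁻¹) * g₂ * (Equiv.mulLeft u) * g,
    P.G.mul_mem (P.G.mul_mem (P.G.mul_mem (P.hL _) hg₂) (P.hL _)) hg, ?_, ?_⟩
  · simp [hg1]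
  · simp [hgx]

theorem two_trans_PG (P : PG m) (x y : DihedralGroup m) (hx : x ≠ 1) (hy : y ≠ 1) :
    ∃ g ∈ P.G, g 1 = 1 ∧ g x = y := by
  by_cases hm1 : 1 < m
  · haveI : Fact (1 < m) := ⟨hm1⟩
    have := final_ss (stab_orbit_ss P x) (by
      rintro ⟨g, _, hg1, hgx⟩
      apply hx
      apply g.injective
      rw [hg1, hgx]) ⟨x, 1, P.G.one_mem, rfl, rfl⟩ y hy
    exact this
  · have hm : m = 1 := by
      have := Nat.pos_of_ne_zero (NeZero.ne m)
      omega
    subst hm
    have hall : ∀ z : DihedralGroup 1, z ≠ 1 → z = sr 0 := by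
      intro z hz
      cases z with
      | r i =>
        exfalso
        apply hz
        have : i = 0 := Subsingleton.elim _ _
        subst this
        rfl
      | sr i =>
        have : i = 0 := Subsingleton.elim _ _
        rw [this]
    rw [hall x hx, hall y hy]
    exact ⟨1, P.G.one_mem, rfl, rfl⟩

end Cfsg.Agent.H08.Dih
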