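import Cfsg.Agent.Lib.H01.ExtraIso
import Cfsg.Agent.Lib.H01.Fitting
import Cfsg.Agent.Lib.H08.Transfer2
import Cfsg.Prelude.Def_Transfer

/-! Timmesfeld-type parity arguments: the transfer into `ℤˣ` for an involution centraliser
whose 2-core is a large extraspecial group. -/

set_option autoImplicit false
set_option linter.style.haveILetI false

namespace Cfsg.Agent.H08.Tim

open Cfsg.Agent.H13.ExtraBound Cfsg.Agent.H01

section Parity

/-- Counting modulo two on an invariant subset of a set acted on by a 2-subgroup. -/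
theorem card_inv_modEq {Γ α : Type*} [Group Γ] [MulAction Γ α] [Finite α] (A : Subgroup Γ)
    (hA : IsPGroup 2 A) (X : Set α) (hX : ∀ a ∈ A, ∀ x ∈ X, a • x ∈ X) :
    Nat.card X ≡ Nat.card {x : α // x ∈ X ∧ ∀ a ∈ A, a • x = x} [MOD 2] := by
  classical
  haveI : Fact (Nat.Prime 2) := ⟨Nat.prime_two⟩
  letI : MulAction A X :=
    { smul := fun a x => ⟨(a : Γ) • x.1, hX a a.2 x.1 x.2⟩
      one_smul := fun x => Subtype.ext (one_smul Γ x.1)
      mul_smul := fun a b x => Subtype.ext (mul_smul (a : Γ) (b : Γ) x.1) }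
  have h := hA.card_modEq_card_fixedPoints X
  have h2 : Nat.card (MulAction.fixedPoints A X) = Nat.card {x : α // x ∈ X ∧ ∀ a ∈ A, a • x = x} := by
    apply Nat.card_congr
    exact
      { toFun := fun v => ⟨v.1.1, v.1.2, fun a ha => congrArg Subtype.val (v.2 ⟨a, ha⟩)⟩
        invFun := fun v => ⟨⟨v.1, v.2.1⟩, fun a => Subtype.ext (v.2.2 a.1 a.2)⟩
        left_inv := fun v => rfl
        right_inv := fun v => rfl }
  rw [h2] at h
  exact h

end Parity

variable {G : Type*} [Group G]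

theorem smul_mk_eq_iff (H : Subgroup G) (d g : G) :
    d • (g : G ⧸ H) = (g : G ⧸ H) ↔ g⁻¹ * d * g ∈ H := by
  rw [MulAction.Quotient.smul_coe, QuotientGroup.eq]
  constructor
  · intro h
    have := H.inv_mem h
    simpa [mul_assoc] using this
  · intro h
    have := H.inv_mem h
    simpa [mul_assoc] using this

theorem map_conj_val {H : Type*} [Group H] {A : Type*} [CommGroup A] (φ : H →* A) (a b : H) :
    φ (a⁻¹ * b * a) = φ b := by
  rw [map_mul, map_mul, map_inv, mul_comm (φ a)⁻¹, inv_mul_cancel_right]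

theorem map_comm_val {H : Type*} [Group H] {A : Type*} [CommGroup A] (φ : H →* A) (a b : H) :
    φ (a * b * a⁻¹ * b⁻¹) = 1 := by
  rw [map_mul, map_mul, map_mul, map_inv, map_inv, mul_comm (φ a) (φ b), mul_assoc (φ b), mul_inv_cancel,
    mul_one, mul_inv_cancel]

/-- `g` is bad for `e`: the conjugate of `e` lies in `H` and is sent to `-1`. -/
def Bad (H : Subgroup G) (φ : H →* ℤˣ) (e g : G) : Prop :=
  ∃ h : g⁻¹ * e * g ∈ H, φ ⟨_, h⟩ = -1

theorem bad_mul_right (H : Subgroup G) (φ : H →* ℤˣ) (e g r : G) (hr : r ∈ H) :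
    Bad H φ e (g * r) ↔ Bad H φ e g := by
  constructor
  · rintro ⟨h, hv⟩
    have h1 : g⁻¹ * e * g ∈ H := by
      have : g⁻¹ * e * g = r * ((g * r)⁻¹ * e * (g * r)) * r⁻¹ := by group
      rw [this]
      exact H.mul_mem (H.mul_mem hr h) (H.inv_mem hr)
    refine ⟨h1, ?_⟩
    have h2 : (⟨_, h⟩ : H) = (⟨r, hr⟩ : H)⁻¹ * ⟨_, h1⟩ * ⟨r, hr⟩ := Subtype.ext (by
      simp only [Subgroup.coe_mul, Subgroup.coe_inv]
      group)
    rw [h2, map_conj_val] at hv
    exact hv
  · rintro ⟨h, hv⟩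
    have h1 : (g * r)⁻¹ * e * (g * r) ∈ H := by
      have : (g * r)⁻¹ * e * (g * r) = r⁻¹ * (g⁻¹ * e * g) * r := by group
      rw [this]
      exact H.mul_mem (H.mul_mem (H.inv_mem hr) h) hr
    refine ⟨h1, ?_⟩
    have h2 : (⟨_, h1⟩ : H) = (⟨r, hr⟩ : H)⁻¹ * ⟨_, h⟩ * ⟨r, hr⟩ := Subtype.ext (by
      simp only [Subgroup.coe_mul, Subgroup.coe_inv]
      group)
    rw [h2, map_conj_val]
    exact hv

theorem bad_out_iff (H : Subgroup G) (φ : H →* ℤˣ) (e g : G) :
    Bad H φ e (Quotient.out (g : G ⧸ H)) ↔ Bad H φ e g := by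
  obtain ⟨h, hh⟩ := QuotientGroup.mk_out_eq_mul H g
  rw [hh]
  exact bad_mul_right H φ e g h h.2

theorem transfer_trivial [Finite G] (hres : Cfsg.pResidual 2 G = ⊤) (H : Subgroup G) (φ : H →* ℤˣ) (g : G) :
    MonoidHom.transfer φ g = 1 := by
  have h1 : (⊤ : Subgroup G) ≤ (MonoidHom.transfer φ).ker := by
    rw [← hres]
    unfold Cfsg.pResidual
    rw [Subgroup.closure_le]
    intro x hx
    have hodd : Odd (orderOf x) := by
      have : Nat.Coprime (orderOf x) 2 := hx
      exact Nat.Coprime.odd_of_right this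
    show MonoidHom.transfer φ x = 1
    have h2 : (MonoidHom.transfer φ x) ^ orderOf x = 1 := by
      rw [← map_pow, pow_orderOf_eq_one, map_one]
    rcases Int.units_eq_one_or (MonoidHom.transfer φ x) with h3 | h3
    · exact h3
    · rw [h3, hodd.neg_one_pow] at h2
      exact absurd h2 (by decide)
  exact h1 (Subgroup.mem_top g)

/-- From the odd parity of the bad cosets to the value of the transfer. -/
theorem transfer_eq_neg_one_of_odd [Finite G] (H : Subgroup G) (φ : H →* ℤˣ) {e : G} (he : e ^ 2 = 1)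
    (hodd : Nat.card {ω : G ⧸ H | Bad H φ e (Quotient.out ω)} ≡ 1 [MOD 2]) :
    MonoidHom.transfer φ e = -1 := by
  classical
  haveI : Fintype (G ⧸ H) := Fintype.ofFinite _
  rw [Cfsg.Agent.H08.transfer_involution H φ e he]
  have h1 : ∀ ω : G ⧸ H, (if h : (Quotient.out ω)⁻¹ * e * (Quotient.out ω) ∈ H then φ ⟨_, h⟩ else 1)
      = if Bad H φ e (Quotient.out ω) then (-1 : ℤˣ) else 1 := by
    intro ω
    by_cases hb : Bad H φ e (Quotient.out ω)
    · rw [if_pos hb]
      obtain ⟨h, hv⟩ := hb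
      rw [dif_pos h, hv]
    · rw [if_neg hb]
      by_cases h : (Quotient.out ω)⁻¹ * e * (Quotient.out ω) ∈ H
      · rw [dif_pos h]
        rcases Int.units_eq_one_or (φ ⟨_, h⟩) with h3 | h3
        · exact h3
        · exact absurd ⟨h, h3⟩ hb
      · rw [dif_neg h]
  simp_rw [h1]
  rw [Finset.prod_ite, Finset.prod_const, Finset.prod_const_one, mul_one]
  have h2 : Odd (Finset.univ.filter fun ω : G ⧸ H => Bad H φ e (Quotient.out ω)).card := by
    have h3 : Nat.card {ω : G ⧸ H | Bad H φ e (Quotient.out ω)} =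
        (Finset.univ.filter fun ω : G ⧸ H => Bad H φ e (Quotient.out ω)).card := by
      rw [Nat.card_eq_fintype_card]
      exact Fintype.card_subtype _
    rw [← h3]
    exact Nat.odd_iff.2 hodd
  exact h2.neg_one_pow

/-- The centraliser of an element. -/
abbrev Cz (z : G) : Subgroup G := Subgroup.centralizer ({z} : Set G)

section Main

variable [Finite G] {z : G} {w : ℕ} {E : Subgroup G}


/-- An involution of the extraspecial group of width at least two has trivial value under every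
character of the centraliser, when `G` has no index-two quotients. -/
theorem invol_val_one (hres : Cfsg.pResidual 2 G = ⊤) (E : Subgroup G) (hx : ExtC 2 E z (w + 2))
    (hEH : E ≤ (Cz z)) (hcent : Subgroup.centralizer (E : Set G) ≤ E) (φ : (Cz z) →* ℤˣ)
    {e : G} (heE : e ∈ E) (he2 : e ^ 2 = 1) : φ ⟨e, hEH heE⟩ = 1 := by
  classical
  haveI : Fact (Nat.Prime 2) := ⟨Nat.prime_two⟩
  by_contra hne
  have hv : φ ⟨e, hEH heE⟩ = -1 := (Int.units_eq_one_or _).resolve_left hne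
  have hEp : IsPGroup 2 E := IsPGroup.of_card hx.card
  -- commutators
  have hcomm : ∀ x y : G, ∀ (hx' : x ∈ (Cz z)) (hy' : y ∈ (Cz z)) (hh : x * y * x⁻¹ * y⁻¹ ∈ (Cz z)),
      φ ⟨_, hh⟩ = 1 := by
    intro x y hx' hy' hh
    have : (⟨_, hh⟩ : (Cz z)) = (⟨x, hx'⟩ : (Cz z)) * ⟨y, hy'⟩ * (⟨x, hx'⟩ : (Cz z))⁻¹ * (⟨y, hy'⟩ : (Cz z))⁻¹ := rfl
    rw [this]
    exact map_comm_val φ _ _
  have hzz : z * z = 1 := by rw [← pow_two]; exact hx.zp
  -- z has value one
  have hzv : ∀ hh : z ∈ (Cz z), φ ⟨z, hh⟩ = 1 := by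
    intro hh
    obtain ⟨a, ha, b, hb, hab⟩ := exists_pair hx
    have := hcomm a b (hEH ha) (hEH hb) (by rw [hab]; exact hh)
    simpa only [hab] using this
  -- e is not central in E
  have heC : ∃ d₀ ∈ E, e * d₀ ≠ d₀ * e := by
    by_contra hcon
    push Not at hcon
    rcases mem_zpowers_two hx.zp (hx.cen e heE hcon) with h | h
    · apply hne
      have : (⟨e, hEH heE⟩ : (Cz z)) = 1 := Subtype.ext h
      rw [this, map_one]
    · apply hne
      have h3 := hzv (hEH hx.zE)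
      have h4 : (⟨e, hEH heE⟩ : (Cz z)) = ⟨z, hEH hx.zE⟩ := Subtype.ext h
      rw [h4]
      exact h3
  obtain ⟨d₀, hd₀, hd₀e⟩ := heC
  have hF := ExtC.reduce hx heE hd₀ hd₀e
  obtain ⟨a, haF, b, hbF, hab⟩ := exists_pair hF
  have haE : a ∈ E := (Subgroup.mem_inf.1 (Subgroup.mem_inf.1 haF).1).1
  have hbE : b ∈ E := (Subgroup.mem_inf.1 (Subgroup.mem_inf.1 hbF).1).1
  have hae : e * a = a * e := mem_C_iff.1 (Subgroup.mem_inf.1 haF).2
  have hbe : e * b = b * e := mem_C_iff.1 (Subgroup.mem_inf.1 hbF).2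
  -- the centraliser of e in E
  let C : Subgroup G := E ⊓ Subgroup.centralizer ({e} : Set G)
  have hCE : C ≤ E := inf_le_left
  have hCp : IsPGroup 2 C := hEp.to_le hCE
  have hmemC : ∀ c : G, c ∈ C ↔ c ∈ E ∧ e * c = c * e := by
    intro c
    rw [Subgroup.mem_inf, mem_C_iff]
  have haC : a ∈ C := (hmemC a).2 ⟨haE, hae⟩
  have hbC : b ∈ C := (hmemC b).2 ⟨hbE, hbe⟩
  -- conjugates of e
  have hconj : ∀ d ∈ E, d⁻¹ * e * d = e ∨ d⁻¹ * e * d = z * e := by
    intro d hd
    have h1 := hx.comm d⁻¹ (E.inv_mem hd) e heE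
    rw [inv_inv] at h1
    rcases mem_zpowers_two hx.zp h1 with h | h
    · left
      rwa [mul_inv_eq_one] at h
    · right
      rwa [mul_inv_eq_iff_eq_mul] at h
  have hzcomm : ∀ x ∈ E, x * z = z * x := hx.zc
  -- normality of C
  have hCn : ∀ c ∈ C, ∀ d ∈ E, d⁻¹ * c * d ∈ C := by
    intro c hc d hd
    obtain ⟨hcE, hce⟩ := (hmemC c).1 hc
    refine (hmemC _).2 ⟨E.mul_mem (E.mul_mem (E.inv_mem hd) hcE) hd, ?_⟩
    have hc' : c * (d * e * d⁻¹) = (d * e * d⁻¹) * c := by
      have h1 := hconj d⁻¹ (E.inv_mem hd)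
      rw [inv_inv] at h1
      rcases h1 with h1 | h1
      · rw [h1]; exact hce.symm
      · rw [h1, ← mul_assoc, hzcomm c hcE, mul_assoc, ← hce, mul_assoc]
    calc e * (d⁻¹ * c * d) = d⁻¹ * ((d * e * d⁻¹) * c) * d := by group
      _ = d⁻¹ * (c * (d * e * d⁻¹)) * d := by rw [hc']
      _ = d⁻¹ * c * d * e := by group
  -- the sets
  let X : Set (G ⧸ (Cz z)) := {ω | Bad (Cz z) φ e (Quotient.out ω)}
  have hXmk : ∀ g : G, ((g : G ⧸ (Cz z)) ∈ X) ↔ Bad (Cz z) φ e g := fun g => bad_out_iff (Cz z) φ e g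
  have hstep1 : ∀ c ∈ C, ∀ ω ∈ X, c • ω ∈ X := by
    intro c hc ω hω
    induction ω using QuotientGroup.induction_on with
    | H g =>
      rw [MulAction.Quotient.smul_coe, hXmk]
      rw [hXmk] at hω
      obtain ⟨h, hv'⟩ := hω
      obtain ⟨-, hce⟩ := (hmemC c).1 hc
      have e1 : ((c : G) • g)⁻¹ * e * ((c : G) • g) = g⁻¹ * e * g := by
        rw [smul_eq_mul]
        calc (c * g)⁻¹ * e * (c * g) = g⁻¹ * (c⁻¹ * (e * c)) * g := by group
          _ = g⁻¹ * e * g := by rw [hce]; group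
      exact ⟨by rw [e1]; exact h, by simpa only [e1] using hv'⟩
  let X₁ : Set (G ⧸ (Cz z)) := {ω | ω ∈ X ∧ ∀ c ∈ C, c • ω = ω}
  have hstep2 : ∀ d ∈ E, ∀ ω ∈ X₁, d • ω ∈ X₁ := by
    intro d hd ω hω
    induction ω using QuotientGroup.induction_on with
    | H g =>
      obtain ⟨hgX, hgC⟩ := hω
      rw [hXmk] at hgX
      have hgC' : ∀ c ∈ C, g⁻¹ * c * g ∈ (Cz z) := fun c hc => (smul_mk_eq_iff _ c g).1 (hgC c hc)
      have hgz : g⁻¹ * z * g ∈ (Cz z) := by
        have e1 : g⁻¹ * z * g = (g⁻¹ * a * g) * (g⁻¹ * b * g) * (g⁻¹ * a * g)⁻¹ * (g⁻¹ * b * g)⁻¹ := by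
          rw [← hab]; group
        rw [e1]
        exact (Cz z).mul_mem ((Cz z).mul_mem ((Cz z).mul_mem (hgC' a haC) (hgC' b hbC))
          ((Cz z).inv_mem (hgC' a haC))) ((Cz z).inv_mem (hgC' b hbC))
      have hgzv : φ ⟨_, hgz⟩ = 1 := by
        have e1 : g⁻¹ * z * g = (g⁻¹ * a * g) * (g⁻¹ * b * g) * (g⁻¹ * a * g)⁻¹ * (g⁻¹ * b * g)⁻¹ := by
          rw [← hab]; group
        have h3' : (g⁻¹ * a * g) * (g⁻¹ * b * g) * (g⁻¹ * a * g)⁻¹ * (g⁻¹ * b * g)⁻¹ ∈ (Cz z) := by
          rw [← e1]; exact hgz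
        have h3 := hcomm _ _ (hgC' a haC) (hgC' b hbC) h3'
        have h4 : (⟨_, hgz⟩ : (Cz z)) = ⟨_, h3'⟩ := Subtype.ext e1
        rw [h4]
        exact h3
      rw [MulAction.Quotient.smul_coe]
      constructor
      · rw [hXmk, smul_eq_mul]
        obtain ⟨h, hv'⟩ := hgX
        rcases hconj d hd with h1 | h1
        · have e1 : (d * g)⁻¹ * e * (d * g) = g⁻¹ * e * g := by
            calc (d * g)⁻¹ * e * (d * g) = g⁻¹ * (d⁻¹ * e * d) * g := by group
              _ = g⁻¹ * e * g := by rw [h1]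
          have h5 : (d * g)⁻¹ * e * (d * g) ∈ (Cz z) := by rw [e1]; exact h
          refine ⟨h5, ?_⟩
          have h4 : (⟨_, h5⟩ : (Cz z)) = ⟨_, h⟩ := Subtype.ext e1
          rw [h4]
          exact hv'
        · have e1 : (d * g)⁻¹ * e * (d * g) = (g⁻¹ * z * g) * (g⁻¹ * e * g) := by
            calc (d * g)⁻¹ * e * (d * g) = g⁻¹ * (d⁻¹ * e * d) * g := by group
              _ = (g⁻¹ * z * g) * (g⁻¹ * e * g) := by rw [h1]; group
          have h5 : (d * g)⁻¹ * e * (d * g) ∈ (Cz z) := by rw [e1]; exact (Cz z).mul_mem hgz h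
          refine ⟨h5, ?_⟩
          have h4 : (⟨_, h5⟩ : (Cz z)) = ⟨_, hgz⟩ * ⟨_, h⟩ := Subtype.ext e1
          rw [h4, map_mul, hgzv, hv', one_mul]
      · intro c hc
        rw [smul_mk_eq_iff, smul_eq_mul]
        have e1 : (d * g)⁻¹ * c * (d * g) = g⁻¹ * (d⁻¹ * c * d) * g := by group
        rw [e1]
        exact hgC' _ (hCn c hc d hd)
  have hcard1 := card_inv_modEq C hCp X hstep1
  have hcard2 := card_inv_modEq E hEp X₁ hstep2
  have hone : Nat.card {x : G ⧸ (Cz z) // x ∈ X₁ ∧ ∀ a ∈ E, a • x = x} = 1 := by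
    rw [Nat.card_eq_one_iff_unique]
    constructor
    · have hall : ∀ v : {x : G ⧸ (Cz z) // x ∈ X₁ ∧ ∀ a ∈ E, a • x = x}, v.1 = ((1 : G) : G ⧸ (Cz z)) := by
        rintro ⟨ω, hω1, hω2⟩
        induction ω using QuotientGroup.induction_on with
        | H g =>
          have hg : ∀ d ∈ E, g⁻¹ * d * g ∈ (Cz z) := fun d hd => (smul_mk_eq_iff _ d g).1 (hω2 d hd)
          have hyc : g * z * g⁻¹ ∈ Subgroup.centralizer (E : Set G) := by
            rw [Subgroup.mem_centralizer_iff]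
            intro d hd
            have h3 := mem_C_iff.1 (hg d hd)
            calc d * (g * z * g⁻¹) = g * ((g⁻¹ * d * g) * z) * g⁻¹ := by group
              _ = g * (z * (g⁻¹ * d * g)) * g⁻¹ := by rw [h3]
              _ = g * z * g⁻¹ * d := by group
          have hyE := hcent hyc
          have hyz : g * z * g⁻¹ ∈ Subgroup.zpowers z :=
            hx.cen _ hyE (fun y hy => ((Subgroup.mem_centralizer_iff.1 hyc) y hy).symm)
          rcases mem_zpowers_two hx.zp hyz with h | h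
          · exfalso
            apply hx.z1
            have : z = g⁻¹ * (g * z * g⁻¹) * g := by group
            rw [this, h]
            group
          · show (g : G ⧸ (Cz z)) = ((1 : G) : G ⧸ (Cz z))
            rw [QuotientGroup.eq, mul_one]
            apply (Cz z).inv_mem
            rw [mem_C_iff]
            rw [mul_inv_eq_iff_eq_mul] at h
            exact h.symm
      exact ⟨fun u v => Subtype.ext ((hall u).trans (hall v).symm)⟩
    · have h5 : (1 : G)⁻¹ * e * 1 ∈ (Cz z) := by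
        simpa using hEH heE
      refine ⟨⟨((1 : G) : G ⧸ (Cz z)), ⟨?_, ?_⟩, ?_⟩⟩
      · rw [hXmk]
        refine ⟨h5, ?_⟩
        have h4 : (⟨_, h5⟩ : (Cz z)) = ⟨e, hEH heE⟩ := Subtype.ext (by simp)
        rw [h4]
        exact hv
      · intro c hc
        rw [smul_mk_eq_iff]
        simpa using hEH (hCE hc)
      · intro c hc
        rw [smul_mk_eq_iff]
        simpa using hEH hc
  rw [hone] at hcard2
  have hodd : Nat.card X ≡ 1 [MOD 2] := hcard1.trans hcard2
  have h7 := transfer_eq_neg_one_of_odd (Cz z) φ he2 hodd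
  rw [transfer_trivial hres] at h7
  exact absurd h7 (by decide)

/-- An element squaring to the centre has an involution partner. -/
theorem exists_inv_partner (hx : ExtC 2 E z (w + 2)) {u : G} (hu : u ∈ E) (hu2 : u ^ 2 = z) :
    ∃ t ∈ E, t ^ 2 = 1 ∧ t * u * t⁻¹ * u⁻¹ = z := by
  haveI : Fact (Nat.Prime 2) := ⟨Nat.prime_two⟩
  have hzz : z * z = 1 := by rw [← pow_two]; exact hx.zp
  have hzi : z⁻¹ = z := inv_eq_of_mul_eq_one_left hzz
  -- `u` is not central
  have h1 : ∃ b ∈ E, u * b ≠ b * u := by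
    by_contra hcon
    push Not at hcon
    rcases mem_zpowers_two hx.zp (hx.cen u hu hcon) with h | h
    · apply hx.z1
      rw [← hu2, h, one_pow]
    · apply hx.z1
      rw [h] at hu2
      rw [← hu2]
      exact hx.zp
  obtain ⟨b, hb, hub⟩ := h1
  have hcub : b * u * b⁻¹ * u⁻¹ = z := by
    rcases mem_zpowers_two hx.zp (hx.comm b hb u hu) with h | h
    · exfalso
      apply hub
      rw [mul_inv_eq_one, mul_inv_eq_iff_eq_mul] at h
      exact h.symm
    · exact h
  rcases mem_zpowers_two hx.zp (hx.pow b hb) with hb2 | hb2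
  · exact ⟨b, hb, hb2, hcub⟩
  -- b squares to z: use a commuting element squaring to z
  have hF := ExtC.reduce hx hu hb hub
  obtain ⟨c, hcF, d, hdF, hcd⟩ := exists_pair hF
  have hcE : c ∈ E := (Subgroup.mem_inf.1 (Subgroup.mem_inf.1 hcF).1).1
  have hdE : d ∈ E := (Subgroup.mem_inf.1 (Subgroup.mem_inf.1 hdF).1).1
  have hcb : b * c = c * b := mem_C_iff.1 (Subgroup.mem_inf.1 (Subgroup.mem_inf.1 hcF).1).2
  have hcu : u * c = c * u := mem_C_iff.1 (Subgroup.mem_inf.1 hcF).2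
  have hdb : b * d = d * b := mem_C_iff.1 (Subgroup.mem_inf.1 (Subgroup.mem_inf.1 hdF).1).2
  have hdu : u * d = d * u := mem_C_iff.1 (Subgroup.mem_inf.1 hdF).2
  have hW : ∃ v ∈ E, v ^ 2 = z ∧ b * v = v * b ∧ u * v = v * u := by
    rcases mem_zpowers_two hx.zp (hx.pow c hcE) with hc2 | hc2
    · rcases mem_zpowers_two hx.zp (hx.pow d hdE) with hd2 | hd2
      · refine ⟨c * d, E.mul_mem hcE hdE, ?_, ?_, ?_⟩
        · have e1 : c * d = z * (d * c) := by
            rw [← hcd]; group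
          have hcc : c * c = 1 := by rw [← pow_two]; exact hc2
          have hdd : d * d = 1 := by rw [← pow_two]; exact hd2
          calc (c * d) ^ 2 = (c * d) * (c * d) := pow_two _
            _ = (z * (d * c)) * (c * d) := by rw [← e1]
            _ = z * (d * (c * c) * d) := by group
            _ = z * (d * d) := by rw [hcc, mul_one]
            _ = z := by rw [hdd, mul_one]
        · rw [← mul_assoc, hcb, mul_assoc, hdb, mul_assoc]
        · rw [← mul_assoc, hcu, mul_assoc, hdu, mul_assoc]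
      · exact ⟨d, hdE, hd2, hdb, hdu⟩
    · exact ⟨c, hcE, hc2, hcb, hcu⟩
  obtain ⟨v, hvE, hv2, hvb, hvu⟩ := hW
  refine ⟨b * v, E.mul_mem hb hvE, ?_, ?_⟩
  · have hcomm : Commute b v := hvb
    rw [hcomm.mul_pow, hb2, hv2, ← pow_two]
    exact hx.zp
  · have e1 : (b * v) * u * (b * v)⁻¹ * u⁻¹ = b * (v * u * v⁻¹) * b⁻¹ * u⁻¹ := by group
    have e2 : v * u * v⁻¹ = u := by
      rw [mul_inv_eq_iff_eq_mul]
      exact hvu.symm
    rw [e1, e2]
    exact hcub

/-- Every character of the centraliser is trivial on the whole extraspecial group. -/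
theorem val_one (hres : Cfsg.pResidual 2 G = ⊤) (E : Subgroup G) (hx : ExtC 2 E z (w + 2))
    (hEH : E ≤ (Cz z)) (hcent : Subgroup.centralizer (E : Set G) ≤ E) (φ : (Cz z) →* ℤˣ)
    {u : G} (hu : u ∈ E) : φ ⟨u, hEH hu⟩ = 1 := by
  haveI : Fact (Nat.Prime 2) := ⟨Nat.prime_two⟩
  rcases mem_zpowers_two hx.zp (hx.pow u hu) with hu2 | hu2
  · exact invol_val_one hres E hx hEH hcent φ hu hu2
  · obtain ⟨t, ht, ht2, htu⟩ := exists_inv_partner hx hu hu2
    have hzz : z * z = 1 := by rw [← pow_two]; exact hx.zp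
    have htt : t * t = 1 := by rw [← pow_two]; exact ht2
    have htu2 : (t * u) ^ 2 = 1 := by
      have e1 : t * u = z * (u * t) := by
        rw [← htu]; group
      calc (t * u) ^ 2 = (t * u) * (t * u) := pow_two _
        _ = (z * (u * t)) * (t * u) := by rw [← e1]
        _ = z * (u * (t * t) * u) := by group
        _ = z * u ^ 2 := by rw [htt, mul_one, pow_two]
        _ = 1 := by rw [hu2, hzz]
    have h1 := invol_val_one hres E hx hEH hcent φ ht ht2
    have h2 := invol_val_one hres E hx hEH hcent φ (E.mul_mem ht hu) htu2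
    have h3 : (⟨t * u, hEH (E.mul_mem ht hu)⟩ : (Cz z)) = ⟨t, hEH ht⟩ * ⟨u, hEH hu⟩ := rfl
    rw [h3, map_mul, h1, one_mul] at h2
    exact h2

/-- The extraspecial datum from the hypotheses on the 2-core. -/
theorem extC_core {z : G} (hz : orderOf z = 2) {E : Subgroup G}
    (hE : E = (Cfsg.pCore 2 ↥(Subgroup.centralizer ({z} : Set G))).map (Subgroup.centralizer ({z} : Set G)).subtype)
    (hext : Cfsg.IsExtraspecial 2 ↥E) {n : ℕ} (hcard : Nat.card ↥E = 2 ^ (2 * n + 1)) :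
    E ≤ Cz z ∧ ExtC 2 E z n := by
  haveI : Fact (Nat.Prime 2) := ⟨Nat.prime_two⟩
  have hEH : E ≤ Cz z := by
    rw [hE]
    exact Subgroup.map_subtype_le _
  have hz2 : z ^ 2 = 1 := by rw [← hz]; exact pow_orderOf_eq_one z
  have hz1 : z ≠ 1 := by
    intro h
    rw [h, orderOf_one] at hz
    omega
  have hzH : z ∈ Cz z := mem_C_iff.2 rfl
  have hzE : z ∈ E := by
    rw [hE]
    let z₀ : Cz z := ⟨z, hzH⟩
    have hcen : ∀ g : Cz z, g * z₀ = z₀ * g := fun g => Subtype.ext (mem_C_iff.1 g.2).symm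
    have hN : (Subgroup.zpowers z₀).Normal := by
      refine ⟨fun n hn g => ?_⟩
      obtain ⟨i, rfl⟩ := Subgroup.mem_zpowers_iff.1 hn
      have : g * z₀ ^ i * g⁻¹ = z₀ ^ i := by
        have h1 : Commute g (z₀ ^ i) := Commute.zpow_right (hcen g) i
        rw [h1.eq]
        group
      rw [this]
      exact Subgroup.zpow_mem_zpowers z₀ i
    have hP : IsPGroup 2 (Subgroup.zpowers z₀) := by
      apply IsPGroup.of_card (n := 1)
      rw [Nat.card_zpowers, pow_one, ← hz]
      exact Subgroup.orderOf_mk z hzH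
    have h2 : z₀ ∈ Cfsg.pCore 2 (Cz z) := Cfsg.Agent.H01.le_pCore hN hP (Subgroup.mem_zpowers z₀)
    exact ⟨z₀, h2, rfl⟩
  refine ⟨hEH, ?_⟩
  obtain ⟨z', w, hcw, hx⟩ := Cfsg.Agent.H01.extC_of_extraspecial hext
  have hwn : w = n := by
    rw [hcard] at hcw
    have := Nat.pow_right_injective (le_refl 2) hcw
    omega
  subst hwn
  have hzp : ∀ u : ↥E, u ∈ Subgroup.zpowers z' → (u : G) ∈ Subgroup.zpowers (z' : G) := by
    intro u hu
    obtain ⟨i, hi⟩ := Subgroup.mem_zpowers_iff.1 hu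
    refine Subgroup.mem_zpowers_iff.2 ⟨i, ?_⟩
    rw [← hi]
    rfl
  have hzz' : z = (z' : G) := by
    have h1 : (⟨z, hzE⟩ : ↥E) ∈ Subgroup.zpowers z' := by
      apply hx.cen _ (Subgroup.mem_top _)
      intro y _
      exact Subtype.ext (mem_C_iff.1 (hEH y.2))
    rcases mem_zpowers_two hx.zp h1 with h | h
    · exact absurd (congrArg Subtype.val h) hz1
    · exact congrArg Subtype.val h
  subst hzz'
  exact
    { zE := hzE
      z1 := hz1
      zp := hz2
      zc := fun x hx' => congrArg Subtype.val (hx.zc ⟨x, hx'⟩ (Subgroup.mem_top _))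
      comm := fun x hx1 y hy1 => hzp _ (hx.comm ⟨x, hx1⟩ (Subgroup.mem_top _) ⟨y, hy1⟩ (Subgroup.mem_top _))
      pow := fun x hx1 => hzp _ (hx.pow ⟨x, hx1⟩ (Subgroup.mem_top _))
      cen := fun x hx1 hc => hzp _ (hx.cen ⟨x, hx1⟩ (Subgroup.mem_top _) (fun y _ => Subtype.ext (hc y y.2)))
      card := hcard }

/-- The character attached to an index-two subgroup. -/
theorem exists_char_of_index_two {H : Type*} [Group H] (L : Subgroup H) (hL : L.index = 2) :
    ∃ φ : H →* ℤˣ, ∀ h : H, φ h = 1 ↔ h ∈ L := by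
  classical
  have hmul := fun a b : H => Subgroup.mul_mem_iff_of_index_two hL (a := a) (b := b)
  refine ⟨MonoidHom.mk' (fun h => if h ∈ L then 1 else -1) ?_, ?_⟩
  · intro a b
    by_cases ha : a ∈ L <;> by_cases hb : b ∈ L <;> simp [hmul, ha, hb]
  · intro h
    show (if h ∈ L then (1 : ℤˣ) else -1) = 1 ↔ h ∈ L
    by_cases hh : h ∈ L
    · simp [hh]
    · simp [hh]

end Main

end Cfsg.Agent.H08.Tim
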